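import Cfsg.Agent.H17.AltEight.Sys

/-!
The centraliser of the four-group generated by the images of `pt` and `pv`.
-/

set_option autoImplicit false
set_option maxHeartbeats 1000000
set_option maxRecDepth 8000

namespace Cfsg.Agent.H17.AltEight

open Equiv

def glue35Hom : Perm (Fin 3) × Perm (Fin 5) →* P8 :=
  ((finSumFinEquiv (m := 3) (n := 5)).permCongrHom.toMonoidHom).comp (Perm.sumCongrHom (Fin 3) (Fin 5))

theorem glue35Hom_apply (a : Perm (Fin 3)) (b : Perm (Fin 5)) : glue35Hom (a, b) = glue35 a b := rfl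

theorem glue35Hom_injective : Function.Injective glue35Hom := by
  intro x y h
  exact Perm.sumCongrHom_injective
    ((finSumFinEquiv (m := 3) (n := 5)).permCongrHom.injective h)

theorem K_comm_C : ∀ (a : Perm (Fin 3)) (b : Perm (Fin 5)), InK (glue35 a b) →
    glue35 a b * pC = pC * glue35 a b → a ^ 3 = 1 ∧ Perm.sign b = 1 := by
  decide +kernel

theorem A5_orders : ∀ b : Perm (Fin 5), Perm.sign b = 1 → b ^ 2 = 1 ∨ b ^ 3 = 1 ∨ b ^ 5 = 1 := by
  decide +kernel

/-- The word used to manufacture an involution from an element of order five. -/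
def w6 (p : P8) : P8 := p ^ 2 * (pC * p * pC⁻¹)

theorem A5_five : ∀ b : Perm (Fin 5), Perm.sign b = 1 → b ^ 5 = 1 → b ≠ 1 →
    w6 (sig * glue35 1 b * sig) ≠ 1 ∧ w6 (sig * glue35 1 b * sig) ^ 6 = 1 := by
  decide +kernel

theorem V_normal : ∀ a b : Fin 3, ∀ q : Fin 2,
    ∃ k l : Fin 2, (pC ^ a.val * pD ^ b.val)⁻¹ * (if q = 0 then pt else pv) * (pC ^ a.val * pD ^ b.val) =
      pt ^ k.val * pv ^ l.val := by
  decide +kernel

theorem sig_inv : sig⁻¹ = sig := inv_eq_of_mul_eq_one_right sig_sq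

theorem sigConj (p : P8) : sig * (sig * p * sig) * sig = p := by
  rw [show sig * (sig * p * sig) * sig = sig * sig * p * (sig * sig) by group, sig_sq, one_mul,
    mul_one]

theorem sigConj_mul (p q : P8) : sig * (p * q) * sig = sig * p * sig * (sig * q * sig) := by
  rw [show sig * p * sig * (sig * q * sig) = sig * p * (sig * sig) * q * sig by group, sig_sq]
  group

namespace Sys

variable {G : Type*} [Group G] (S : Sys G)

/-- The centraliser of the four-group. -/
def CV : Subgroup G := Subgroup.centralizer {S.ι pt, S.ι pv}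

theorem mem_CV {g : G} : g ∈ S.CV ↔ Commute g (S.ι pt) ∧ Commute g (S.ι pv) := by
  simp only [CV, Subgroup.mem_centralizer_iff, Set.mem_insert_iff, Set.mem_singleton_iff,
    forall_eq_or_imp, forall_eq]
  exact ⟨fun h => ⟨h.1.symm, h.2.symm⟩, fun h => ⟨h.1.eq.symm, h.2.eq.symm⟩⟩

theorem z_mem_CV : S.z ∈ S.CV :=
  S.mem_CV.2 ⟨S.ι_comm InK_basic.1 InK_basic.2.2.1 (by decide +kernel),
    S.ι_comm InK_basic.1 InK_basic.2.2.2.1 (by decide +kernel)⟩

theorem V_mem_CV {k l : ℕ} : S.ι (pt ^ k * pv ^ l) ∈ S.CV := by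
  rw [S.ι_mul (InK_basic.2.2.1.pow _) (InK_basic.2.2.2.1.pow _), S.ι_pow InK_basic.2.2.1,
    S.ι_pow InK_basic.2.2.2.1]
  refine mul_mem (pow_mem ?_ _) (pow_mem ?_ _) <;> rw [S.mem_CV]
  · exact ⟨Commute.refl _, S.ι_comm InK_basic.2.2.1 InK_basic.2.2.2.1 (by decide +kernel)⟩
  · exact ⟨S.ι_comm InK_basic.2.2.2.1 InK_basic.2.2.1 (by decide +kernel), Commute.refl _⟩

theorem CV_comm_z {g : G} (hg : g ∈ S.CV) (hz : Commute g S.z) :
    ∃ (i : Fin 3) (k l : Fin 2), g = S.ι (pC ^ i.val * pt ^ k.val * pv ^ l.val) := by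
  obtain ⟨p, hp, -, rfl⟩ := S.exists_ι_of_comm hz
  obtain ⟨ht, hv⟩ := S.mem_CV.1 hg
  obtain ⟨a, b, rfl⟩ := exists_glue35 hp.1
  obtain ⟨i, k, l, h⟩ := K_comm_V a b hp ((S.ι_comm_iff hp InK_basic.2.2.1).1 ht)
    ((S.ι_comm_iff hp InK_basic.2.2.2.1).1 hv)
  exact ⟨i, k, l, by rw [h]⟩

theorem selfD {g : G} (hz : Commute g S.z) (hw : Commute g S.w) : g ∈ S.D := by
  have hdec : ∀ (a : Perm (Fin 3)) (b : Perm (Fin 5)), InK (glue35 a b) →
      glue35 a b * pC = pC * glue35 a b → glue35 a b * pD = pD * glue35 a b →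
      ∃ i k : Fin 3, glue35 a b = pC ^ i.val * pD ^ k.val := by decide +kernel
  obtain ⟨p, hp, hpc, rfl⟩ := S.exists_ι_of_comm hz
  obtain ⟨a, b, rfl⟩ := exists_glue35 hp.1
  obtain ⟨i, k, h⟩ := hdec a b hp hpc ((S.ι_comm_iff hp InK_basic.2.1).1 hw)
  rw [h, S.ι_mul (InK_basic.1.pow _) (InK_basic.2.1.pow _), S.ι_pow InK_basic.1,
    S.ι_pow InK_basic.2.1]
  exact mul_mem (pow_mem S.z_mem_D _) (pow_mem S.w_mem_D _)

theorem card_D : Nat.card S.D = 9 := by
  obtain ⟨n, hn2, hn⟩ := (Nat.dvd_prime_pow Nat.prime_three).1 (show Nat.card S.D ∣ 3 ^ 2 from S.card_D_dvd)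
  have hD : Nat.card S.D = 3 ^ n := hn
  interval_cases n
  · refine absurd ?_ S.D_not_cyclic
    have : Subsingleton S.D := (Nat.card_eq_one_iff_unique.1 (hD.trans (pow_zero 3))).1
    infer_instance
  · exact absurd (isCyclic_of_prime_card (p := 3) (hD.trans (pow_one 3))) S.D_not_cyclic
  · exact hD

theorem isPGroup_D : IsPGroup 3 S.D := IsPGroup.of_card (n := 2) (by rw [S.card_D]; norm_num)

theorem D_maximal [Finite G] {Q : Subgroup G} (hQ : IsPGroup 3 Q) (h : S.D ≤ Q) : Q = S.D := by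
  obtain ⟨n, hn⟩ := IsPGroup.iff_card.1 hQ
  refine (Subgroup.eq_of_le_of_card_ge h ?_).symm
  rw [hn, S.card_D]
  by_contra hlt
  have h3 : 3 ≤ n := by
    by_contra h3
    have : 3 ^ n ≤ 3 ^ 2 := Nat.pow_le_pow_right (by norm_num) (by omega)
    omega
  exact S.not27 ((pow_dvd_pow 3 h3).trans (hn ▸ Q.card_subgroup_dvd_card))

/-- The Sylow subgroup `D`. -/
noncomputable def sylowD [Finite G] : Sylow 3 G :=
  { toSubgroup := S.D
    isPGroup' := S.isPGroup_D
    is_maximal' := fun hQ h => S.D_maximal hQ h }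

include S in
theorem not_nine [Finite G] {u : G} (hu : u ≠ 1) (hu2 : u * u = 1) :
    ¬ 9 ∣ Nat.card (Subgroup.centralizer {u} : Subgroup G) := by
  intro h9
  haveI : Fact (Nat.Prime 3) := ⟨Nat.prime_three⟩
  obtain ⟨P, hP⟩ := Sylow.exists_subgroup_card_pow_prime 3
    (G := (Subgroup.centralizer {u} : Subgroup G)) (n := 2) (by simpa using h9)
  set PG := P.map (Subgroup.centralizer {u} : Subgroup G).subtype with hPG
  have hcard : Nat.card PG = 9 := by
    rw [hPG, Subgroup.card_map_of_injective (Subgroup.subtype_injective _), hP]; norm_num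
  obtain ⟨Q, hQ⟩ := (IsPGroup.of_card (p := 3) (n := 2) (G := PG) (by rw [hcard]; norm_num)).exists_le_sylow
  obtain ⟨g, hg⟩ := MulAction.exists_smul_eq G S.sylowD Q
  have hQcard : Nat.card Q = 9 := by
    rw [← hg, Sylow.card_eq_multiplicity, ← Sylow.card_eq_multiplicity S.sylowD]
    exact S.card_D
  have heq : PG = Q := Subgroup.eq_of_le_of_card_ge hQ (le_of_eq (hQcard.trans hcard.symm))
  have hmem : ∀ d ∈ S.D, g * d * g⁻¹ ∈ PG := by
    intro d hd
    rw [heq, ← hg]
    exact ⟨d, hd, rfl⟩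
  have hc : ∀ d ∈ S.D, Commute (g⁻¹ * u * g) d := by
    intro d hd
    obtain ⟨⟨c, hc⟩, -, hc'⟩ := hmem d hd
    change c = g * d * g⁻¹ at hc'
    subst hc'
    have h := Subgroup.mem_centralizer_singleton_iff.1 hc
    show _ * _ = _ * _
    calc g⁻¹ * u * g * d = g⁻¹ * (u * (g * d * g⁻¹)) * g := by group
      _ = g⁻¹ * (g * d * g⁻¹ * u) * g := by rw [h]
      _ = _ := by group
  have h1 := S.selfD (hc _ S.z_mem_D) (hc _ S.w_mem_D)
  have h2 : (g⁻¹ * u * g) ^ 2 = 1 := by
    rw [sq, show g⁻¹ * u * g * (g⁻¹ * u * g) = g⁻¹ * (u * u) * g by group, hu2]; group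
  have h3 := orderOf_dvd_natCard (⟨g⁻¹ * u * g, h1⟩ : S.D)
  rw [Subgroup.orderOf_mk, S.card_D] at h3
  have h4 := Nat.dvd_gcd (orderOf_dvd_of_pow_eq_one h2) h3
  rw [show Nat.gcd 2 9 = 1 from rfl, Nat.dvd_one, orderOf_eq_one_iff] at h4
  apply hu
  calc u = g * (g⁻¹ * u * g) * g⁻¹ := by group
    _ = 1 := by rw [h4]; group

theorem pt_ne : S.ι pt ≠ 1 := fun h =>
  absurd (S.ι_inj InK_basic.2.2.1 InK.one (h.trans S.ι_one.symm)) (by decide +kernel)

theorem pt_sq : S.ι pt * S.ι pt = 1 := by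
  rw [← S.ι_mul InK_basic.2.2.1 InK_basic.2.2.1, show pt * pt = 1 by decide +kernel, S.ι_one]

/-- The normal complement of `⟨z⟩` in the centraliser of the four-group. -/
theorem exists_complement [Finite G] : ∃ M : Subgroup G, M ≤ S.CV ∧
    (∀ g ∈ S.CV, ∀ m ∈ M, g * m * g⁻¹ ∈ M) ∧ ¬ 3 ∣ Nat.card M ∧
    (∀ g ∈ S.CV, ∃ i : ℕ, i < 3 ∧ g * S.z ^ i ∈ M) ∧
    ∀ g ∈ S.CV, ∀ m : ℕ, ¬ 3 ∣ m → g ^ m = 1 → g ∈ M := by
  haveI : Fact (Nat.Prime 3) := ⟨Nat.prime_three⟩
  set zz : S.CV := ⟨S.z, S.z_mem_CV⟩ with hzz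
  have hoz : orderOf zz = 3 := by rw [hzz, Subgroup.orderOf_mk, S.orderOf_z]
  have h9 : ¬ 9 ∣ Nat.card S.CV := fun h => S.not_nine S.pt_ne S.pt_sq
    (h.trans (Subgroup.card_dvd_of_le (Subgroup.centralizer_le (by simp))))
  have hPcard : Nat.card (Subgroup.zpowers zz) = 3 := by rw [Nat.card_zpowers, hoz]
  have hmax : ∀ {Q : Subgroup S.CV}, IsPGroup 3 Q → Subgroup.zpowers zz ≤ Q →
      Q = Subgroup.zpowers zz := by
    intro Q hQ hle
    obtain ⟨n, hn⟩ := IsPGroup.iff_card.1 hQ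
    refine (Subgroup.eq_of_le_of_card_ge hle ?_).symm
    rw [hn, hPcard]
    by_contra hlt
    have h2 : 2 ≤ n := by
      by_contra h2
      have : 3 ^ n ≤ 3 ^ 1 := Nat.pow_le_pow_right (by norm_num) (by omega)
      omega
    exact h9 ((pow_dvd_pow 3 h2).trans (hn ▸ Q.card_subgroup_dvd_card))
  obtain ⟨P, hPz⟩ : ∃ P : Sylow 3 S.CV, (P : Subgroup S.CV) = Subgroup.zpowers zz :=
    ⟨{ toSubgroup := Subgroup.zpowers zz
       isPGroup' := IsPGroup.of_card (n := 1) (by rw [hPcard]; norm_num)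
       is_maximal' := hmax }, rfl⟩
  have hP : Subgroup.normalizer ((P : Subgroup S.CV) : Set S.CV) ≤
      Subgroup.centralizer ((P : Subgroup S.CV) : Set S.CV) := by
    rw [hPz]
    intro g hg
    have h1 : g * zz * g⁻¹ ∈ Subgroup.zpowers zz :=
      (Subgroup.mem_normalizer_iff.1 hg zz).1 (Subgroup.mem_zpowers _)
    obtain ⟨k, hk⟩ := Subgroup.mem_zpowers_iff.1 h1
    have hk' : (g : G) * S.z * (g : G)⁻¹ ∈ Subgroup.zpowers S.z := ⟨k, congrArg Subtype.val hk⟩
    obtain ⟨p, hp, hpe⟩ := S.ι_surj _ hk'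
    obtain ⟨ht, hv⟩ := S.mem_CV.1 g.2
    rw [← hpe] at ht hv
    obtain ⟨a, b, rfl⟩ := exists_glue35 hp.1
    obtain ⟨i, k', l, h⟩ := K_comm_V a b hp ((S.ι_comm_iff hp InK_basic.2.2.1).1 ht)
      ((S.ι_comm_iff hp InK_basic.2.2.2.1).1 hv)
    have hdec : ∀ (i : Fin 3) (k l : Fin 2), (pC ^ i.val * pt ^ k.val * pv ^ l.val) * pC =
        pC * (pC ^ i.val * pt ^ k.val * pv ^ l.val) := by decide +kernel
    have hcz : Commute (g : G) S.z := by
      rw [← hpe]
      exact S.ι_comm hp InK_basic.1 (by rw [h]; exact hdec i k' l)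
    rw [Subgroup.mem_centralizer_iff]
    intro x hx
    obtain ⟨m, rfl⟩ := Subgroup.mem_zpowers_iff.1 hx
    exact Subtype.ext ((hcz.zpow_right m).eq.symm)
  obtain ⟨K, hKn, hc, hnd⟩ : ∃ K : Subgroup S.CV, K.Normal ∧
      K.IsComplement' (Subgroup.zpowers zz) ∧ ¬ 3 ∣ Nat.card K :=
    ⟨_, MonoidHom.normal_ker _, hPz ▸ MonoidHom.ker_transferSylow_isComplement' P hP,
      MonoidHom.not_dvd_card_ker_transferSylow P hP⟩
  have hidx : K.index = 3 := hc.symm.index_eq_card.trans hPcard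
  have hcard : Nat.card (K.map S.CV.subtype) = Nat.card K :=
    Subgroup.card_map_of_injective (Subgroup.subtype_injective _)
  refine ⟨K.map S.CV.subtype, Subgroup.map_subtype_le K, ?_, ?_, ?_, ?_⟩
  · rintro g hg _ ⟨⟨m, hm⟩, hmK, rfl⟩
    exact ⟨⟨g, hg⟩ * ⟨m, hm⟩ * ⟨g, hg⟩⁻¹, hKn.conj_mem _ hmK _, rfl⟩
  · rw [hcard]; exact hnd
  · intro g hg
    obtain ⟨⟨⟨k, hk⟩, ⟨y, hy⟩⟩, hky⟩ := hc.2 ⟨g, hg⟩
    have hy' : y ∈ Subgroup.zpowers zz := hy
    obtain ⟨i, hi⟩ := Subgroup.mem_zpowers_iff.1 hy'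
    have hi3 : zz ^ (((-i) % 3).toNat) = y⁻¹ := by
      rw [← hi, ← zpow_neg, ← zpow_natCast, Int.toNat_of_nonneg (Int.emod_nonneg _ (by norm_num)),
        ← zpow_mod_orderOf zz (-i), hoz]
      rfl
    refine ⟨((-i) % 3).toNat, by omega, ⟨k, hk, ?_⟩⟩
    have hky' : k * y = ⟨g, hg⟩ := hky
    have h : (⟨g, hg⟩ : S.CV) * zz ^ (((-i) % 3).toNat) = k := by
      rw [hi3, ← hky', mul_inv_cancel_right]
    exact (congrArg Subtype.val h).symm
  · intro g hg m hm hgm
    refine ⟨⟨g, hg⟩, ?_, rfl⟩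
    have h3 : (⟨g, hg⟩ : S.CV) ^ 3 ∈ K := hidx ▸ Subgroup.pow_index_mem K _
    have hm' : (⟨g, hg⟩ : S.CV) ^ m = 1 := Subtype.ext (by simpa using hgm)
    have hgcd : Nat.gcd 3 m = 1 := (Nat.Prime.coprime_iff_not_dvd Nat.prime_three).2 hm
    have hb := Nat.gcd_eq_gcd_ab 3 m
    rw [hgcd] at hb
    have : (⟨g, hg⟩ : S.CV) = ((⟨g, hg⟩ : S.CV) ^ 3) ^ Nat.gcdA 3 m *
        ((⟨g, hg⟩ : S.CV) ^ m) ^ Nat.gcdB 3 m := by
      rw [← zpow_natCast _ 3, ← zpow_natCast _ m, ← zpow_mul, ← zpow_mul, ← zpow_add, ← hb]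
      simp
    rw [this, hm', one_zpow, mul_one]
    exact K.zpow_mem h3 _

/-- Either the centraliser of the four-group has order twelve, or it contains one of the two
candidate involutions. -/
theorem CV_cases [Finite G] :
    (∀ g ∈ S.CV, ∃ (i : Fin 3) (k l : Fin 2), g = S.ι (pC ^ i.val * pt ^ k.val * pv ^ l.val)) ∨
    S.j x7 ∈ S.CV ∨ S.j x6 ∈ S.CV := by
  obtain ⟨M, hMle, hMconj, hM3, hMz, hMchar⟩ := S.exists_complement
  have hDnorm : ∀ d ∈ S.D, ∀ g ∈ S.CV, d * g * d⁻¹ ∈ S.CV := by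
    intro d hd g hg
    obtain ⟨a, b, rfl⟩ := S.D_form_ι hd
    have hp : InK (pC ^ a.val * pD ^ b.val) := (InK_basic.1.pow _).mul (InK_basic.2.1.pow _)
    have key : ∀ q : Fin 2, Commute (S.ι (pC ^ a.val * pD ^ b.val) * g *
        (S.ι (pC ^ a.val * pD ^ b.val))⁻¹) (S.ι (if q = 0 then pt else pv)) := by
      intro q
      obtain ⟨k, l, h⟩ := V_normal a b q
      have hq : InK (if q = 0 then pt else pv) := by
        split <;> [exact InK_basic.2.2.1; exact InK_basic.2.2.2.1]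
      have h2 : (S.ι (pC ^ a.val * pD ^ b.val))⁻¹ * S.ι (if q = 0 then pt else pv) *
          S.ι (pC ^ a.val * pD ^ b.val) = S.ι (pt ^ k.val * pv ^ l.val) := by
        rw [← S.ι_inv hp, ← S.ι_mul hp.inv hq, ← S.ι_mul (hp.inv.mul hq) hp, h]
      have h3 : Commute g (S.ι (pt ^ k.val * pv ^ l.val)) := by
        rw [S.ι_mul (InK_basic.2.2.1.pow _) (InK_basic.2.2.2.1.pow _), S.ι_pow InK_basic.2.2.1,
          S.ι_pow InK_basic.2.2.2.1]
        exact ((S.mem_CV.1 hg).1.pow_right _).mul_right ((S.mem_CV.1 hg).2.pow_right _)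
      rw [← h2] at h3
      generalize S.ι (if q = 0 then pt else pv) = u at h3
      generalize S.ι (pC ^ a.val * pD ^ b.val) = d at h3
      show _ * _ = _ * _
      calc d * g * d⁻¹ * u = d * (g * (d⁻¹ * u * d)) * d⁻¹ := by group
        _ = d * ((d⁻¹ * u * d) * g) * d⁻¹ := by rw [h3.eq]
        _ = _ := by group
    exact S.mem_CV.2 ⟨key 0, key 1⟩
  have hDM : ∀ d ∈ S.D, ∀ m ∈ M, d * m * d⁻¹ ∈ M := by
    intro d hd m hm
    refine hMchar _ (hDnorm d hd m (hMle hm)) (Nat.card M) hM3 ?_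
    have h1 : m ^ Nat.card M = 1 := congrArg Subtype.val (pow_card_eq_one' (x := (⟨m, hm⟩ : M)))
    rw [conj_pow, h1, mul_one, mul_inv_cancel]
  have hDle : S.D ≤ Subgroup.normalizer (M : Set G) := by
    intro d hd
    rw [Subgroup.mem_normalizer_iff]
    intro m
    refine ⟨hDM d hd m, fun h => ?_⟩
    have := hDM d⁻¹ (inv_mem hd) _ h
    simpa [mul_assoc] using this
  have hcop : (Nat.card S.D).Coprime (Nat.card M) := by
    rw [S.card_D]
    exact Nat.Coprime.pow_left 2 ((Nat.Prime.coprime_iff_not_dvd Nat.prime_three).2 hM3)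
  have hMCz : ∀ g ∈ M, Commute g S.z →
      ∃ k l : Fin 2, g = S.ι (pt ^ k.val * pv ^ l.val) := by
    intro g hg hz
    obtain ⟨i, k, l, he⟩ := S.CV_comm_z (hMle hg) hz
    refine ⟨k, l, ?_⟩
    have hk : S.ι (pt ^ k.val * pv ^ l.val) ∈ M := by
      refine hMchar _ S.V_mem_CV 2 (by norm_num) ?_
      rw [← S.ι_pow ((InK_basic.2.2.1.pow _).mul (InK_basic.2.2.2.1.pow _)),
        show (pt ^ k.val * pv ^ l.val) ^ 2 = 1 from
          (show ∀ k l : Fin 2, (pt ^ k.val * pv ^ l.val) ^ 2 = 1 by decide +kernel) k l, S.ι_one]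
    have hi : S.z ^ i.val ∈ M := by
      have : g * (S.ι (pt ^ k.val * pv ^ l.val))⁻¹ = S.z ^ i.val := by
        rw [he, mul_assoc (pC ^ i.val),
          S.ι_mul (InK_basic.1.pow _) ((InK_basic.2.2.1.pow _).mul (InK_basic.2.2.2.1.pow _)),
          mul_inv_cancel_right, S.ι_pow InK_basic.1]
      rw [← this]; exact mul_mem hg (inv_mem hk)
    have hi1 : S.z ^ i.val = 1 := by
      have h3 := orderOf_dvd_natCard (⟨_, hi⟩ : M)
      rw [Subgroup.orderOf_mk] at h3
      have h4 : orderOf (S.z ^ i.val) ∣ 3 := (orderOf_pow_dvd i.val).trans (dvd_of_eq S.orderOf_z)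
      rcases (Nat.dvd_prime Nat.prime_three).1 h4 with h5 | h5
      · exact orderOf_eq_one_iff.1 h5
      · rw [h5] at h3; exact absurd h3 hM3
    rw [he, mul_assoc (pC ^ i.val),
      S.ι_mul (InK_basic.1.pow _) ((InK_basic.2.2.1.pow _).mul (InK_basic.2.2.2.1.pow _)),
      S.ι_pow InK_basic.1, hi1, one_mul]
  by_cases hX : ∀ g ∈ M, Commute g S.w → g = 1
  · left
    have hMV : M ≤ Subgroup.closure {S.ι pt, S.ι pv} := by
      refine H20.le_of_centralizers_le S.D_not_cyclic hDle hcop fun d hd hd1 g hg => ?_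
      obtain ⟨hgM, hgd⟩ := hg
      replace hgd : Commute g d := Subgroup.mem_centralizer_singleton_iff.1 hgd
      obtain ⟨a, b, rfl⟩ := S.D_form_ι hd
      by_cases hb : b = 0
      · subst hb
        have hz : Commute g S.z := by
          have ha : a = 1 ∨ a = 2 := by
            fin_cases a
            · exact absurd (by simpa using S.ι_one) hd1
            · exact Or.inl rfl
            · exact Or.inr rfl
          rw [Fin.val_zero, pow_zero, mul_one, S.ι_pow InK_basic.1] at hgd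
          rcases ha with rfl | rfl
          · simpa using hgd
          · have h := hgd.pow_right 2
            rwa [← pow_mul, show ((2 : Fin 3).val) * 2 = 3 + 1 from rfl, pow_succ, S.z_pow3,
              one_mul] at h
        obtain ⟨k, l, rfl⟩ := hMCz g hgM hz
        rw [S.ι_mul (InK_basic.2.2.1.pow _) (InK_basic.2.2.2.1.pow _), S.ι_pow InK_basic.2.2.1,
          S.ι_pow InK_basic.2.2.2.1]
        exact mul_mem (pow_mem (Subgroup.subset_closure (by simp)) _)
          (pow_mem (Subgroup.subset_closure (by simp)) _)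
      · by_cases ha : a = 0
        · subst ha
          rw [Fin.val_zero, pow_zero, one_mul, S.ι_pow InK_basic.2.1] at hgd
          have hw : Commute g S.w := by
            fin_cases b
            · exact absurd rfl hb
            · simpa using hgd
            · have h := hgd.pow_right 2
              rwa [← pow_mul, show (2 : ℕ) * 2 = 3 + 1 from rfl, pow_succ, S.w_pow3, one_mul] at h
          rw [hX g hgM hw]; exact one_mem _
        · set K := M ⊓ Subgroup.centralizer {S.ι (pC ^ a.val * pD ^ b.val)} with hKdef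
          have hK2 : Nat.card K ∣ 2 := by
            have h1 : Nat.card K ∣ 18 := S.card_cent_diag a b ha hb ▸ Subgroup.card_dvd_of_le inf_le_right
            have h2 : Nat.card K ∣ Nat.card M := Subgroup.card_dvd_of_le inf_le_left
            have h3 : Nat.Coprime (Nat.card K) 9 := Nat.Coprime.symm
              (Nat.Coprime.coprime_dvd_right h2
                (Nat.Coprime.pow_left 2 ((Nat.Prime.coprime_iff_not_dvd Nat.prime_three).2 hM3)))
            exact h3.dvd_of_dvd_mul_right (show Nat.card K ∣ 2 * 9 from h1)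
          have hgK : g ∈ K := ⟨hgM, Subgroup.mem_centralizer_singleton_iff.2 hgd.eq⟩
          have hzd : Commute S.z (S.ι (pC ^ a.val * pD ^ b.val)) := by
            rw [S.ι_mul (InK_basic.1.pow _) (InK_basic.2.1.pow _), S.ι_pow InK_basic.1,
              S.ι_pow InK_basic.2.1]
            exact ((Commute.refl S.z).pow_right _).mul_right (S.comm_zw.pow_right _)
          have hzgK : S.z * g * S.z⁻¹ ∈ K := ⟨hMconj _ S.z_mem_CV _ hgM,
            Subgroup.mem_centralizer_singleton_iff.2 (by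
              have h := ((hzd.mul_left hgd).mul_left hzd.inv_left)
              exact h.eq)⟩
          have hzg : Commute g S.z := by
            by_cases hg1 : g = 1
            · rw [hg1]; exact Commute.one_left _
            by_cases hne : S.z * g * S.z⁻¹ = g
            · exact (mul_inv_eq_iff_eq_mul.1 hne).symm
            exfalso
            have hne1 : S.z * g * S.z⁻¹ ≠ 1 := fun h => hg1 (by
              calc g = S.z⁻¹ * (S.z * g * S.z⁻¹) * S.z := by group
                _ = 1 := by rw [h]; group)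
            rcases (Nat.dvd_prime Nat.prime_two).1 hK2 with h1 | h2
            · exact hg1 (congrArg Subtype.val
                ((Nat.card_eq_one_iff_unique.1 h1).1.elim (⟨g, hgK⟩ : K) 1))
            · obtain ⟨y, -, hy⟩ := (Nat.card_eq_two_iff' (1 : K)).1 h2
              have e1 := hy ⟨g, hgK⟩ (fun h => hg1 (congrArg Subtype.val h))
              have e2 := hy ⟨S.z * g * S.z⁻¹, hzgK⟩ (fun h => hne1 (congrArg Subtype.val h))
              exact hne (congrArg Subtype.val (e2.trans e1.symm))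
          obtain ⟨k, l, rfl⟩ := hMCz g hgM hzg
          have hq : InK (pt ^ k.val * pv ^ l.val) :=
            (InK_basic.2.2.1.pow _).mul (InK_basic.2.2.2.1.pow _)
          have hp : InK (pC ^ a.val * pD ^ b.val) := (InK_basic.1.pow _).mul (InK_basic.2.1.pow _)
          have hc := (S.ι_comm_iff hq hp).1 hgd
          have : pt ^ k.val * pv ^ l.val = 1 := by
            have hdec : ∀ (k l : Fin 2) (a b : Fin 3), b ≠ 0 →
                pt ^ k.val * pv ^ l.val * (pC ^ a.val * pD ^ b.val) =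
                  pC ^ a.val * pD ^ b.val * (pt ^ k.val * pv ^ l.val) →
                pt ^ k.val * pv ^ l.val = 1 := by decide +kernel
            exact hdec k l a b hb hc
          rw [this, S.ι_one]; exact one_mem _
    intro g hg
    obtain ⟨i, -, hi⟩ := hMz g hg
    refine S.CV_comm_z hg ?_
    have hcl : Subgroup.closure {S.ι pt, S.ι pv} ≤ Subgroup.centralizer {S.z} := by
      rw [Subgroup.closure_le]
      rintro x (rfl | rfl)
      · exact Subgroup.mem_centralizer_singleton_iff.2 (S.mem_CV.1 S.z_mem_CV).1.symm.eq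
      · exact Subgroup.mem_centralizer_singleton_iff.2 (S.mem_CV.1 S.z_mem_CV).2.symm.eq
    have h1 : Commute (g * S.z ^ i) S.z := Subgroup.mem_centralizer_singleton_iff.1 (hcl (hMV hi))
    have h2 := h1.mul_left (((Commute.refl S.z).pow_left i).inv_left)
    rwa [mul_inv_cancel_right] at h2
  · right
    push Not at hX
    obtain ⟨x, hxM, hxw, hx1⟩ := hX
    have hxm : ∀ y ∈ M, Commute y S.w → ∀ p, InK' p → S.j p = y →
        ∃ b, Perm.sign b = 1 ∧ p = sig * glue35 1 b * sig ∧ p ^ Nat.card M = 1 := by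
      intro y hy hyw p hp hpe
      have hpy : p ^ Nat.card M = 1 := by
        apply S.j_inj (hp.pow _) InK'.one
        rw [S.j_pow hp, hpe, S.j_one]
        exact congrArg Subtype.val (pow_card_eq_one' (x := (⟨y, hy⟩ : M)))
      rw [Sys.w, ← S.agree InK_basic.2.1 InK'_basic.2.1, ← hpe] at hyw
      have hpd : p * pD = pD * p := (S.j_comm_iff hp InK'_basic.2.1).1 hyw
      have hcC : sig * p * sig * pC = pC * (sig * p * sig) := by
        have hs : sig * pD * sig = pC := by decide +kernel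
        rw [← hs, ← sigConj_mul, ← sigConj_mul, hpd]
      obtain ⟨a, b, hab⟩ := exists_glue35 hp.1
      obtain ⟨ha3, hb⟩ := K_comm_C a b (hab ▸ hp) (by rw [← hab]; exact hcC)
      have hpm : (a, b) ^ Nat.card M = 1 := glue35Hom_injective (by
        rw [map_pow, glue35Hom_apply, ← hab, map_one]
        have hconj : ∀ n : ℕ, (sig * p * sig) ^ n = sig * p ^ n * sig := by
          intro n
          induction n with
          | zero => simp [sig_sq]
          | succ n ih => rw [pow_succ, ih, pow_succ, sigConj_mul]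
        rw [hconj, hpy, mul_one, sig_sq])
      have ha : a = 1 := orderOf_eq_one_iff.1 (Nat.dvd_one.1 (by
        rw [← show Nat.gcd 3 (Nat.card M) = 1 from
          (Nat.Prime.coprime_iff_not_dvd Nat.prime_three).2 hM3]
        exact Nat.dvd_gcd (orderOf_dvd_of_pow_eq_one ha3)
          (orderOf_dvd_of_pow_eq_one (congrArg Prod.fst hpm))))
      subst ha
      exact ⟨b, hb, by rw [← hab, sigConj], hpy⟩
    have hz' : InK' pC := InK'_basic.1
    have hjz : S.j pC = S.z := S.agree InK_basic.1 hz'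
    have hzconj : ∀ {p : P8}, InK' p → S.j p ∈ M → Commute (S.j p) S.w →
        S.j (pC * p * pC⁻¹) ∈ M ∧ Commute (S.j (pC * p * pC⁻¹)) S.w := by
      intro p hp hm hw
      rw [S.j_conj hz' hp, hjz]
      exact ⟨hMconj _ S.z_mem_CV _ hm, (S.comm_zw.mul_left hw).mul_left S.comm_zw.inv_left⟩
    have no3 : ∀ {p : P8}, InK' p → S.j p ∈ M → p ^ 3 = 1 → p = 1 := by
      intro p hp hm h3
      apply S.j_inj hp InK'.one
      rw [S.j_one]
      have hd := orderOf_dvd_natCard (⟨_, hm⟩ : M)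
      rw [Subgroup.orderOf_mk] at hd
      have hd3 : orderOf (S.j p) ∣ 3 := orderOf_dvd_of_pow_eq_one (by
        rw [← S.j_pow hp, h3, S.j_one])
      rcases (Nat.dvd_prime Nat.prime_three).1 hd3 with h5 | h5
      · exact orderOf_eq_one_iff.1 h5
      · exact absurd (h5 ▸ hd) hM3
    -- find an involution
    obtain ⟨p, hp, hpm, hpw, hp2, hp1⟩ : ∃ p, InK' p ∧ S.j p ∈ M ∧ Commute (S.j p) S.w ∧
        p * p = 1 ∧ p ≠ 1 := by
      obtain ⟨p, hp, -, rfl⟩ := S.exists_j_of_comm hxw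
      have hp1 : p ≠ 1 := fun h => hx1 (by rw [h, S.j_one])
      obtain ⟨b, hb, hpb, hpm⟩ := hxm _ hxM hxw p hp rfl
      rcases A5_orders b hb with h2 | h3 | h5
      · refine ⟨p, hp, hxM, hxw, ?_, hp1⟩
        have : (sig * glue35 1 b * sig) * (sig * glue35 1 b * sig) = 1 := by
          rw [← sigConj_mul, ← glue35Hom_apply, ← map_mul, Prod.mk_mul_mk, one_mul, ← sq, h2]
          show sig * glue35Hom 1 * sig = 1
          rw [map_one, mul_one, sig_sq]
        rw [← hpb] at this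
        exact this
      · refine absurd (no3 hp hxM ?_) hp1
        have hg : glue35 1 b ^ 3 = 1 := by
          rw [← glue35Hom_apply, ← map_pow, Prod.pow_mk, one_pow, h3]
          exact map_one _
        have e : sig * glue35 1 b * sig = sig * glue35 1 b * sig⁻¹ := by rw [sig_inv]
        rw [hpb, e, conj_pow, hg, mul_one, mul_inv_cancel]
      · have hb1 : b ≠ 1 := fun h => hp1 (by
          rw [hpb, h, ← glue35Hom_apply, show ((1 : Perm (Fin 3)), (1 : Perm (Fin 5))) = 1 from rfl,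
            map_one, mul_one, sig_sq])
        obtain ⟨hne, h6⟩ := A5_five b hb h5 hb1
        rw [← hpb] at hne h6
        obtain ⟨hc1, hc2⟩ := hzconj hp hxM hxw
        have hpc : InK' (pC * p * pC⁻¹) := (hz'.mul hp).mul (InK'_inv hz')
        have hw6 : InK' (w6 p) := (hp.pow 2).mul hpc
        have hjw : S.j (w6 p) = S.j p ^ 2 * S.j (pC * p * pC⁻¹) := by
          rw [w6, S.j_mul (hp.pow 2) hpc, S.j_pow hp]
        have hm6 : S.j (w6 p) ∈ M := by rw [hjw]; exact mul_mem (pow_mem hxM 2) hc1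
        refine ⟨w6 p, hw6, hm6, by rw [hjw]; exact (hxw.pow_left 2).mul_left hc2, ?_, hne⟩
        have : (w6 p ^ 2) = 1 := no3 (hw6.pow 2) (by rw [S.j_pow hw6]; exact pow_mem hm6 2)
          (by rw [← pow_mul]; exact h6)
        rw [← sq]; exact this
    obtain ⟨b, hb, hpb, -⟩ := hxm _ hpm hpw p hp rfl
    have hb2 : b * b = 1 := by
      have h : glue35Hom ((1, b) * (1, b)) = glue35Hom 1 := by
        rw [map_mul, glue35Hom_apply, map_one]
        rw [hpb, ← sigConj_mul] at hp2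
        calc glue35 1 b * glue35 1 b = sig * (sig * (glue35 1 b * glue35 1 b) * sig) * sig := (sigConj _).symm
          _ = _ := by rw [hp2, mul_one, sig_sq]
      exact congrArg Prod.snd (glue35Hom_injective h)
    have hb1 : b ≠ 1 := fun h => hp1 (by
      rw [hpb, h, ← glue35Hom_apply, show ((1 : Perm (Fin 3)), (1 : Perm (Fin 5))) = 1 from rfl,
        map_one, mul_one, sig_sq])
    have hsplit := K'_involution_cases b hb hb2 hb1
    rw [← hpb] at hsplit
    have hC : ∀ n : ℕ, S.j (pC ^ n * p * (pC ^ n)⁻¹) ∈ M := by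
      intro n
      rw [S.j_conj (hz'.pow n) hp, S.j_pow hz', hjz]
      exact hMconj _ (pow_mem S.z_mem_CV n) _ hpm
    have hqm : InK' (qq p) ∧ S.j (qq p) ∈ M ∧ Commute (S.j (qq p)) S.w := by
      obtain ⟨hc1, hc2⟩ := hzconj hp hpm hpw
      have hpc : InK' (pC * p * pC⁻¹) := (hz'.mul hp).mul (InK'_inv hz')
      refine ⟨hp.mul hpc, ?_, ?_⟩ <;> rw [qq, S.j_mul hp hpc]
      · exact mul_mem hpm hc1
      · exact hpw.mul_left hc2
    obtain ⟨hq, hqM, hqw⟩ := hqm
    rcases hsplit with hs | ⟨h1, h3⟩ | ⟨h1, h3⟩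
    · rcases hs with h | h | h | h | h | h
      · exact Or.inl (h ▸ hMle (hC 0))
      · exact Or.inl (h ▸ hMle (hC 1))
      · exact Or.inl (h ▸ hMle (hC 2))
      · exact Or.inr (h ▸ hMle (hC 0))
      · exact Or.inr (h ▸ hMle (hC 1))
      · exact Or.inr (h ▸ hMle (hC 2))
    · exact absurd (no3 hq hqM h3) h1
    · obtain ⟨hc1, hc2⟩ := hzconj hq hqM hqw
      have hqc : InK' (pC * qq p * pC⁻¹) := (hz'.mul hq).mul (InK'_inv hz')
      refine absurd (no3 (p := rq p) ((hq.mul hqc).mul hq) ?_ h3) h1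
      rw [rq, S.j_mul (hq.mul hqc) hq, S.j_mul hq hqc]
      exact mul_mem (mul_mem hqM hc1) hqM

end Sys

end Cfsg.Agent.H17.AltEight
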