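import Cfsg.Agent.H17.AltEight.CV
import Cfsg.Agent.H62.Carmichael

/-!
The homomorphism from the alternating group of degree eight extending both local embeddings.
-/

set_option autoImplicit false
set_option maxHeartbeats 1000000
set_option maxRecDepth 8000

namespace Cfsg.Agent.H17.AltEight

open Equiv

/-- Elements of the alternating group fixing the first three points. -/
def Fix3 (p : P8) : Prop := InK p ∧ p 0 = 0 ∧ p 1 = 1 ∧ p 2 = 2

instance (p : P8) : Decidable (Fix3 p) := by unfold Fix3; infer_instance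

theorem Fix3.mul {p q : P8} (hp : Fix3 p) (hq : Fix3 q) : Fix3 (p * q) :=
  ⟨hp.1.mul hq.1, by rw [Perm.mul_apply, hq.2.1, hp.2.1], by rw [Perm.mul_apply, hq.2.2.1, hp.2.2.1],
    by rw [Perm.mul_apply, hq.2.2.2, hp.2.2.2]⟩

theorem Fix3.inv {p : P8} (hp : Fix3 p) : Fix3 p⁻¹ :=
  ⟨hp.1.inv, Perm.inv_eq_iff_eq.2 hp.2.1.symm, Perm.inv_eq_iff_eq.2 hp.2.2.1.symm,
    Perm.inv_eq_iff_eq.2 hp.2.2.2.symm⟩

theorem glue1_facts : ∀ b : Perm (Fin 5), Perm.sign b = 1 → Fix3 (glue35 1 b) := by decide +kernel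

theorem Fix3_dec : ∀ (a : Perm (Fin 3)) (b : Perm (Fin 5)), Fix3 (glue35 a b) →
    a = 1 ∧ Perm.sign b = 1 := by
  decide +kernel

theorem stab7 : ∀ b : Perm (Fin 5), Perm.sign b = 1 → glue35 1 b 7 = 7 →
    ∃ (k l : Fin 2) (i : Fin 3), glue35 1 b = pt ^ k.val * pv ^ l.val * pD ^ i.val := by
  decide +kernel

/-- The seventh base cycle. -/
def c7 : P8 := H62.cyc3 0 1 7

/-- The sixth base cycle. -/
def c6 : P8 := H62.cyc3 0 1 6

theorem c7_facts : InK' c7 ∧ c7 = x7 * (pC * x7 * pC⁻¹) ∨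
    InK' c7 ∧ c7 = (pC * x7 * pC⁻¹) * x7 ∨
    InK' c7 ∧ c7 = pC * x7 * (pC * x7 * pC⁻¹) ∨ InK' c7 ∧ ∃ i j k l : Fin 3,
      c7 = pC ^ i.val * (x7 ^ j.val * (pC ^ k.val * x7 ^ l.val)) := by
  decide +kernel

theorem cycle_facts : InK' c7 ∧ InK' c6 ∧ c7 ^ 3 = 1 ∧ (c7 * c6) ^ 2 = 1 ∧ (pC * c7) ^ 2 = 1 ∧
    a2 * c7 * a2⁻¹ = c6 ∧ c7 * pD = pD * c7 ∧ Fix3 a2 ∧ a2 7 = 6 := by
  decide +kernel

/-- Chosen movers of the point seven. -/
def mover : Fin 6 → P8 :=
  ![1, H62.cyc3 7 3 4, H62.cyc3 7 4 5, H62.cyc3 7 5 6, a2, 1]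

theorem mover_facts : ∀ i : Fin 6, Fix3 (mover i) ∧ (i ≠ 0 → mover i 7 = H62.basePt 6 i) := by
  decide +kernel

theorem pair_mover : ∀ i k : Fin 6, i ≠ k → i ≠ 0 → k ≠ 0 →
    ∃ b : Perm (Fin 5), Perm.sign b = 1 ∧ glue35 1 b 7 = H62.basePt 6 i ∧
      glue35 1 b 6 = H62.basePt 6 k := by
  decide +kernel

theorem Fix3_base : ∀ b : Perm (Fin 5), Perm.sign b = 1 → ∀ i : Fin 6, i ≠ 0 →
    ∃ k : Fin 6, k ≠ 0 ∧ glue35 1 b (H62.basePt 6 i) = H62.basePt 6 k := by
  decide +kernel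

theorem sign_glue35 : ∀ (a : Perm (Fin 3)) (b : Perm (Fin 5)),
    Perm.sign (glue35 a b) = Perm.sign a * Perm.sign b := by
  intro a b
  simp [glue35]

theorem K_decomp : ∀ (a : Perm (Fin 3)) (b : Perm (Fin 5)), InK (glue35 a b) →
    ∃ (i : Fin 3) (k : Fin 2), Perm.sign (b * swap 3 4 ^ k.val) = 1 ∧
      glue35 a b = pC ^ i.val * glue35 1 (b * swap 3 4 ^ k.val) * a1 ^ k.val := by
  decide +kernel

theorem InK'_sign {p : P8} (hp : InK' p) : Perm.sign p = 1 := by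
  have h := hp.2
  rw [map_mul, map_mul, mul_comm (Perm.sign sig) (Perm.sign p), mul_assoc, ← map_mul, sig_sq,
    map_one, mul_one] at h
  exact h

/-- The embedding of the alternating group on the last five points. -/
def embA5 : alternatingGroup (Fin 5) →* alternatingGroup (Fin 8) where
  toFun b := ⟨glue35 1 b.1, Perm.mem_alternatingGroup.2 (by
    rw [sign_glue35, map_one, Perm.mem_alternatingGroup.1 b.2, mul_one])⟩
  map_one' := Subtype.ext (map_one (glue35Hom.comp (MonoidHom.inr _ _)))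
  map_mul' b c := Subtype.ext (map_mul (glue35Hom.comp (MonoidHom.inr _ _)) b.1 c.1)

theorem tau3_facts : ∀ i : Fin 3,
    glue35 1 (H62.tau 3 i) =
      glue35 (swap 0 1) (swap 0 (H62.basePt 3 i)) * glue35 (swap 0 1) (swap 0 1) ∧
    sig * glue35 1 (H62.tau 3 i) * sig =
      H62.tau 6 ((![0, 5, 4] : Fin 3 → Fin 6) i) := by
  decide +kernel

theorem swap_pair : ∀ x y : Fin 5, x ≠ y →
    ∃ b : Perm (Fin 5), Perm.sign b = 1 ∧
      glue35 1 b * a1 * (glue35 1 b)⁻¹ = glue35 (swap 0 1) (swap x y) := by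
  decide +kernel

namespace Sys

variable {G : Type*} [Group G] (S : Sys G)

theorem ι_Fix3 {p : P8} (hp : Fix3 p) : ∃ b, Perm.sign b = 1 ∧ p = glue35 1 b := by
  obtain ⟨a, b, rfl⟩ := exists_glue35 hp.1.1
  obtain ⟨rfl, hb⟩ := Fix3_dec a b hp
  exact ⟨b, hb, rfl⟩

variable (hX : S.j x7 ∈ S.CV)

include hX in
theorem c7_CV : S.j c7 ∈ S.CV := by
  have hz : InK' pC := InK'_basic.1
  have hx : InK' x7 := InK'_basic.2.2.2.2.1
  have hzm : S.j pC ∈ S.CV := by rw [S.agree InK_basic.1 hz]; exact S.z_mem_CV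
  have hzi : InK' pC⁻¹ := InK'_inv hz
  rcases c7_facts with ⟨-, h⟩ | ⟨-, h⟩ | ⟨-, h⟩ | ⟨-, i, j, k, l, h⟩ <;> rw [h]
  · rw [S.j_mul hx ((hz.mul hx).mul hzi), S.j_mul (hz.mul hx) hzi, S.j_mul hz hx, S.j_inv hz]
    exact mul_mem hX (mul_mem (mul_mem hzm hX) (inv_mem hzm))
  · rw [S.j_mul ((hz.mul hx).mul hzi) hx, S.j_mul (hz.mul hx) hzi, S.j_mul hz hx, S.j_inv hz]
    exact mul_mem (mul_mem (mul_mem hzm hX) (inv_mem hzm)) hX
  · rw [S.j_mul (hz.mul hx) ((hz.mul hx).mul hzi), S.j_mul (hz.mul hx) hzi, S.j_mul hz hx,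
      S.j_inv hz]
    exact mul_mem (mul_mem hzm hX) (mul_mem (mul_mem hzm hX) (inv_mem hzm))
  · rw [S.j_mul (hz.pow _) ((hx.pow _).mul ((hz.pow _).mul (hx.pow _))),
      S.j_mul (hx.pow _) ((hz.pow _).mul (hx.pow _)), S.j_mul (hz.pow _) (hx.pow _),
      S.j_pow hz, S.j_pow hx, S.j_pow hz, S.j_pow hx]
    exact mul_mem (pow_mem hzm _) (mul_mem (pow_mem hX _) (mul_mem (pow_mem hzm _) (pow_mem hX _)))

include hX in
theorem c7_comm {p : P8} (hp : Fix3 p) (h7 : p 7 = 7) : Commute (S.ι p) (S.j c7) := by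
  obtain ⟨b, hb, rfl⟩ := ι_Fix3 hp
  obtain ⟨k, l, i, h⟩ := stab7 b hb h7
  obtain ⟨-, hd, ht, hv, -⟩ := InK_basic
  rw [h, S.ι_mul ((ht.pow _).mul (hv.pow _)) (hd.pow _), S.ι_mul (ht.pow _) (hv.pow _), S.ι_pow ht,
    S.ι_pow hv, S.ι_pow hd]
  obtain ⟨h1, h2⟩ := S.mem_CV.1 (S.c7_CV hX)
  have h3 : Commute (S.ι pD) (S.j c7) := by
    rw [← S.agree hd InK'_basic.2.1]
    exact (S.j_comm_iff InK'_basic.2.1 cycle_facts.1).2 cycle_facts.2.2.2.2.2.2.1.symm
  exact (((h1.symm.pow_left _).mul_left (h2.symm.pow_left _))).mul_left (h3.pow_left _)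

include hX in
theorem conj_c7_eq {p q : P8} (hp : Fix3 p) (hq : Fix3 q) (h : p 7 = q 7) :
    S.ι p * S.j c7 * (S.ι p)⁻¹ = S.ι q * S.j c7 * (S.ι q)⁻¹ := by
  have h7 : (q⁻¹ * p) 7 = 7 := by rw [Perm.mul_apply, h, Perm.inv_eq_iff_eq]
  have hc := S.c7_comm hX (hq.inv.mul hp) h7
  rw [S.ι_mul hq.1.inv hp.1, S.ι_inv hq.1] at hc
  calc S.ι p * S.j c7 * (S.ι p)⁻¹
      = S.ι q * ((S.ι q)⁻¹ * S.ι p * S.j c7) * (S.ι p)⁻¹ := by group
    _ = _ := by rw [hc.eq]; group

/-- The images of the base cycles. -/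
def base (i : Fin 6) : G :=
  if i = 0 then S.z else S.ι (mover i) * S.j c7 * (S.ι (mover i))⁻¹

theorem base_zero : S.base 0 = S.z := if_pos rfl

include hX in
theorem base_eq {i : Fin 6} (hi : i ≠ 0) {p : P8} (hp : Fix3 p) (h7 : p 7 = H62.basePt 6 i) :
    S.base i = S.ι p * S.j c7 * (S.ι p)⁻¹ := by
  rw [base, if_neg hi]
  exact S.conj_c7_eq hX (mover_facts i).1 hp (((mover_facts i).2 hi).trans h7.symm)

theorem conj_c7 : S.ι a2 * S.j c7 * (S.ι a2)⁻¹ = S.j c6 := by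
  rw [← S.agree InK_basic.2.2.2.2.2.1 InK'_basic.2.2.2.1,
    ← S.j_conj InK'_basic.2.2.2.1 cycle_facts.1, cycle_facts.2.2.2.2.2.1]

theorem z_comm_Fix3 {p : P8} (hp : Fix3 p) : Commute (S.ι p) S.z := by
  obtain ⟨b, hb, rfl⟩ := ι_Fix3 hp
  exact S.ι_comm hp.1 InK_basic.1
    ((show ∀ b : Perm (Fin 5), glue35 1 b * pC = pC * glue35 1 b by decide +kernel) b)

include hX in
theorem base_rel (i k : Fin 6) (h : i ≠ k) : (S.base i * S.base k) ^ 2 = 1 := by
  have hz7 : ∀ m : Fin 6, m ≠ 0 → (S.z * S.base m) ^ 2 = 1 := by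
    intro m hm
    have hp := (mover_facts m).1
    rw [S.base_eq hX hm hp ((mover_facts m).2 hm)]
    have e : S.z * (S.ι (mover m) * S.j c7 * (S.ι (mover m))⁻¹) =
        S.ι (mover m) * (S.z * S.j c7) * (S.ι (mover m))⁻¹ := by
      rw [← mul_assoc, ← mul_assoc, ← (S.z_comm_Fix3 hp).eq]; group
    have e2 : (S.z * S.j c7) ^ 2 = 1 := by
      show (S.ι pC * S.j c7) ^ 2 = 1
      rw [← S.agree InK_basic.1 InK'_basic.1, ← S.j_mul InK'_basic.1 cycle_facts.1,
        ← S.j_pow (InK'_basic.1.mul cycle_facts.1), cycle_facts.2.2.2.2.1, S.j_one]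
    rw [e, conj_pow, e2, mul_one, mul_inv_cancel]
  by_cases hi : i = 0
  · subst hi; rw [S.base_zero]; exact hz7 k (Ne.symm h)
  by_cases hk : k = 0
  · subst hk
    rw [S.base_zero]
    have h2 := hz7 i hi
    rw [sq] at h2 ⊢
    calc S.base i * S.z * (S.base i * S.z)
        = S.z⁻¹ * (S.z * S.base i * (S.z * S.base i)) * S.z := by group
      _ = 1 := by rw [h2]; group
  obtain ⟨b, hb, h7, h6⟩ := pair_mover i k h hi hk
  have hp := glue1_facts b hb
  have hq : Fix3 (glue35 1 b * a2) := hp.mul cycle_facts.2.2.2.2.2.2.2.1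
  rw [S.base_eq hX hi hp h7, S.base_eq hX hk hq (by
      rw [Perm.mul_apply, cycle_facts.2.2.2.2.2.2.2.2, h6]),
    S.ι_mul hp.1 InK_basic.2.2.2.2.2.1]
  have e : S.ι (glue35 1 b) * S.j c7 * (S.ι (glue35 1 b))⁻¹ *
      (S.ι (glue35 1 b) * S.ι a2 * S.j c7 * (S.ι (glue35 1 b) * S.ι a2)⁻¹) =
      S.ι (glue35 1 b) * (S.j c7 * S.j c6) * (S.ι (glue35 1 b))⁻¹ := by
    rw [← S.conj_c7]; group
  rw [e, conj_pow, ← S.j_mul cycle_facts.1 cycle_facts.2.1,
    ← S.j_pow (cycle_facts.1.mul cycle_facts.2.1), cycle_facts.2.2.2.1, S.j_one, mul_one,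
    mul_inv_cancel]

theorem base_cube (i : Fin 6) : S.base i ^ 3 = 1 := by
  by_cases hi : i = 0
  · rw [hi, S.base_zero, S.z_pow3]
  · rw [base, if_neg hi, conj_pow, ← S.j_pow cycle_facts.1, cycle_facts.2.2.1, S.j_one, mul_one,
      mul_inv_cancel]

/-- A lift of a permutation to the alternating group. -/
abbrev alt {p : P8} (h : Perm.sign p = 1) : alternatingGroup (Fin 8) :=
  ⟨p, Perm.mem_alternatingGroup.2 h⟩

include hX in
/-- The homomorphism extending both local embeddings. -/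
theorem exists_hom : ∃ Ψ : alternatingGroup (Fin 8) →* G,
    (∀ p (hp : InK p), Ψ (alt hp.2) = S.ι p) ∧
    ∀ p (hp : InK' p), Ψ (alt (InK'_sign hp)) = S.j p := by
  obtain ⟨Ψ, hΨ⟩ := H62.exists_alt_hom (k := 6) S.base S.base_cube (S.base_rel hX)
  refine ⟨Ψ, ?_⟩
  have hgen : ∀ i : Fin 6, ∀ h : Perm.sign (H62.tau 6 i) = 1, Ψ (alt h) = S.base i :=
    fun i h => hΨ i
  -- equivariance
  have equiv : ∀ (p : P8) (hp : Fix3 p) (q : alternatingGroup (Fin 8)),
      S.ι p * Ψ q * (S.ι p)⁻¹ = Ψ (alt hp.1.2 * q * (alt hp.1.2)⁻¹) := by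
    intro p hp
    have heq : (MulAut.conj (S.ι p)).toMonoidHom.comp Ψ =
        Ψ.comp (MulAut.conj (alt hp.1.2)).toMonoidHom := by
      refine MonoidHom.eq_of_eqOn_dense (H62.closure_tau 6) ?_
      rintro _ ⟨i, rfl⟩
      show S.ι p * Ψ (H62.tauA 6 i) * (S.ι p)⁻¹ = Ψ (alt hp.1.2 * H62.tauA 6 i * (alt hp.1.2)⁻¹)
      rw [hΨ]
      have hc : ∀ k : Fin 6, p (H62.basePt 6 i) = H62.basePt 6 k →
          alt hp.1.2 * H62.tauA 6 i * (alt hp.1.2)⁻¹ = H62.tauA 6 k := by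
        intro k hk
        refine Subtype.ext ?_
        show p * H62.tau 6 i * p⁻¹ = H62.tau 6 k
        rw [H62.tau, H62.conj_cyc3, hp.2.1, hp.2.2.1, hk]
        rfl
      by_cases hi : i = 0
      · subst hi
        rw [hc 0 (by exact hp.2.2.2), hΨ, S.base_zero, (S.z_comm_Fix3 hp).eq, mul_inv_cancel_right]
      · obtain ⟨b, hb, rfl⟩ := ι_Fix3 hp
        obtain ⟨k, hk0, hk⟩ := Fix3_base b hb i hi
        rw [hc k hk, hΨ, S.base_eq hX hk0 (hp.mul (mover_facts i).1)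
          (by rw [Perm.mul_apply, (mover_facts i).2 hi, hk]),
          S.base_eq hX hi (mover_facts i).1 ((mover_facts i).2 hi),
          S.ι_mul hp.1 (mover_facts i).1.1]
        group
    exact fun q => DFunLike.congr_fun heq q
  -- agreement with `j` on the alternating group of `{0,1,2,6,7}`
  have hB : ∀ b : alternatingGroup (Fin 5), Ψ (MulAut.conjNormal sig (embA5 b)) =
      S.j (sig * glue35 1 b.1 * sig) := by
    have hin : ∀ b : alternatingGroup (Fin 5), InK' (sig * glue35 1 b.1 * sig) := fun b => by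
      show InK (sig * (sig * glue35 1 b.1 * sig) * sig)
      rw [sigConj]
      exact (glue1_facts _ (Perm.mem_alternatingGroup.1 b.2)).1
    let f : alternatingGroup (Fin 5) →* G :=
      { toFun := fun b => S.j (sig * glue35 1 b.1 * sig)
        map_one' := by
          show S.j (sig * glue35Hom 1 * sig) = 1
          rw [map_one, mul_one, sig_sq, S.j_one]
        map_mul' := fun b c => by
          rw [← S.j_mul (hin b) (hin c), ← sigConj_mul]
          show S.j (sig * glue35Hom (1, b.1 * c.1) * sig) = _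
          rw [show ((1 : Perm (Fin 3)), b.1 * c.1) = (1, b.1) * (1, c.1) by simp, map_mul]
          rfl }
    have : (Ψ.comp (MulAut.conjNormal sig).toMonoidHom).comp embA5 = f := by
      refine MonoidHom.eq_of_eqOn_dense (H62.closure_tau 3) ?_
      rintro _ ⟨i, rfl⟩
      show Ψ (MulAut.conjNormal sig (embA5 (H62.tauA 3 i))) = S.j (sig * glue35 1 (H62.tau 3 i) * sig)
      have e : MulAut.conjNormal sig (embA5 (H62.tauA 3 i)) =
          H62.tauA 6 ((![0, 5, 4] : Fin 3 → Fin 6) i) := by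
        refine Subtype.ext ?_
        rw [MulAut.conjNormal_apply]
        show sig * glue35 1 (H62.tau 3 i) * sig⁻¹ = _
        rw [sig_inv, (tau3_facts i).2]
        rfl
      rw [e, hΨ, (tau3_facts i).2]
      have hj : ∀ i : Fin 3, i = 0 ∨ i = 1 ∨ i = 2 := by decide
      rcases hj i with rfl | rfl | rfl
      · show S.base 0 = S.j pC
        rw [S.base_zero, S.agree InK_basic.1 InK'_basic.1]
      · show S.base 5 = S.j c7
        rw [S.base_eq hX (by decide) (p := 1) (by decide +kernel) (by decide +kernel), S.ι_one]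
        group
      · show S.base 4 = S.j c6
        rw [S.base_eq hX (by decide) cycle_facts.2.2.2.2.2.2.2.1 (by decide +kernel), S.conj_c7]
    exact fun b => DFunLike.congr_fun this b
  obtain ⟨hc, hd, -, -, ha1, ha2, -⟩ := InK_basic
  -- the first involution
  have hA1 : Ψ (alt ha1.2) = S.ι a1 := by
    let b : alternatingGroup (Fin 5) := ⟨_, Perm.mem_alternatingGroup.2 (show Perm.sign (swap (0 : Fin 5) 1 * swap 3 4) = 1 by decide +kernel)⟩
    have hs : sig * glue35 1 b.1 * sig = a1 := by decide +kernel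
    have h := hB b
    rw [hs, S.agree ha1 InK'_basic.2.2.1] at h
    refine Eq.trans (congrArg Ψ (Subtype.ext ?_)) h
    rw [MulAut.conjNormal_apply]
    show a1 = sig * glue35 1 b.1 * sig⁻¹
    rw [sig_inv, hs]
  -- agreement with `ι`
  have hswap : ∀ x y : Fin 5, x ≠ y → ∀ h : Perm.sign (glue35 (swap 0 1) (swap x y)) = 1,
      Ψ (alt h) = S.ι (glue35 (swap 0 1) (swap x y)) := by
    intro x y hxy h
    obtain ⟨b, hb, he⟩ := swap_pair x y hxy
    have hp := glue1_facts b hb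
    calc Ψ (alt h) = Ψ (alt hp.1.2 * alt ha1.2 * (alt hp.1.2)⁻¹) :=
          congrArg Ψ (Subtype.ext he.symm)
      _ = S.ι (glue35 (swap 0 1) (swap x y)) := by
          rw [← equiv _ hp, hA1, ← S.ι_conj hp.1 ha1, he]
  have hA : ∀ b : alternatingGroup (Fin 5), Ψ (embA5 b) = S.ι (glue35 1 b.1) := by
    have hin : ∀ b : alternatingGroup (Fin 5), InK (glue35 1 b.1) := fun b =>
      (glue1_facts _ (Perm.mem_alternatingGroup.1 b.2)).1
    let f : alternatingGroup (Fin 5) →* G :=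
      { toFun := fun b => S.ι (glue35 1 b.1)
        map_one' := by
          show S.ι (glue35Hom 1) = 1
          rw [map_one, S.ι_one]
        map_mul' := fun b c => by
          rw [← S.ι_mul (hin b) (hin c)]
          show S.ι (glue35Hom (1, b.1 * c.1)) = _
          rw [show ((1 : Perm (Fin 3)), b.1 * c.1) = (1, b.1) * (1, c.1) by simp, map_mul]
          rfl }
    have : Ψ.comp embA5 = f := by
      refine MonoidHom.eq_of_eqOn_dense (H62.closure_tau 3) ?_
      rintro _ ⟨i, rfl⟩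
      show Ψ (embA5 (H62.tauA 3 i)) = S.ι (glue35 1 (H62.tau 3 i))
      have hi : (0 : Fin 5) ≠ H62.basePt 3 i := (H62.basePt_ne 3 i).1
      have s1 : InK (glue35 (swap 0 1) (swap 0 (H62.basePt 3 i))) :=
        (show ∀ x : Fin 5, 0 ≠ x → InK (glue35 (swap 0 1) (swap 0 x)) by decide +kernel) _ hi
      have s2 : InK (glue35 (swap 0 1) (swap 0 1)) := by decide +kernel
      rw [(tau3_facts i).1, S.ι_mul s1 s2, ← hswap 0 _ hi s1.2, ← hswap 0 1 (by decide) s2.2,
        ← map_mul]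
      exact congrArg Ψ (Subtype.ext (tau3_facts i).1)
    exact fun b => DFunLike.congr_fun this b
  have hK : ∀ p (hp : InK p), Ψ (alt hp.2) = S.ι p := by
    intro p hp
    obtain ⟨a, b, rfl⟩ := exists_glue35 hp.1
    obtain ⟨i, k, hs, he⟩ := K_decomp a b hp
    set b' : alternatingGroup (Fin 5) := ⟨_, Perm.mem_alternatingGroup.2 hs⟩
    have hb' := (glue1_facts _ hs).1
    have e : alt hp.2 = H62.tauA 6 0 ^ i.val * embA5 b' * alt ha1.2 ^ k.val := by
      refine Subtype.ext ?_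
      simp only [Subgroup.coe_mul, SubgroupClass.coe_pow]
      exact he
    rw [e, map_mul, map_mul, map_pow, map_pow, hΨ, S.base_zero, hA, hA1, he,
      S.ι_mul ((hc.pow _).mul hb') (ha1.pow _), S.ι_mul (hc.pow _) hb', S.ι_pow hc, S.ι_pow ha1]
  refine ⟨hK, fun p hp => ?_⟩
  have hs' : ∀ (a : Perm (Fin 3)) (b : Perm (Fin 5)) (i : Fin 3) (k : Fin 2),
      sig * p * sig = pC ^ i.val * glue35 1 b * a1 ^ k.val →
      p = pD ^ i.val * (sig * glue35 1 b * sig) * a2 ^ k.val := by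
    intro _ b i k h
    have hC : ∀ i : Fin 3, sig * pC ^ i.val * sig = pD ^ i.val := by decide +kernel
    have hA' : ∀ k : Fin 2, sig * a1 ^ k.val * sig = a2 ^ k.val := by decide +kernel
    calc p = sig * (sig * p * sig) * sig := (sigConj p).symm
      _ = _ := by rw [h, sigConj_mul, sigConj_mul, hC, hA']
  obtain ⟨a, b, hab⟩ := exists_glue35 hp.1
  have hp' : InK (glue35 a b) := hab ▸ hp
  obtain ⟨i, k, hs, he⟩ := K_decomp a b hp'
  set b' : alternatingGroup (Fin 5) := ⟨_, Perm.mem_alternatingGroup.2 hs⟩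
  have hb' : InK' (sig * glue35 1 b'.1 * sig) := by
    show InK (sig * (sig * glue35 1 b'.1 * sig) * sig)
    rw [sigConj]; exact (glue1_facts _ hs).1
  have hpe := hs' a _ i k (hab.trans he)
  have e : alt (InK'_sign hp) =
      alt hd.2 ^ i.val * MulAut.conjNormal sig (embA5 b') * alt ha2.2 ^ k.val := by
    refine Subtype.ext ?_
    simp only [Subgroup.coe_mul, SubgroupClass.coe_pow, MulAut.conjNormal_apply, sig_inv]
    exact hpe
  rw [e, map_mul, map_mul, map_pow, map_pow, hK pD hd, hK a2 ha2, hB, hpe,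
    S.j_mul (((InK'_basic.2.1).pow _).mul hb') (InK'_basic.2.2.2.1.pow _),
    S.j_mul (InK'_basic.2.1.pow _) hb', S.j_pow InK'_basic.2.1, S.j_pow InK'_basic.2.2.2.1,
    S.agree hd InK'_basic.2.1, S.agree ha2 InK'_basic.2.2.2.1]

end Sys

end Cfsg.Agent.H17.AltEight
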