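import Mathlib

/-! Odd normal subgroups of a quotient by a subgroup of order two come from odd normal subgroups. -/

set_option autoImplicit false

namespace Cfsg.Agent.H17.AltEight

theorem exists_odd_lift {F : Type*} [Group F] [Finite F] (K : Subgroup F) [K.Normal]
    (hK : Nat.card K = 2) (M : Subgroup (F ⧸ K)) [M.Normal] (hM : Odd (Nat.card M)) :
    ∃ O : Subgroup F, O.Normal ∧ Odd (Nat.card O) ∧ M ≤ O.map (QuotientGroup.mk' K) := by
  set π := QuotientGroup.mk' K with hπ
  set M' := M.comap π with hM'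
  have hsurj : Function.Surjective π := QuotientGroup.mk'_surjective K
  have hKM : K ≤ M' := fun x hx => by
    show π x ∈ M
    rw [hπ, QuotientGroup.mk'_apply, (QuotientGroup.eq_one_iff x).2 hx]; exact one_mem _
  have hcard : Nat.card M' = 2 * Nat.card M := by
    have h1 : M'.index = M.index := Subgroup.index_comap_of_surjective M hsurj
    have h2 := M'.card_mul_index
    have h3 := M.card_mul_index
    have h4 := K.card_mul_index
    rw [Subgroup.index_eq_card K, hK, ← h3, ← mul_assoc, ← h2, h1] at h4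
    exact (Nat.eq_of_mul_eq_mul_right (Nat.pos_of_ne_zero Subgroup.index_ne_zero_of_finite) h4).symm
  set K' := K.subgroupOf M'
  have hK' : Nat.card K' = 2 := by
    rw [← hK]; exact Nat.card_congr (Subgroup.subgroupOfEquivOfLe hKM).toEquiv
  have hidx : K'.index = Nat.card M := by
    have := K'.card_mul_index
    rw [hK', hcard] at this
    omega
  obtain ⟨L, hL⟩ := Subgroup.exists_right_complement'_of_coprime (N := K')
    (by rw [hK', hidx]; exact (Nat.coprime_two_left.2 hM))
  have hLidx : L.index = 2 := hL.index_eq_card.trans hK'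
  have hLcard : Nat.card L = Nat.card M := by rw [← hidx, hL.symm.index_eq_card]
  have hchar : ∀ x : M', x ∈ L ↔ x ^ Nat.card M = 1 := by
    intro x
    constructor
    · intro hx
      rw [← hLcard]
      exact congrArg Subtype.val (pow_card_eq_one' (x := (⟨x, hx⟩ : L)))
    · intro hx
      haveI : L.Normal := Subgroup.normal_of_index_eq_two hLidx
      have h2 : x ^ 2 ∈ L := hLidx ▸ Subgroup.pow_index_mem L x
      obtain ⟨k, hk⟩ := hM
      have : x = (x ^ Nat.card M) * ((x ^ 2) ^ k)⁻¹ := by
        rw [hk, pow_succ', ← pow_mul, mul_inv_cancel_right]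
      rw [this, hx, one_mul]
      exact inv_mem (pow_mem h2 k)
  refine ⟨L.map M'.subtype, ⟨?_⟩, ?_, ?_⟩
  · rintro _ ⟨x, hx, rfl⟩ g
    have hm : g * (x : F) * g⁻¹ ∈ M' := by
      show π (g * x * g⁻¹) ∈ M
      rw [map_mul, map_mul, map_inv]
      exact ‹M.Normal›.conj_mem _ x.2 _
    refine ⟨⟨_, hm⟩, (hchar _).2 (Subtype.ext ?_), rfl⟩
    have := congrArg Subtype.val ((hchar x).1 hx)
    simp only [SubgroupClass.coe_pow, OneMemClass.coe_one] at this ⊢
    rw [conj_pow, this, mul_one, mul_inv_cancel]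
  · rw [Subgroup.card_map_of_injective (Subgroup.subtype_injective _), hLcard]; exact hM
  · intro y hy
    obtain ⟨x, rfl⟩ := hsurj y
    obtain ⟨⟨⟨k, hk⟩, ⟨l, hl⟩⟩, he⟩ := hL.2 (⟨x, hy⟩ : M')
    refine ⟨(l : F), ⟨l, hl, rfl⟩, ?_⟩
    have he' : (k : F) * (l : F) = x := congrArg Subtype.val he
    rw [← he', map_mul, hπ, QuotientGroup.mk'_apply, QuotientGroup.mk'_apply,
      (QuotientGroup.eq_one_iff (k : F)).2 (Subgroup.mem_subgroupOf.1 hk), one_mul]

end Cfsg.Agent.H17.AltEight
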