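import Cfsg.Agent.H17.AltEight.CV

/-!
The two classes of involutions of the alternating group of degree eight, and finite computations
around the centralisers of their representatives.
-/

set_option autoImplicit false
set_option maxHeartbeats 1000000
set_option maxRecDepth 8000
set_option synthInstance.maxSize 4096
set_option synthInstance.maxHeartbeats 200000

namespace Cfsg.Agent.H17.AltEight

open Equiv

theorem sign_glue44 (a b : Perm (Fin 4)) :
    Perm.sign (glue44 a b) = Perm.sign a * Perm.sign b := by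
  simp [glue44]

theorem support_card (p : P8) :
    p.support.card + (Finset.univ.filter fun i => p i = i).card = 8 := by
  have h : p.support = Finset.univ.filter fun i => ¬ p i = i := by
    ext i; simp
  rw [h, add_comm, Finset.card_filter_add_card_filter_not, Finset.card_univ, Fintype.card_fin]

theorem invol_cycleType {p : P8} (hp : p * p = 1) (hne : p ≠ 1) :
    ∃ n : ℕ, p.cycleType = Multiset.replicate (n + 1) 2 ∧ p.support.card = 2 * (n + 1) := by
  have ho : orderOf p = 2 := orderOf_eq_prime (by rw [sq, hp]) hne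
  obtain ⟨n, hn⟩ := Perm.cycleType_prime_order (σ := p) (by rw [ho]; exact Nat.prime_two)
  rw [ho] at hn
  refine ⟨n, hn, ?_⟩
  rw [← Perm.sum_cycleType, hn, Multiset.sum_replicate, smul_eq_mul, mul_comm]

theorem conj_in_alt {p q c : P8} (h : IsConj q p) (hc : c * q * c⁻¹ = q)
    (hs : Perm.sign c = -1) : ∃ g : P8, Perm.sign g = 1 ∧ g * q * g⁻¹ = p := by
  obtain ⟨g, hg⟩ := isConj_iff.1 h
  rcases Int.units_eq_one_or (Perm.sign g) with h1 | h1
  · exact ⟨g, h1, hg⟩
  · refine ⟨g * c, by rw [map_mul, h1, hs]; rfl, ?_⟩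
    rw [show g * c * q * (g * c)⁻¹ = g * (c * q * c⁻¹) * g⁻¹ by group, hc, hg]

theorem rep_facts : pt * pt = 1 ∧ pt ≠ 1 ∧ FourPts pt ∧ Perm.sign pt = 1 ∧
    sig * sig = 1 ∧ sig ≠ 1 ∧ ¬ FourPts sig ∧ Perm.sign sig = 1 ∧
    swap 3 4 * pt * (swap 3 4)⁻¹ = pt ∧ Perm.sign (swap (3 : Fin 8) 4) = -1 ∧
    swap 0 3 * sig * (swap 0 3)⁻¹ = sig ∧ Perm.sign (swap (0 : Fin 8) 3) = -1 := by
  decide +kernel

theorem conj_pt {p : P8} (hp : p * p = 1) (hne : p ≠ 1) (h4 : FourPts p) :
    ∃ g : P8, Perm.sign g = 1 ∧ g * pt * g⁻¹ = p := by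
  obtain ⟨ht1, ht2, ht4, -, -, -, -, -, hc, hs, -, -⟩ := rep_facts
  obtain ⟨n, hn, hn'⟩ := invol_cycleType hp hne
  obtain ⟨m, hm, hm'⟩ := invol_cycleType ht1 ht2
  have e1 := support_card p
  have e2 := support_card pt
  have h4' : (Finset.univ.filter fun i => p i = i).card = 4 := h4
  have h4t : (Finset.univ.filter fun i => pt i = i).card = 4 := ht4
  refine conj_in_alt (Perm.isConj_iff_cycleType_eq.2 ?_) hc hs
  rw [hn, hm, show n = m by omega]

theorem conj_sig {p : P8} (hp : p * p = 1) (hne : p ≠ 1) (hsgn : Perm.sign p = 1) (h4 : ¬ FourPts p) :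
    ∃ g : P8, Perm.sign g = 1 ∧ g * sig * g⁻¹ = p := by
  obtain ⟨-, -, -, -, ht1, ht2, -, -, -, -, hc, hs⟩ := rep_facts
  obtain ⟨n, hn, hn'⟩ := invol_cycleType hp hne
  obtain ⟨m, hm, hm'⟩ := invol_cycleType ht1 ht2
  have e1 := support_card p
  have h4' : (Finset.univ.filter fun i => p i = i).card ≠ 4 := h4
  have e3 : sig.support.card = 8 := by decide +kernel
  refine conj_in_alt (Perm.isConj_iff_cycleType_eq.2 ?_) hc hs
  rw [hn, hm, show n = m from ?_]
  rw [Perm.sign_of_cycleType, hn, Multiset.sum_replicate, Multiset.card_replicate, smul_eq_mul] at hsgn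
  have hn3 : n ≤ 3 := by omega
  interval_cases n
  · exact absurd hsgn (by decide)
  · omega
  · exact absurd hsgn (by decide)
  · omega

/-- The Sylow subgroup of the centraliser of `pt`. -/
def InS32 (p : P8) : Prop := Perm.sign p = 1 ∧ p * pt = pt * p ∧ p * x7 = x7 * p

instance (p : P8) : Decidable (InS32 p) := by unfold InS32; infer_instance

theorem InS32.mul {p q : P8} (hp : InS32 p) (hq : InS32 q) : InS32 (p * q) :=
  ⟨by rw [map_mul, hp.1, hq.1, one_mul], (Commute.mul_left hp.2.1 hq.2.1 : Commute (p * q) pt),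
    (Commute.mul_left hp.2.2 hq.2.2 : Commute (p * q) x7)⟩

theorem InS32.inv {p : P8} (hp : InS32 p) : InS32 p⁻¹ :=
  ⟨by rw [Perm.sign_inv, hp.1], (Commute.inv_left hp.2.1 : Commute p⁻¹ pt),
    (Commute.inv_left hp.2.2 : Commute p⁻¹ x7)⟩

theorem InS32.one : InS32 1 := by decide +kernel

theorem C_pt_form {p : P8} (h : p * pt = pt * p) : ∃ a b, p = glue44 a b :=
  exists_glue44 (lo_of_comm_pt h)

/-- The gluing map as a homomorphism. -/
def glue44Hom : Perm (Fin 4) × Perm (Fin 4) →* P8 :=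
  ((finSumFinEquiv.trans rho : Fin 4 ⊕ Fin 4 ≃ Fin 8).permCongrHom.toMonoidHom).comp
    (Perm.sumCongrHom (Fin 4) (Fin 4))

theorem glue44Hom_apply (a b : Perm (Fin 4)) : glue44Hom (a, b) = glue44 a b := rfl

theorem glue44Hom_injective : Function.Injective glue44Hom := by
  intro x y h
  exact Perm.sumCongrHom_injective
    ((finSumFinEquiv.trans rho : Fin 4 ⊕ Fin 4 ≃ Fin 8).permCongrHom.injective h)

theorem glue44_inj {a b c d : Perm (Fin 4)} : glue44 a b = glue44 c d ↔ a = c ∧ b = d :=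
  ⟨fun h => Prod.ext_iff.1 (glue44Hom_injective (a₁ := (a, b)) (a₂ := (c, d)) h),
    fun h => by rw [h.1, h.2]⟩

theorem glue44_mul (a b c d : Perm (Fin 4)) : glue44 a b * glue44 c d = glue44 (a * c) (b * d) :=
  (map_mul glue44Hom (a, b) (c, d)).symm

theorem glue44_inv (a b : Perm (Fin 4)) : (glue44 a b)⁻¹ = glue44 a⁻¹ b⁻¹ :=
  (map_inv glue44Hom (a, b)).symm

theorem glue44_pow (a b : Perm (Fin 4)) (n : ℕ) : glue44 a b ^ n = glue44 (a ^ n) (b ^ n) :=
  (map_pow glue44Hom (a, b) n).symm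

theorem glue44_one : glue44 1 1 = 1 := map_one glue44Hom

theorem glue44_comm {a b c d : Perm (Fin 4)} :
    glue44 a b * glue44 c d = glue44 c d * glue44 a b ↔ a * c = c * a ∧ b * d = d * b := by
  rw [glue44_mul, glue44_mul, glue44_inj]

/-- The double transposition `(01)(23)` of four points. -/
def qt : Perm (Fin 4) := swap 0 1 * swap 2 3

/-- The double transposition `(02)(13)` of four points. -/
def qv : Perm (Fin 4) := swap 0 2 * swap 1 3

/-- The transposition `(01)` of four points. -/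
def qs : Perm (Fin 4) := swap 0 1

/-- The transposition `(23)` of four points. -/
def qr : Perm (Fin 4) := swap 2 3

/-- Number of fixed points among four. -/
def fx (a : Perm (Fin 4)) : ℕ := (Finset.univ.filter fun i => a i = i).card

theorem glue_vals : pt = glue44 1 qt ∧ pv = glue44 1 qv ∧ x7 = glue44 qt 1 ∧
    swap 0 2 * swap 1 7 = glue44 qv 1 ∧ pr = glue44 qs qs ∧ pn = glue44 qt qt ∧
    swap 2 7 * swap 3 4 = glue44 qr qs ∧ swap 0 1 * swap 5 6 = glue44 qs qr ∧
    swap 2 7 * swap 5 6 = glue44 qr qr ∧ pt * pv = glue44 1 (qt * qv) := by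
  decide +kernel

theorem FourPts_glue : ∀ a b : Perm (Fin 4), FourPts (glue44 a b) ↔ fx a + fx b = 4 := by
  decide +kernel

theorem InS32_glue (a b : Perm (Fin 4)) :
    InS32 (glue44 a b) ↔ Perm.sign a * Perm.sign b = 1 ∧ a * qt = qt * a ∧ b * qt = qt * b := by
  rw [InS32, sign_glue44, glue_vals.1, glue_vals.2.2.1, glue44_comm, glue44_comm]
  simp only [mul_one, one_mul, and_true, true_and]
  tauto

/-- The second class of elements used against fusion, in coordinates. -/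
def fusPair : Fin 5 → Perm (Fin 4) × Perm (Fin 4) :=
  ![(1, qv), (qs, qs), (qr, qs), (qs, qr), (qr, qr)]

/-- The second class of elements used against fusion. -/
def fusList (i : Fin 5) : P8 := glue44 (fusPair i).1 (fusPair i).2

/-- The conditions on a witness against fusion. -/
def Wit (a b : Perm (Fin 4)) (i : Fin 5) : Prop :=
  (Perm.sign (fusPair i).1 * Perm.sign (fusPair i).2 = 1 ∧
    (fusPair i).1 * qt = qt * (fusPair i).1 ∧ (fusPair i).2 * qt = qt * (fusPair i).2) ∧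
  ((fusPair i).1 * a = a * (fusPair i).1 ∧ (fusPair i).2 * b = b * (fusPair i).2) ∧
  ((fusPair i).1 * (fusPair i).1 = 1 ∧ (fusPair i).2 * (fusPair i).2 = 1) ∧
  ¬ ((fusPair i).1 = 1 ∧ (fusPair i).2 = 1) ∧
  ¬ ((fusPair i).1 = 1 ∧ (fusPair i).2 * qt = 1) ∧
  fx (fusPair i).1 + fx (fusPair i).2 = 4 ∧ fx (fusPair i).1 + fx ((fusPair i).2 * qt) = 4 ∧
  ¬ ((fusPair i).1 = a ∧ (fusPair i).2 = b) ∧ ¬ ((fusPair i).1 = a ∧ (fusPair i).2 = b * qt)

instance (a b : Perm (Fin 4)) (i : Fin 5) : Decidable (Wit a b i) := by unfold Wit; infer_instance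

/-- The hypotheses of the fusion computation. -/
def FusHyp (a b : Perm (Fin 4)) : Prop :=
  a * qt = qt * a ∧ b * qt = qt * b ∧ Perm.sign a * Perm.sign b = 1 ∧ a * a = 1 ∧ b * b = 1 ∧
    fx a + fx b = 4 ∧ fx a + fx (b * qt) = 4 ∧ ¬ (a = 1 ∧ b = qv) ∧ ¬ (a = 1 ∧ b = qt * qv)

instance (a b : Perm (Fin 4)) : Decidable (FusHyp a b) := by unfold FusHyp; infer_instance

theorem fus_witness4 : ∀ a b : Perm (Fin 4), FusHyp a b → ∃ i : Fin 5, Wit a b i := by
  decide +kernel

theorem fus_witness (a b : Perm (Fin 4)) (hS : InS32 (glue44 a b))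
    (h2 : glue44 a b * glue44 a b = 1) (_h1 : glue44 a b ≠ 1) (_ht : glue44 a b ≠ pt)
    (h4 : FourPts (glue44 a b)) (h4' : FourPts (glue44 a b * pt))
    (hv : glue44 a b ≠ pv) (hvt : glue44 a b ≠ pt * pv) :
    ∃ i : Fin 5, InS32 (fusList i) ∧ fusList i * glue44 a b = glue44 a b * fusList i ∧
      fusList i * fusList i = 1 ∧ fusList i ≠ 1 ∧ fusList i * pt ≠ 1 ∧ FourPts (fusList i) ∧
      FourPts (fusList i * pt) ∧ fusList i ≠ glue44 a b ∧ fusList i ≠ glue44 a b * pt := by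
  obtain ⟨et, ev, -, -, -, -, -, -, -, evt⟩ := glue_vals
  rw [InS32_glue] at hS
  rw [glue44_mul, ← glue44_one, glue44_inj] at h2
  rw [FourPts_glue] at h4
  rw [et, glue44_mul, mul_one, FourPts_glue] at h4'
  rw [ev, Ne, glue44_inj] at hv
  rw [evt, Ne, glue44_inj] at hvt
  obtain ⟨i, e1, e2, e3, e4, e5, e6, e7, e8, e9⟩ :=
    fus_witness4 a b ⟨hS.2.1, hS.2.2, hS.1, h2.1, h2.2, h4, h4', hv, hvt⟩
  refine ⟨i, ?_, ?_, ?_, ?_, ?_, ?_, ?_, ?_, ?_⟩
  · exact (InS32_glue _ _).2 e1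
  · exact glue44_comm.2 e2
  · rw [fusList, glue44_mul, ← glue44_one, glue44_inj]; exact e3
  · rw [fusList, ← glue44_one, Ne, glue44_inj]; exact e4
  · rw [fusList, et, glue44_mul, mul_one, ← glue44_one, Ne, glue44_inj]; exact e5
  · rw [fusList, FourPts_glue]; exact e6
  · rw [fusList, et, glue44_mul, mul_one, FourPts_glue]; exact e7
  · rw [fusList, Ne, glue44_inj]; exact e8
  · rw [fusList, et, glue44_mul, mul_one, Ne, glue44_inj]; exact e9

theorem CV_types4 : ∀ a b : Perm (Fin 4), b * qt = qt * b → b * qv = qv * b → a * a = 1 →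
    b * b = 1 → fx a + fx b = 4 → fx a + fx (b * qt) = 4 →
    (a = 1 ∧ b = qv) ∨ (a = 1 ∧ b = qt * qv) := by
  decide +kernel

theorem CV_types (a b : Perm (Fin 4)) (ht : glue44 a b * pt = pt * glue44 a b)
    (hv : glue44 a b * pv = pv * glue44 a b) (h2 : glue44 a b * glue44 a b = 1)
    (h4 : FourPts (glue44 a b)) (h4' : FourPts (glue44 a b * pt)) :
    glue44 a b = pv ∨ glue44 a b = pt * pv := by
  obtain ⟨et, ev, -, -, -, -, -, -, -, evt⟩ := glue_vals
  rw [et, glue44_comm] at ht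
  rw [ev, glue44_comm] at hv
  rw [glue44_mul, ← glue44_one, glue44_inj] at h2
  rw [FourPts_glue] at h4
  rw [et, glue44_mul, mul_one, FourPts_glue] at h4'
  rw [evt, ev, glue44_inj, glue44_inj]
  exact CV_types4 a b ht.2 hv.2 h2.1 h2.2 h4 h4'

theorem qt_exp : ∀ a : Perm (Fin 4), a * qt = qt * a → a ^ 8 = 1 := by decide +kernel

theorem qt_norm : ∀ a : Perm (Fin 4), (a * qs * a⁻¹) * qt = qt * (a * qs * a⁻¹) → a * qt = qt * a := by
  decide +kernel

theorem qt_odd : ∀ a : Perm (Fin 4), a ^ 3 = 1 → a ≠ 1 → (qt * a * qt⁻¹ * a⁻¹) ^ 3 ≠ 1 := by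
  decide +kernel

theorem S32_exp (a b : Perm (Fin 4)) (h : InS32 (glue44 a b)) : glue44 a b ^ 8 = 1 := by
  rw [InS32_glue] at h
  rw [glue44_pow, qt_exp a h.2.1, qt_exp b h.2.2, glue44_one]

theorem S32_norm (a b : Perm (Fin 4)) (hs : Perm.sign (glue44 a b) = 1)
    (ht : glue44 a b * pt = pt * glue44 a b) (_hv : InS32 (glue44 a b * pv * (glue44 a b)⁻¹))
    (_hA : InS32 (glue44 a b * (swap 0 2 * swap 1 7) * (glue44 a b)⁻¹))
    (hR : InS32 (glue44 a b * pr * (glue44 a b)⁻¹)) : InS32 (glue44 a b) := by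
  rw [glue_vals.1, glue44_comm] at ht
  rw [glue_vals.2.2.2.2.1, glue44_inv, glue44_mul, glue44_mul, InS32_glue] at hR
  rw [sign_glue44] at hs
  exact (InS32_glue _ _).2 ⟨hs, qt_norm a hR.2.1, ht.2⟩

theorem S32_gens : InS32 pv ∧ InS32 (swap 0 2 * swap 1 7) ∧ InS32 pr ∧ InS32 pt ∧ InS32 x7 := by
  decide +kernel

theorem odd_C_pt (a b : Perm (Fin 4)) (ht : glue44 a b * pt = pt * glue44 a b)
    (h3 : glue44 a b ^ 3 = 1) (h1 : glue44 a b ≠ 1) :
    (x7 * glue44 a b * x7⁻¹ * (glue44 a b)⁻¹) ^ 3 ≠ 1 := by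
  rw [glue_vals.1, glue44_comm] at ht
  rw [glue44_pow, ← glue44_one, glue44_inj] at h3
  have hb : b = 1 := by
    have h8 := qt_exp b ht.2
    rw [show (8 : ℕ) = 3 * 3 - 1 from rfl] at h8
    have h9 : b ^ (3 * 3) = 1 := by rw [pow_mul, h3.2, one_pow]
    rw [show 3 * 3 = (3 * 3 - 1) + 1 from rfl, pow_succ, h8, one_mul] at h9
    exact h9
  subst hb
  have ha : a ≠ 1 := fun h => h1 (by rw [h, glue44_one])
  rw [glue_vals.2.2.1, glue44_inv, glue44_inv, glue44_mul, glue44_mul, glue44_mul, glue44_pow,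
    ← glue44_one, Ne, glue44_inj]
  exact fun h => qt_odd a h3.1 ha h.1

theorem C_pt_orders (a b : Perm (Fin 4)) : glue44 a b ^ 24 = 1 := by
  have h : ∀ c : Perm (Fin 4), c ^ 24 = 1 := fun c => by
    have hc : Fintype.card (Perm (Fin 4)) = 24 := by rw [Fintype.card_perm, Fintype.card_fin]; rfl
    rw [← hc]; exact pow_card_eq_one
  rw [glue44_pow, h, h, glue44_one]

theorem C_V_moved {p : P8} {u : P8} (hu : u = pt ∨ u = pv ∨ u = pt * pv) (h : p * u = u * p) :
    ∃ a b, p = glue44 a b := by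
  refine exists_glue44 ?_
  have hmov : ∀ i : Fin 8, u i = i ↔ Lo i := by
    rcases hu with rfl | rfl | rfl <;> decide +kernel
  intro i
  rw [← hmov, ← hmov]
  have h1 : u (p i) = p (u i) := congrArg (fun q : P8 => q i) h.symm
  rw [h1]
  exact p.injective.eq_iff

theorem C_pn_exp (a b : Perm (Fin 4)) (h : glue44 a b * pn = pn * glue44 a b) :
    glue44 a b ^ 8 = 1 := by
  rw [glue_vals.2.2.2.2.2.1, glue44_comm] at h
  rw [glue44_pow, qt_exp a h.1, qt_exp b h.2, glue44_one]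

end Cfsg.Agent.H17.AltEight
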