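import Cfsg.Agent.H17.AltEight.Single
import Cfsg.Agent.H17.AltEight.Hom
import Cfsg.Agent.H17.AltEight.Types
import Cfsg.Agent.H17.AltEight.OddLift
import Cfsg.Agent.S0215
import Mathlib.GroupTheory.FixedPointFree

/-!
The centraliser of an involution of the first class lies in the image of the alternating group.
-/

set_option autoImplicit false
set_option maxHeartbeats 1000000
set_option maxRecDepth 8000

namespace Cfsg.Agent.H17.AltEight

open Equiv
open scoped commutatorElement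

theorem eq_of_self_normalizing {G : Type*} [Group G] {p : ℕ} [Fact p.Prime] {P Q : Subgroup G}
    [Finite G] (hQ : IsPGroup p Q) (hle : P ≤ Q)
    (h : ∀ g ∈ Q, (∀ x ∈ P, g * x * g⁻¹ ∈ P) → g ∈ P) : Q = P := by
  by_contra hne
  have hlt : P.subgroupOf Q < ⊤ := lt_top_iff_ne_top.2 fun ht =>
    hne (le_antisymm (Subgroup.subgroupOf_eq_top.1 ht) hle)
  haveI : Group.IsNilpotent Q := hQ.isNilpotent
  obtain ⟨⟨g, hgQ⟩, hgN, hgP⟩ :=
    SetLike.exists_of_lt (Group.normalizerCondition_of_isNilpotent (G := Q) _ hlt)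
  refine hgP (Subgroup.mem_subgroupOf.2 (h g hgQ fun x hx => ?_))
  exact Subgroup.mem_subgroupOf.1 ((Subgroup.mem_normalizer_iff.1 hgN ⟨x, hle hx⟩).1
    (Subgroup.mem_subgroupOf.2 hx))

theorem diag_conj : ∀ a b : Fin 3, a ≠ 0 → b ≠ 0 → ∃ k l : Fin 2,
    (a1 ^ k.val * a2 ^ l.val) * (pC * pD) * (a1 ^ k.val * a2 ^ l.val)⁻¹ = pC ^ a.val * pD ^ b.val := by
  decide +kernel

theorem cent_diag_elts : Function.Injective (fun x : Fin 3 × Fin 3 × Fin 2 =>
      pC ^ x.1.val * pD ^ x.2.1.val * sig ^ x.2.2.val) ∧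
    ∀ x : Fin 3 × Fin 3 × Fin 2,
      Perm.sign (pC ^ x.1.val * pD ^ x.2.1.val * sig ^ x.2.2.val) = 1 ∧
      pC ^ x.1.val * pD ^ x.2.1.val * sig ^ x.2.2.val * (pC * pD) =
        pC * pD * (pC ^ x.1.val * pD ^ x.2.1.val * sig ^ x.2.2.val) := by
  decide +kernel

/-- The second and third involution of the four-group conjugate to the one generated by `pt`. -/
def x8 : P8 := pC * x7 * pC⁻¹

/-- The third involution of that four-group. -/
def x9 : P8 := pC * x8 * pC⁻¹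

theorem X_facts : InS32 x7 ∧ InS32 x8 ∧ InS32 x9 ∧ x7 * x8 = x9 ∧ x7 * x8 = x8 * x7 ∧
    x7 * x7 = 1 ∧ x8 * x8 = 1 ∧ x7 = sig * pt * sig ∧ x8 = sig * (pt * pv) * sig ∧
    pC * x9 * pC⁻¹ = x7 ∧ Perm.sign (pt * pv) = 1 := by
  decide +kernel

theorem cv_sign : Perm.sign sig = 1 ∧ pr * (pt * pv) * pr⁻¹ = pv ∧ pr * pt * pr⁻¹ = pt ∧
    pt * pv = pv * pt ∧ pv ≠ pt * pv ∧ pv ≠ pt ∧ InS32 (pt * pv) := by
  decide +kernel

namespace Sys

variable {G : Type*} [Group G] (S : Sys G)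

/-- An embedding of the alternating group extending both local embeddings. -/
structure Ext where
  Ψ : alternatingGroup (Fin 8) →* G
  hι : ∀ p (hp : InK p), Ψ (alt hp.2) = S.ι p
  hj : ∀ p (hp : InK' p), Ψ (alt (InK'_sign hp)) = S.j p
  inj : Function.Injective Ψ

theorem exists_ext [Finite G] (hX : S.j x7 ∈ S.CV) : Nonempty S.Ext := by
  obtain ⟨Ψ, h1, h2⟩ := S.exists_hom hX
  refine ⟨⟨Ψ, h1, h2, ?_⟩⟩
  haveI : IsSimpleGroup (alternatingGroup (Fin 8)) := alternatingGroup.isSimpleGroup (by simp)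
  rcases Ψ.normal_ker.eq_bot_or_eq_top with h | h
  · exact (MonoidHom.ker_eq_bot_iff Ψ).1 h
  · exfalso
    apply S.z_ne_one
    rw [Sys.z, ← h1 pC InK_basic.1]
    exact MonoidHom.mem_ker.1 (h ▸ Subgroup.mem_top _)

namespace Ext

variable {S} (E : S.Ext)

/-- The embedding as a function on all permutations. -/
def f (p : P8) : G := if h : Perm.sign p = 1 then E.Ψ (alt h) else 1

theorem f_def {p : P8} (h : Perm.sign p = 1) : E.f p = E.Ψ (alt h) := dif_pos h

theorem f_mul {p q : P8} (hp : Perm.sign p = 1) (hq : Perm.sign q = 1) :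
    E.f (p * q) = E.f p * E.f q := by
  have h : Perm.sign (p * q) = 1 := by rw [map_mul, hp, hq, one_mul]
  rw [E.f_def h, E.f_def hp, E.f_def hq, ← map_mul]
  exact congrArg E.Ψ (Subtype.ext rfl)

theorem f_one : E.f 1 = 1 := by
  rw [E.f_def (map_one _)]
  exact (congrArg E.Ψ (Subtype.ext rfl)).trans (map_one E.Ψ)

theorem f_inv {p : P8} (hp : Perm.sign p = 1) : E.f p⁻¹ = (E.f p)⁻¹ := by
  apply eq_inv_of_mul_eq_one_left
  rw [← E.f_mul (by rw [Perm.sign_inv, hp]) hp, inv_mul_cancel, E.f_one]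

theorem f_conj {p q : P8} (hp : Perm.sign p = 1) (hq : Perm.sign q = 1) :
    E.f (p * q * p⁻¹) = E.f p * E.f q * (E.f p)⁻¹ := by
  rw [E.f_mul (by rw [map_mul, hp, hq, one_mul]) (by rw [Perm.sign_inv, hp]), E.f_mul hp hq,
    E.f_inv hp]

theorem f_pow {p : P8} (hp : Perm.sign p = 1) (n : ℕ) : E.f (p ^ n) = E.f p ^ n := by
  induction n with
  | zero => rw [pow_zero, pow_zero, E.f_one]
  | succ k ih => rw [pow_succ, pow_succ, E.f_mul (by rw [map_pow, hp, one_pow]) hp, ih]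

theorem f_inj {p q : P8} (hp : Perm.sign p = 1) (hq : Perm.sign q = 1) (h : E.f p = E.f q) :
    p = q := by
  rw [E.f_def hp, E.f_def hq] at h
  exact congrArg Subtype.val (E.inj h)

theorem f_ι {p : P8} (hp : InK p) : E.f p = S.ι p := (E.f_def hp.2).trans (E.hι p hp)

theorem f_j {p : P8} (hp : InK' p) : E.f p = S.j p := (E.f_def (InK'_sign hp)).trans (E.hj p hp)

theorem f_comm {p q : P8} (hp : Perm.sign p = 1) (hq : Perm.sign q = 1) (h : p * q = q * p) :
    Commute (E.f p) (E.f q) := by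
  show _ * _ = _ * _
  rw [← E.f_mul hp hq, ← E.f_mul hq hp, h]

theorem comm_of_f {p q : P8} (hp : Perm.sign p = 1) (hq : Perm.sign q = 1)
    (h : Commute (E.f p) (E.f q)) : p * q = q * p := by
  refine E.f_inj (by rw [map_mul, hp, hq, one_mul]) (by rw [map_mul, hp, hq, one_mul]) ?_
  rw [E.f_mul hp hq, E.f_mul hq hp]; exact h

theorem f_sq {p : P8} (hp : Perm.sign p = 1) (h : p * p = 1) : E.f p * E.f p = 1 := by
  rw [← E.f_mul hp hp, h, E.f_one]

theorem f_ne_one {p : P8} (hp : Perm.sign p = 1) (h : p ≠ 1) : E.f p ≠ 1 := fun e =>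
  h (E.f_inj hp (map_one _) (e.trans E.f_one.symm))

/-- The image. -/
def H : Subgroup G := E.Ψ.range

theorem f_mem (p : P8) : E.f p ∈ E.H := by
  by_cases h : Perm.sign p = 1
  · rw [E.f_def h]; exact ⟨_, rfl⟩
  · rw [f, dif_neg h]; exact one_mem _

theorem exists_f {g : G} (hg : g ∈ E.H) : ∃ p, Perm.sign p = 1 ∧ E.f p = g := by
  obtain ⟨x, rfl⟩ := hg
  exact ⟨x.1, Perm.mem_alternatingGroup.1 x.2, E.f_def (Perm.mem_alternatingGroup.1 x.2)⟩

theorem ι_mem {p : P8} (hp : InK p) : S.ι p ∈ E.H := E.f_ι hp ▸ E.f_mem p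

/-- The centraliser of `a` lies in the image. -/
def Ctrl (a : G) : Prop := ∀ x, Commute x a → x ∈ E.H

theorem ctrl_conj {a h : G} (ha : E.Ctrl a) (hh : h ∈ E.H) : E.Ctrl (h * a * h⁻¹) := by
  intro x hx
  have h1 : Commute (h⁻¹ * x * h) a := by
    show _ * _ = _ * _
    calc h⁻¹ * x * h * a = h⁻¹ * (x * (h * a * h⁻¹)) * h := by group
      _ = h⁻¹ * ((h * a * h⁻¹) * x) * h := by rw [hx.eq]
      _ = _ := by group
  have h2 := mul_mem (mul_mem hh (ha _ h1)) (inv_mem hh)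
  rwa [show h * (h⁻¹ * x * h) * h⁻¹ = x by group] at h2

theorem ctrl_z : E.Ctrl S.z := fun x hx => by
  obtain ⟨p, hp, -, rfl⟩ := S.exists_ι_of_comm hx
  exact E.ι_mem hp

theorem ctrl_w : E.Ctrl S.w := fun x hx => by
  obtain ⟨p, hp, -, rfl⟩ := S.exists_j_of_comm hx
  exact E.f_j hp ▸ E.f_mem p

theorem ctrl_sq {a : G} (ha : E.Ctrl a) (h3 : a ^ 3 = 1) : E.Ctrl (a ^ 2) := by
  intro x hx
  refine ha x ?_
  have h := hx.pow_right 2
  rwa [← pow_mul, show (2 : ℕ) * 2 = 3 + 1 from rfl, pow_succ, h3, one_mul] at h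

theorem cent_zw_form [Finite G] {x : G} (hx : Commute x (S.z * S.w)) :
    ∃ a b : Fin 3, ∃ c : Fin 2, x = E.f (pC ^ a.val * pD ^ b.val * sig ^ c.val) := by
  obtain ⟨hinj, hmem⟩ := cent_diag_elts
  have hzw : E.f (pC * pD) = S.z * S.w := by
    rw [E.f_mul InK_basic.1.2 InK_basic.2.1.2, E.f_ι InK_basic.1, E.f_ι InK_basic.2.1]
  let φ : Fin 3 × Fin 3 × Fin 2 → (Subgroup.centralizer {S.z * S.w} : Subgroup G) := fun x =>
    ⟨E.f (pC ^ x.1.val * pD ^ x.2.1.val * sig ^ x.2.2.val), by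
      rw [Subgroup.mem_centralizer_singleton_iff, ← hzw]
      exact (E.f_comm (hmem x).1 (InK_basic.1.mul InK_basic.2.1).2 (hmem x).2).eq⟩
  have hφ : Function.Injective φ := fun a b hab =>
    hinj (E.f_inj (hmem a).1 (hmem b).1 (congrArg Subtype.val hab))
  have hb : Function.Bijective φ :=
    (Nat.bijective_iff_injective_and_card φ).2 ⟨hφ, by rw [S.cardY]; simp⟩
  obtain ⟨y, hy⟩ := hb.2 ⟨x, Subgroup.mem_centralizer_singleton_iff.2 hx.eq⟩
  exact ⟨y.1, y.2.1, y.2.2, (congrArg Subtype.val hy).symm⟩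

theorem ctrl_zw [Finite G] : E.Ctrl (S.z * S.w) := fun x hx => by
  obtain ⟨a, b, c, rfl⟩ := E.cent_zw_form hx
  exact E.f_mem _

theorem ctrl_D [Finite G] {d : G} (hd : d ∈ S.D) (h1 : d ≠ 1) : E.Ctrl d := by
  obtain ⟨a, b, rfl⟩ := S.D_form_ι hd
  have hc := InK_basic.1
  have hd' := InK_basic.2.1
  rw [S.ι_mul (hc.pow _) (hd'.pow _), S.ι_pow hc, S.ι_pow hd'] at h1 ⊢
  have h012 : ∀ c : Fin 3, c = 0 ∨ c = 1 ∨ c = 2 := by decide
  by_cases ha : a = 0
  · subst ha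
    rw [Fin.val_zero, pow_zero, one_mul] at h1 ⊢
    rcases h012 b with rfl | rfl | rfl
    · exact absurd (pow_zero _) h1
    · rw [Fin.val_one, pow_one]; exact E.ctrl_w
    · exact E.ctrl_sq E.ctrl_w S.w_pow3
  by_cases hb : b = 0
  · subst hb
    rw [Fin.val_zero, pow_zero, mul_one] at h1 ⊢
    rcases h012 a with rfl | rfl | rfl
    · exact absurd (pow_zero _) h1
    · rw [Fin.val_one, pow_one]; exact E.ctrl_z
    · exact E.ctrl_sq E.ctrl_z S.z_pow3
  obtain ⟨k, l, h⟩ := diag_conj a b ha hb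
  have hg : InK (a1 ^ k.val * a2 ^ l.val) :=
    (InK_basic.2.2.2.2.1.pow _).mul (InK_basic.2.2.2.2.2.1.pow _)
  rw [← S.ι_pow hc, ← S.ι_pow hd', ← S.ι_mul (hc.pow _) (hd'.pow _), ← h,
    S.ι_conj hg (hc.mul hd'), S.ι_mul hc hd']
  exact E.ctrl_conj E.ctrl_zw (E.ι_mem hg)

theorem CV_le [Finite G] : S.CV ≤ E.H := by
  obtain ⟨M, hMle, -, hM3, hMz, hMchar⟩ := S.exists_complement
  have hDnorm : ∀ d ∈ S.D, ∀ g ∈ S.CV, d * g * d⁻¹ ∈ S.CV := by
    intro d hd g hg
    obtain ⟨a, b, rfl⟩ := S.D_form_ι hd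
    have hp : InK (pC ^ a.val * pD ^ b.val) := (InK_basic.1.pow _).mul (InK_basic.2.1.pow _)
    have key : ∀ q : Fin 2, Commute (S.ι (pC ^ a.val * pD ^ b.val) * g *
        (S.ι (pC ^ a.val * pD ^ b.val))⁻¹) (S.ι (if q = 0 then pt else pv)) := by
      intro q
      obtain ⟨k, l, h⟩ := V_normal a b q
      have hq : InK (if q = 0 then pt else pv) := by
        split <;> [exact InK_basic.2.2.1; exact InK_basic.2.2.2.1]
      have h2 : (S.ι (pC ^ a.val * pD ^ b.val))⁻¹ * S.ι (if q = 0 then pt else pv) *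
          S.ι (pC ^ a.val * pD ^ b.val) = S.ι (pt ^ k.val * pv ^ l.val) := by
        rw [← S.ι_inv hp, ← S.ι_mul hp.inv hq, ← S.ι_mul (hp.inv.mul hq) hp, h]
      have h3 : Commute g (S.ι (pt ^ k.val * pv ^ l.val)) := by
        rw [S.ι_mul (InK_basic.2.2.1.pow _) (InK_basic.2.2.2.1.pow _), S.ι_pow InK_basic.2.2.1,
          S.ι_pow InK_basic.2.2.2.1]
        exact ((S.mem_CV.1 hg).1.pow_right _).mul_right ((S.mem_CV.1 hg).2.pow_right _)
      rw [← h2] at h3
      generalize S.ι (if q = 0 then pt else pv) = u at h3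
      generalize S.ι (pC ^ a.val * pD ^ b.val) = d at h3
      show _ * _ = _ * _
      calc d * g * d⁻¹ * u = d * (g * (d⁻¹ * u * d)) * d⁻¹ := by group
        _ = d * ((d⁻¹ * u * d) * g) * d⁻¹ := by rw [h3.eq]
        _ = _ := by group
    exact S.mem_CV.2 ⟨key 0, key 1⟩
  have hDM : ∀ d ∈ S.D, ∀ m ∈ M, d * m * d⁻¹ ∈ M := by
    intro d hd m hm
    refine hMchar _ (hDnorm d hd m (hMle hm)) (Nat.card M) hM3 ?_
    have h1 : m ^ Nat.card M = 1 := congrArg Subtype.val (pow_card_eq_one' (x := (⟨m, hm⟩ : M)))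
    rw [conj_pow, h1, mul_one, mul_inv_cancel]
  have hDle : S.D ≤ Subgroup.normalizer (M : Set G) := by
    intro d hd
    rw [Subgroup.mem_normalizer_iff]
    intro m
    refine ⟨hDM d hd m, fun h => ?_⟩
    have := hDM d⁻¹ (inv_mem hd) _ h
    simpa [mul_assoc] using this
  have hcop : (Nat.card S.D).Coprime (Nat.card M) := by
    rw [S.card_D]
    exact Nat.Coprime.pow_left 2 ((Nat.Prime.coprime_iff_not_dvd Nat.prime_three).2 hM3)
  have hMH : M ≤ E.H := H20.le_of_centralizers_le S.D_not_cyclic hDle hcop fun d hd hd1 g hg =>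
    E.ctrl_D hd hd1 g (Subgroup.mem_centralizer_singleton_iff.1 hg.2)
  intro g hg
  obtain ⟨i, -, hi⟩ := hMz g hg
  have := mul_mem (hMH hi) (inv_mem (pow_mem (E.ι_mem InK_basic.1) i))
  rwa [mul_inv_cancel_right] at this

theorem ft : E.f pt = S.ι pt := E.f_ι InK_basic.2.2.1

theorem fv : E.f pv = S.ι pv := E.f_ι InK_basic.2.2.2.1

theorem mem_of_comm_V [Finite G] {g : G} (ht : Commute g (E.f pt)) (hv : Commute g (E.f pv)) :
    g ∈ E.H :=
  E.CV_le (S.mem_CV.2 ⟨E.ft ▸ ht, E.fv ▸ hv⟩)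

theorem conj_type {p : P8} (hs : Perm.sign p = 1) (hp : p * p = 1) (hne : p ≠ 1) :
    (FourPts p → ∃ h ∈ E.H, h * E.f pt * h⁻¹ = E.f p) ∧
    (¬ FourPts p → ∃ h ∈ E.H, h * E.f sig * h⁻¹ = E.f p) := by
  refine ⟨fun h4 => ?_, fun h4 => ?_⟩
  · obtain ⟨g, hg, he⟩ := conj_pt hp hne h4
    exact ⟨E.f g, E.f_mem g, by rw [← E.f_conj hg InK_basic.2.2.1.2, he]⟩
  · obtain ⟨g, hg, he⟩ := conj_sig hp hne hs h4
    exact ⟨E.f g, E.f_mem g, by rw [← E.f_conj hg cv_sign.1, he]⟩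

theorem sig_not_conj [Finite G] : ¬ IsConj (E.f pt) (E.f sig) := by
  rw [E.ft]
  refine S.not_conj_t ?_
  rw [Sys.z, Sys.w, ← E.f_ι InK_basic.1, ← E.f_ι InK_basic.2.1, ← E.f_mul InK_basic.1.2 InK_basic.2.1.2]
  exact E.f_comm cv_sign.1 (InK_basic.1.mul InK_basic.2.1).2 (by decide +kernel)

theorem fourPts_of_conj [Finite G] {p : P8} (hs : Perm.sign p = 1) (hp : p * p = 1) (hne : p ≠ 1)
    (hc : IsConj (E.f pt) (E.f p)) : FourPts p := by
  by_contra h4
  obtain ⟨h, -, he⟩ := (E.conj_type hs hp hne).2 h4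
  exact E.sig_not_conj (hc.trans (isConj_iff.2 ⟨h, he⟩).symm)

theorem mem_of_conj_v [Finite G] {g : G} (hg : Commute g (E.f pt))
    (h : g * E.f pv * g⁻¹ = E.f pv ∨ g * E.f pv * g⁻¹ = E.f (pt * pv)) : g ∈ E.H := by
  rcases h with h | h
  · exact E.mem_of_comm_V hg (mul_inv_eq_iff_eq_mul.1 h)
  · have iR := InK_basic.2.2.2.2.2.2
    have hc : Commute (E.f pr) (E.f pt) := E.f_comm iR.2 InK_basic.2.2.1.2
      (mul_inv_eq_iff_eq_mul.1 cv_sign.2.2.1)
    have h1 : E.f pr * g ∈ E.H := by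
      refine E.mem_of_comm_V (hc.mul_left hg) (mul_inv_eq_iff_eq_mul.1 ?_)
      calc E.f pr * g * E.f pv * (E.f pr * g)⁻¹
          = E.f pr * (g * E.f pv * g⁻¹) * (E.f pr)⁻¹ := by group
        _ = _ := by rw [h, ← E.f_conj iR.2 X_facts.2.2.2.2.2.2.2.2.2.2, cv_sign.2.1]
    have := mul_mem (inv_mem (E.f_mem pr)) h1
    rwa [inv_mul_cancel_left] at this

/-- No fusion of `pv` inside the Sylow subgroup of the centraliser of `pt`. -/
theorem fusion [Finite G] {g : G} (hg : Commute g (E.f pt)) {p : P8} (hp : InS32 p)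
    (he : g * E.f pv * g⁻¹ = E.f p) : p = pv ∨ p = pt * pv := by
  have sT := InK_basic.2.2.1.2
  have sV := InK_basic.2.2.2.1.2
  obtain ⟨hsp, hpt, -⟩ := id hp
  have hv2 : E.f pv * E.f pv = 1 := E.f_sq sV (by decide +kernel)
  have hv1 : E.f pv ≠ 1 := E.f_ne_one sV (by decide +kernel)
  have hgt : g * E.f pt * g⁻¹ = E.f pt := by rw [hg.eq, mul_inv_cancel_right]
  have hp2 : p * p = 1 := by
    refine E.f_inj (by rw [map_mul, hsp, one_mul]) (map_one _) ?_
    rw [E.f_mul hsp hsp, ← he, E.f_one]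
    calc g * E.f pv * g⁻¹ * (g * E.f pv * g⁻¹) = g * (E.f pv * E.f pv) * g⁻¹ := by group
      _ = 1 := by rw [hv2]; group
  have hp1 : p ≠ 1 := fun h => hv1 (by
    rw [h, E.f_one] at he
    calc E.f pv = g⁻¹ * (g * E.f pv * g⁻¹) * g := by group
      _ = 1 := by rw [he]; group)
  have hpnt : p ≠ pt := fun h => cv_sign.2.2.2.2.2.1 (E.f_inj sV sT (by
    rw [h] at he
    calc E.f pv = g⁻¹ * (g * E.f pv * g⁻¹) * g := by group
      _ = g⁻¹ * (g * E.f pt * g⁻¹) * g := by rw [he, hgt]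
      _ = _ := by group))
  have hconjv : IsConj (E.f pt) (E.f pv) := by
    obtain ⟨h, -, hh⟩ := (E.conj_type sV (by decide +kernel) (by decide +kernel)).1 (by decide +kernel)
    exact isConj_iff.2 ⟨h, hh⟩
  have sTV : Perm.sign (pt * pv) = 1 := by rw [map_mul, sT, sV, one_mul]
  have hconjvt : IsConj (E.f pt) (E.f (pt * pv)) := by
    obtain ⟨h, -, hh⟩ := (E.conj_type sTV (by decide +kernel) (by decide +kernel)).1 (by decide +kernel)
    exact isConj_iff.2 ⟨h, hh⟩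
  have hp4 : FourPts p := E.fourPts_of_conj hsp hp2 hp1 (hconjv.trans (isConj_iff.2 ⟨g, he⟩))
  have hspt : Perm.sign (p * pt) = 1 := by rw [map_mul, hsp, sT, one_mul]
  have het : g * E.f (pt * pv) * g⁻¹ = E.f (p * pt) := by
    rw [E.f_mul hsp sT, ← he, cv_sign.2.2.2.1, E.f_mul sV sT]
    nth_rewrite 2 [← hgt]
    group
  have hpt2 : p * pt * (p * pt) = 1 := by
    have htt : pt * pt = 1 := rep_facts.1
    calc p * pt * (p * pt) = p * (pt * p) * pt := by group
      _ = p * p * (pt * pt) := by rw [← hpt]; group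
      _ = 1 := by rw [hp2, htt, one_mul]
  have hpt1 : p * pt ≠ 1 := fun h => hpnt (by
    have htt : pt * pt = 1 := rep_facts.1
    calc p = p * pt * pt := by rw [mul_assoc, htt, mul_one]
      _ = pt := by rw [h, one_mul])
  have hpt4 : FourPts (p * pt) :=
    E.fourPts_of_conj hspt hpt2 hpt1 (hconjvt.trans (isConj_iff.2 ⟨g, het⟩))
  by_contra hcon
  push Not at hcon
  obtain ⟨a, b, rfl⟩ := C_pt_form hpt
  obtain ⟨i, heS, hep, he2, he1, het1, he4, het4, hne, hnet⟩ :=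
    fus_witness a b hp hp2 hp1 hpnt hp4 hpt4 hcon.1 hcon.2
  set e := fusList i
  obtain ⟨hse, hec, -⟩ := id heS
  set aa := g⁻¹ * E.f e * g with haa
  have hat : Commute aa (E.f pt) :=
    (hg.inv_left.mul_left (E.f_comm hse sT hec)).mul_left hg
  have hav : Commute aa (E.f pv) := by
    have h1 : Commute (E.f e) (g * E.f pv * g⁻¹) := by rw [he]; exact E.f_comm hse hsp hep
    show _ * _ = _ * _
    calc aa * E.f pv = g⁻¹ * (E.f e * (g * E.f pv * g⁻¹)) * g := by rw [haa]; group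
      _ = g⁻¹ * ((g * E.f pv * g⁻¹) * E.f e) * g := by rw [h1.eq]
      _ = _ := by rw [haa]; group
  obtain ⟨q, hq, hqe⟩ := E.exists_f (E.mem_of_comm_V hat hav)
  have hqe' : g * E.f q * g⁻¹ = E.f e := by rw [hqe, haa]; group
  have hq2 : q * q = 1 := by
    refine E.f_inj (by rw [map_mul, hq, one_mul]) (map_one _) ?_
    rw [E.f_mul hq hq, hqe, E.f_one, haa]
    calc g⁻¹ * E.f e * g * (g⁻¹ * E.f e * g) = g⁻¹ * (E.f e * E.f e) * g := by group
      _ = 1 := by rw [E.f_sq hse he2]; group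
  have hq1 : q ≠ 1 := fun h => E.f_ne_one hse he1 (by rw [← hqe', h, E.f_one]; group)
  have hqt := E.comm_of_f hq sT (hqe ▸ hat)
  have hqv := E.comm_of_f hq sV (hqe ▸ hav)
  have hq4 : FourPts q := by
    refine E.fourPts_of_conj hq hq2 hq1 ?_
    obtain ⟨h, -, hh⟩ := (E.conj_type hse he2 he1).1 he4
    exact (isConj_iff.2 ⟨h, hh⟩).trans (isConj_iff.2 ⟨g, hqe'⟩).symm
  have hsqt : Perm.sign (q * pt) = 1 := by rw [map_mul, hq, sT, one_mul]
  have hqet : g * E.f (q * pt) * g⁻¹ = E.f (e * pt) := by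
    rw [E.f_mul hse sT, ← hqe', E.f_mul hq sT]
    nth_rewrite 2 [← hgt]
    group
  have hset : Perm.sign (e * pt) = 1 := by rw [map_mul, hse, sT, one_mul]
  have hqt1 : q * pt ≠ 1 := fun h => E.f_ne_one hset het1 (by rw [← hqet, h, E.f_one]; group)
  have hqt2 : q * pt * (q * pt) = 1 := by
    have htt : pt * pt = 1 := rep_facts.1
    calc q * pt * (q * pt) = q * (pt * q) * pt := by group
      _ = q * q * (pt * pt) := by rw [← hqt]; group
      _ = 1 := by rw [hq2, htt, one_mul]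
  have het2 : e * pt * (e * pt) = 1 := by
    have htt : pt * pt = 1 := rep_facts.1
    calc e * pt * (e * pt) = e * (pt * e) * pt := by group
      _ = e * e * (pt * pt) := by rw [← hec]; group
      _ = 1 := by rw [he2, htt, one_mul]
  have hqt4 : FourPts (q * pt) := by
    refine E.fourPts_of_conj hsqt hqt2 hqt1 ?_
    obtain ⟨h, -, hh⟩ := (E.conj_type hset het2 het1).1 het4
    exact (isConj_iff.2 ⟨h, hh⟩).trans (isConj_iff.2 ⟨g, hqet⟩).symm
  obtain ⟨a', b', hab⟩ := C_pt_form hqt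
  rw [hab] at hqt hqv hq2 hq4 hqt4
  rcases CV_types a' b' hqt hqv hq2 hq4 hqt4 with h | h
  · exact hne (E.f_inj hse hsp (by rw [← hqe', hab, h, he]))
  · exact hnet (E.f_inj hse hspt (by rw [← hqe', hab, h, het]))

/-- The image of the Sylow subgroup of the centraliser of `pt`. -/
def S32 : Subgroup G where
  carrier := {g | ∃ p, InS32 p ∧ E.f p = g}
  mul_mem' := by
    rintro _ _ ⟨p, hp, rfl⟩ ⟨q, hq, rfl⟩
    exact ⟨p * q, hp.mul hq, E.f_mul hp.1 hq.1⟩
  one_mem' := ⟨1, InS32.one, E.f_one⟩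
  inv_mem' := by
    rintro _ ⟨p, hp, rfl⟩
    exact ⟨p⁻¹, hp.inv, E.f_inv hp.1⟩

theorem S32_isPGroup : IsPGroup 2 E.S32 := by
  rintro ⟨_, p, hp, rfl⟩
  refine ⟨3, Subtype.ext ?_⟩
  obtain ⟨a, b, rfl⟩ := C_pt_form hp.2.1
  simp only [SubgroupClass.coe_pow, OneMemClass.coe_one]
  rw [show (2 : ℕ) ^ 3 = 8 from rfl, ← E.f_pow hp.1, S32_exp a b hp, E.f_one]

theorem S32_comm {x : G} (hx : x ∈ E.S32) : Commute x (E.f pt) := by
  obtain ⟨p, hp, rfl⟩ := hx
  exact E.f_comm hp.1 InK_basic.2.2.1.2 hp.2.1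

theorem S32_self_norm [Finite G] {g : G} (hg : Commute g (E.f pt))
    (hn : ∀ x ∈ E.S32, g * x * g⁻¹ ∈ E.S32) : g ∈ E.S32 := by
  obtain ⟨gV, gA, gR, -, -⟩ := S32_gens
  obtain ⟨p, hp, he⟩ := hn _ ⟨pv, gV, rfl⟩
  have hmem : g ∈ E.H := by
    refine E.mem_of_conj_v hg ?_
    rcases E.fusion hg hp he.symm with h | h <;> rw [← he, h]
    · exact Or.inl rfl
    · exact Or.inr rfl
  obtain ⟨q, hq, rfl⟩ := E.exists_f hmem
  have hqt := E.comm_of_f hq InK_basic.2.2.1.2 hg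
  obtain ⟨a, b, rfl⟩ := C_pt_form hqt
  have key : ∀ s, InS32 s → InS32 (glue44 a b * s * (glue44 a b)⁻¹) := by
    intro s hs
    obtain ⟨r, hr, hre⟩ := hn _ ⟨s, hs, rfl⟩
    rw [← E.f_conj hq hs.1] at hre
    rwa [← E.f_inj hr.1 (by rw [map_mul, map_mul, Perm.sign_inv, hq, hs.1]; rfl) hre]
  exact ⟨_, S32_norm a b hq hqt (key _ gV) (key _ gA) (key _ gR), rfl⟩

/-- An odd subgroup normalised by the centraliser of `pt` and contained in it is trivial. -/
theorem odd_trivial [Finite G] (O : Subgroup G) (hO : Odd (Nat.card O))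
    (hOt : ∀ p ∈ O, Commute p (E.f pt))
    (hnorm : ∀ g, Commute g (E.f pt) → ∀ p ∈ O, g * p * g⁻¹ ∈ O) : ∀ p ∈ O, p = 1 := by
  have sT := InK_basic.2.2.1.2
  have hodd : ∀ p ∈ O, Odd (orderOf p) := fun p hp => hO.of_dvd_nat (by
    have := orderOf_dvd_natCard (⟨p, hp⟩ : O)
    rwa [Subgroup.orderOf_mk] at this)
  -- the intersection with the image is trivial
  have hH : ∀ p ∈ O, p ∈ E.H → p = 1 := by
    have h3 : ∀ p ∈ O, ∀ q, Perm.sign q = 1 → E.f q = p → q * pt = pt * q ∧ q ^ 3 = 1 := by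
      intro p hp q hq hqe
      have hqt := E.comm_of_f hq sT (hqe ▸ hOt p hp)
      refine ⟨hqt, ?_⟩
      obtain ⟨a, b, rfl⟩ := C_pt_form hqt
      have h24 := C_pt_orders a b
      have h1 : orderOf p ∣ 24 := orderOf_dvd_of_pow_eq_one (by
        rw [← hqe, ← E.f_pow hq, h24, E.f_one])
      have h2 : orderOf p ∣ 3 := by
        have hc : Nat.Coprime (orderOf p) 8 := by
          rw [show 8 = 2 ^ 3 from rfl]
          exact Nat.Coprime.pow_right 3 (hodd p hp).coprime_two_right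
        exact hc.dvd_of_dvd_mul_left (show orderOf p ∣ 8 * 3 from h1)
      apply E.f_inj (by rw [map_pow, hq, one_pow]) (map_one _)
      rw [E.f_pow hq, hqe, E.f_one]
      exact orderOf_dvd_iff_pow_eq_one.1 h2
    intro p hp hpH
    obtain ⟨q, hq, hqe⟩ := E.exists_f hpH
    obtain ⟨hqt, hq3⟩ := h3 p hp q hq hqe
    have hxt := X_facts.1
    have hc : E.f (x7 * q * x7⁻¹ * q⁻¹) = E.f x7 * p * (E.f x7)⁻¹ * p⁻¹ := by
      rw [E.f_mul (by rw [map_mul, map_mul, Perm.sign_inv, hxt.1, hq]; rfl) (by rw [Perm.sign_inv, hq]),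
        E.f_conj hxt.1 hq, E.f_inv hq, hqe]
    have hm : E.f (x7 * q * x7⁻¹ * q⁻¹) ∈ O := by
      rw [hc]
      exact mul_mem (hnorm _ (E.f_comm hxt.1 sT hxt.2.1) p hp) (inv_mem hp)
    have h := (h3 _ hm _ (by rw [map_mul, map_mul, map_mul, Perm.sign_inv, Perm.sign_inv, hxt.1, hq]; rfl) rfl).2
    obtain ⟨a, b, rfl⟩ := C_pt_form hqt
    by_contra hp1
    exact odd_C_pt a b hqt hq3 (fun h1 => hp1 (by rw [← hqe, h1, E.f_one])) h
  -- `pv` inverts `O`
  have sV := InK_basic.2.2.2.1.2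
  have hvt : Commute (E.f pv) (E.f pt) := E.f_comm sV sT (by decide +kernel)
  have hv2 : E.f pv * E.f pv = 1 := E.f_sq sV (by decide +kernel)
  let φ : O →* O :=
    { toFun := fun p => ⟨E.f pv * p * (E.f pv)⁻¹, hnorm _ hvt p p.2⟩
      map_one' := Subtype.ext (by simp)
      map_mul' := fun p q => Subtype.ext (by simp [mul_assoc]) }
  have hfix : MonoidHom.FixedPointFree φ := by
    intro p hp
    have hc : Commute (p : G) (E.f pv) :=
      ((mul_inv_eq_iff_eq_mul.1 (congrArg Subtype.val hp)).symm)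
    exact Subtype.ext (hH p p.2 (E.mem_of_comm_V (hOt p p.2) hc))
  have hinv : Function.Involutive φ := fun p => Subtype.ext (by
    show E.f pv * (E.f pv * p * (E.f pv)⁻¹) * (E.f pv)⁻¹ = p
    rw [inv_eq_of_mul_eq_one_right hv2]
    calc E.f pv * (E.f pv * p * E.f pv) * E.f pv = E.f pv * E.f pv * p * (E.f pv * E.f pv) := by group
      _ = p := by rw [hv2]; group)
  have hab : ∀ p ∈ O, ∀ q ∈ O, Commute p q := fun p hp q hq =>
    congrArg Subtype.val (hfix.commute_all_of_involutive hinv ⟨p, hp⟩ ⟨q, hq⟩).eq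
  have h2 : ∀ p ∈ O, p * p = 1 → p = 1 := fun p hp h => orderOf_eq_one_iff.1 (Nat.dvd_one.1 (by
    have h1 := Nat.dvd_gcd (dvd_refl (orderOf p)) (orderOf_dvd_of_pow_eq_one (x := p) (n := 2) (by rw [sq, h]))
    rwa [(hodd p hp).coprime_two_right] at h1))
  -- the second four-group
  obtain ⟨i7, i8, i9, h789, h78, h77, h88, e7, e8, h97, sTV⟩ := X_facts
  have hcen : ∀ p, Commute p (E.f x7) → Commute p (E.f x8) → p ∈ E.H := by
    intro p h1 h2'
    have hs : Perm.sign sig = 1 := cv_sign.1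
    set s := E.f sig
    have hss : s * s = 1 := E.f_sq hs sig_sq
    have e7' : E.f x7 = s * E.f pt * s⁻¹ := by
      rw [← E.f_conj hs sT, sig_inv, ← e7]
    have e8' : E.f x8 = s * E.f (pt * pv) * s⁻¹ := by
      rw [← E.f_conj hs sTV, sig_inv, ← e8]
    have k1 : Commute (s⁻¹ * p * s) (E.f pt) := by
      show _ * _ = _ * _
      calc s⁻¹ * p * s * E.f pt = s⁻¹ * (p * (s * E.f pt * s⁻¹)) * s := by group
        _ = s⁻¹ * ((s * E.f pt * s⁻¹) * p) * s := by rw [← e7', h1.eq]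
        _ = _ := by group
    have k2 : Commute (s⁻¹ * p * s) (E.f (pt * pv)) := by
      show _ * _ = _ * _
      calc s⁻¹ * p * s * E.f (pt * pv) = s⁻¹ * (p * (s * E.f (pt * pv) * s⁻¹)) * s := by group
        _ = s⁻¹ * ((s * E.f (pt * pv) * s⁻¹) * p) * s := by rw [← e8', h2'.eq]
        _ = _ := by group
    have k3 : Commute (s⁻¹ * p * s) (E.f pv) := by
      have := k1.inv_right.mul_right k2
      rwa [E.f_mul sT sV, inv_mul_cancel_left] at this
    have := mul_mem (mul_mem (E.f_mem sig) (E.mem_of_comm_V k1 k3)) (inv_mem (E.f_mem sig))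
    rwa [show s * (s⁻¹ * p * s) * s⁻¹ = p by group] at this
  set a := E.f x7
  set b := E.f x8
  set c := E.f x9
  have hct : ∀ {x : P8}, InS32 x → Commute (E.f x) (E.f pt) := fun hx => E.f_comm hx.1 sT hx.2.1
  have habc : a * b = c := by rw [← E.f_mul i7.1 i8.1, h789]
  have ha2 : a * a = 1 := E.f_sq i7.1 h77
  have hb2 : b * b = 1 := E.f_sq i8.1 h88
  have hcomab : Commute a b := E.f_comm i7.1 i8.1 h78
  have hc2 : c * c = 1 := by
    rw [← habc, hcomab.symm.mul_mul_mul_comm, ha2, hb2, one_mul]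
  have hcomac : Commute a c := habc ▸ (Commute.refl a).mul_right hcomab
  -- inversion on fixed points
  have inv_lemma : ∀ x y : G, Commute x (E.f pt) → Commute y (E.f pt) → y * y = 1 → Commute x y →
      (∀ p, Commute p x → Commute p y → p ∈ E.H) →
      ∀ p ∈ O, Commute p x → y * p * y⁻¹ = p⁻¹ := by
    intro x y hxt hyt hy2 hxy hcen' p hp hpx
    set q := p * (y * p * y⁻¹)
    have hq : q ∈ O := mul_mem hp (hnorm y hyt p hp)
    have hqx : Commute q x := hpx.mul_left ((hxy.symm.mul_left hpx).mul_left hxy.symm.inv_left)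
    have hqy : Commute q y := by
      refine (mul_inv_eq_iff_eq_mul.1 ?_).symm
      calc y * q * y⁻¹ = (y * p * y⁻¹) * ((y * y) * p * (y * y)⁻¹) := by simp only [q]; group
        _ = (y * p * y⁻¹) * p := by rw [hy2]; group
        _ = q := (hab _ (hnorm y hyt p hp) _ hp).eq
    exact eq_inv_of_mul_eq_one_right (hH q hq (hcen' q hqx hqy))
  -- no fixed points of `a`
  set z := E.f pC
  have sC : Perm.sign pC = 1 := InK_basic.1.2
  have hzt : Commute z (E.f pt) := E.f_comm sC sT (by decide +kernel)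
  have hza : z * a * z⁻¹ = b := (E.f_conj sC i7.1).symm
  have hzb : z * b * z⁻¹ = c := (E.f_conj sC i8.1).symm
  have hz3 : z ^ 3 = 1 := by
    rw [← E.f_pow sC, show pC ^ 3 = (1 : P8) by decide +kernel, E.f_one]
  have hzH : ∀ p, Commute p z → p ∈ E.H := fun p hp => E.ctrl_z p (by rwa [Sys.z, ← E.f_ι InK_basic.1])
  have noA : ∀ p ∈ O, Commute p a → p = 1 := by
    intro p hp hpa
    set p1 := z * p * z⁻¹
    set p2 := z * p1 * z⁻¹
    have hp1 : p1 ∈ O := hnorm z hzt p hp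
    have hp2 : p2 ∈ O := hnorm z hzt p1 hp1
    have h1b : Commute p1 b := by rw [← hza]; exact (Commute.conj_iff z).2 hpa
    have h2c : Commute p2 c := by rw [← hzb]; exact (Commute.conj_iff z).2 h1b
    have hp3 : z * p2 * z⁻¹ = p := by
      calc z * p2 * z⁻¹ = z ^ 3 * p * (z ^ 3)⁻¹ := by simp only [p1, p2, pow_succ, pow_zero, one_mul]; group
        _ = p := by rw [hz3]; group
    set q := p * p1 * p2
    have hq : q ∈ O := mul_mem (mul_mem hp hp1) hp2
    have hqz : z * q * z⁻¹ = q := by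
      calc z * q * z⁻¹ = p1 * p2 * (z * p2 * z⁻¹) := by simp only [q, p1, p2]; group
        _ = p1 * p2 * p := by rw [hp3]
        _ = q := by rw [← (hab _ hp _ (mul_mem hp1 hp2)).eq, ← mul_assoc]
    have hq1 : q = 1 := hH q hq (hzH q (mul_inv_eq_iff_eq_mul.1 hqz).symm)
    have hA1 : a * p1 * a⁻¹ = p1⁻¹ :=
      inv_lemma b a (hct i8) (hct i7) ha2 hcomab.symm (fun r h1 h2' => hcen r h2' h1) p1 hp1 h1b
    have hA2 : a * p2 * a⁻¹ = p2⁻¹ := by
      refine inv_lemma c a (hct i9) (hct i7) ha2 hcomac.symm (fun r h1 h2' => hcen r h2' ?_) p2 hp2 h2c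
      have := h2'.inv_right.mul_right h1
      rwa [← habc, inv_mul_cancel_left] at this
    have e1 : a * q * a⁻¹ = p * p1⁻¹ * p2⁻¹ := by
      calc a * q * a⁻¹ = (a * p * a⁻¹) * (a * p1 * a⁻¹) * (a * p2 * a⁻¹) := by simp only [q]; group
        _ = _ := by rw [hA1, hA2, hpa.symm.eq, mul_inv_cancel_right]
    rw [hq1, mul_one, mul_inv_cancel] at e1
    refine h2 p hp ?_
    have e2 : p = p2 * p1 := by
      calc p = (p * p1⁻¹ * p2⁻¹) * p2 * p1 := by group
        _ = p2 * p1 := by rw [← e1, one_mul]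
    calc p * p = p * (p1 * p2) := by
          rw [(hab _ hp1 _ hp2).eq, ← e2]
      _ = 1 := by rw [← mul_assoc]; exact hq1
  have noB : ∀ p ∈ O, Commute p b → p = 1 := by
    intro p hp hpb
    have h1 : z⁻¹ * p * z ∈ O := by
      have := hnorm z⁻¹ hzt.inv_left p hp
      rwa [inv_inv] at this
    have h2' : Commute (z⁻¹ * p * z) a := by
      have h := (Commute.conj_iff z⁻¹).2 hpb
      rw [← hza, inv_inv, show z⁻¹ * (z * a * z⁻¹) * z = a by group] at h
      exact h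
    have := noA _ h1 h2'
    calc p = z * (z⁻¹ * p * z) * z⁻¹ := by group
      _ = 1 := by rw [this]; group
  have noC : ∀ p ∈ O, Commute p c → p = 1 := by
    intro p hp hpc
    have h1 : z⁻¹ * p * z ∈ O := by
      have := hnorm z⁻¹ hzt.inv_left p hp
      rwa [inv_inv] at this
    have h2' : Commute (z⁻¹ * p * z) b := by
      have h := (Commute.conj_iff z⁻¹).2 hpc
      rw [← hzb, inv_inv, show z⁻¹ * (z * b * z⁻¹) * z = b by group] at h
      exact h
    have := noB _ h1 h2'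
    calc p = z * (z⁻¹ * p * z) * z⁻¹ := by group
      _ = 1 := by rw [this]; group
  have invX : ∀ x : G, Commute x (E.f pt) → x * x = 1 → (∀ p ∈ O, Commute p x → p = 1) →
      ∀ p ∈ O, x * p * x⁻¹ = p⁻¹ := by
    intro x hxt hx2 hno p hp
    set q := p * (x * p * x⁻¹)
    have hq : q ∈ O := mul_mem hp (hnorm x hxt p hp)
    refine eq_inv_of_mul_eq_one_right (hno q hq ?_)
    refine (mul_inv_eq_iff_eq_mul.1 ?_).symm
    calc x * q * x⁻¹ = (x * p * x⁻¹) * ((x * x) * p * (x * x)⁻¹) := by simp only [q]; group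
      _ = (x * p * x⁻¹) * p := by rw [hx2]; group
      _ = q := (hab _ (hnorm x hxt p hp) _ hp).eq
  intro p hp
  refine noC p hp (mul_inv_eq_iff_eq_mul.1 ?_).symm
  rw [← habc]
  calc a * b * p * (a * b)⁻¹ = a * (b * p * b⁻¹) * a⁻¹ := by group
    _ = p := by
      rw [invX b (hct i8) hb2 noB p hp, invX a (hct i7) ha2 noA _ (inv_mem hp), inv_inv]

theorem ctrl_t [Finite G] : E.Ctrl (E.f pt) := by
  haveI : Fact (Nat.Prime 2) := ⟨Nat.prime_two⟩
  set t := E.f pt with htdef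
  set C := (Subgroup.centralizer {t} : Subgroup G) with hCdef
  have sT := InK_basic.2.2.1.2
  have hCmem : ∀ {x : G}, x ∈ C ↔ Commute x t := fun {x} => Subgroup.mem_centralizer_singleton_iff
  have ht2 : t * t = 1 := E.f_sq sT rep_facts.1
  have ht1 : t ≠ 1 := E.f_ne_one sT rep_facts.2.1
  set tc : C := ⟨t, hCmem.2 (Commute.refl t)⟩ with htc
  set K := Subgroup.zpowers tc with hKdef
  have hKcard : Nat.card K = 2 := by
    rw [hKdef, Nat.card_zpowers, htc, Subgroup.orderOf_mk]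
    exact orderOf_eq_prime (by rw [sq, ht2]) ht1
  haveI : K.Normal := ⟨fun x hx g => by
    have hc : Commute g tc := Subtype.ext (hCmem.1 g.2).eq
    obtain ⟨n, rfl⟩ := Subgroup.mem_zpowers_iff.1 hx
    rw [(hc.zpow_right n).eq, mul_inv_cancel_right]
    exact Subgroup.zpow_mem_zpowers _ _⟩
  have hKmem : ∀ {x : C}, x ∈ K → x = 1 ∨ x = tc := by
    intro x hx
    obtain ⟨n, rfl⟩ := Subgroup.mem_zpowers_iff.1 hx
    have h2 : tc ^ (2 : ℤ) = 1 := by
      rw [zpow_two]; exact Subtype.ext ht2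
    rcases Int.even_or_odd n with ⟨m, rfl⟩ | ⟨m, rfl⟩
    · left; rw [← two_mul, zpow_mul, h2, one_zpow]
    · right; rw [zpow_add, zpow_mul, h2, one_zpow, one_mul, zpow_one]
  -- the Sylow subgroup
  have hle : E.S32 ≤ C := fun x hx => hCmem.2 (E.S32_comm hx)
  let P : Sylow 2 C :=
    { toSubgroup := E.S32.subgroupOf C
      isPGroup' := E.S32_isPGroup.comap_subtype
      is_maximal' := fun {Q} hQ hle' => eq_of_self_normalizing hQ hle' fun g _ hn =>
        Subgroup.mem_subgroupOf.2 (E.S32_self_norm (hCmem.1 g.2) fun x hx =>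
          Subgroup.mem_subgroupOf.1 (hn ⟨x, hle hx⟩ (Subgroup.mem_subgroupOf.2 hx))) }
  have hπ : Function.Surjective (QuotientGroup.mk' K) := QuotientGroup.mk'_surjective K
  let P' := P.mapSurjective hπ
  obtain ⟨gV, -, -, gT, -⟩ := S32_gens
  set vc : C := ⟨E.f pv, hle ⟨pv, gV, rfl⟩⟩ with hvc
  have sV := gV.1
  have hvK : vc ∉ K := fun h => by
    rcases hKmem h with h1 | h1
    · exact E.f_ne_one sV (by decide +kernel) (congrArg Subtype.val h1)
    · exact cv_sign.2.2.2.2.2.1 (E.f_inj sV sT (congrArg Subtype.val h1))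
  have hu : orderOf (QuotientGroup.mk' K vc) = 2 := by
    refine orderOf_eq_prime ?_ fun h => hvK ((QuotientGroup.eq_one_iff vc).1 h)
    rw [sq, ← map_mul, show vc * vc = 1 from Subtype.ext (E.f_sq sV (by decide +kernel)), map_one]
  have huP : QuotientGroup.mk' K vc ∈ P' :=
    Subgroup.mem_map_of_mem _ (Subgroup.mem_subgroupOf.2 ⟨pv, gV, rfl⟩)
  obtain ⟨N, hN, hNodd, hNcomm⟩ := Cfsg.Agent.S0215.result P' _ hu huP (by
    intro g hg
    obtain ⟨g, rfl⟩ := hπ g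
    rw [← map_inv, ← map_mul, ← map_mul] at hg ⊢
    obtain ⟨x, hx, hxe⟩ := hg
    have hk := hKmem (QuotientGroup.eq.1 hxe)
    have hmem : ((g : G) * E.f pv * (g : G)⁻¹) ∈ E.S32 := by
      rcases hk with hk | hk
      · have : x = g * vc * g⁻¹ := inv_mul_eq_one.1 hk
        have e : (x : G) = (g : G) * E.f pv * (g : G)⁻¹ := congrArg Subtype.val this
        exact e ▸ Subgroup.mem_subgroupOf.1 hx
      · have : g * vc * g⁻¹ = x * tc := eq_mul_of_inv_mul_eq hk
        have e : (g : G) * E.f pv * (g : G)⁻¹ = (x : G) * t := congrArg Subtype.val this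
        rw [e]
        exact mul_mem (Subgroup.mem_subgroupOf.1 hx) ⟨pt, gT, rfl⟩
    obtain ⟨p, hp, hpe⟩ := hmem
    apply QuotientGroup.eq.2
    rcases E.fusion (hCmem.1 g.2) hp hpe.symm with h | h
    · have : g * vc * g⁻¹ = vc := Subtype.ext (by
        show (g : G) * E.f pv * (g : G)⁻¹ = E.f pv
        rw [← hpe, h])
      rw [this, inv_mul_cancel]; exact one_mem _
    · have : g * vc * g⁻¹ = vc * tc := Subtype.ext (by
        show (g : G) * E.f pv * (g : G)⁻¹ = E.f pv * t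
        rw [← hpe, h, cv_sign.2.2.2.1, E.f_mul sV sT])
      rw [this, mul_inv_rev, mul_assoc, inv_mul_cancel, mul_one]
      exact inv_mem (Subgroup.mem_zpowers tc))
  obtain ⟨O, hOn, hOodd, hNO⟩ := exists_odd_lift K hKcard N hNodd
  have hO1 : ∀ p ∈ O.map C.subtype, p = 1 := by
    refine E.odd_trivial _ ?_ ?_ ?_
    · rwa [Subgroup.card_map_of_injective (Subgroup.subtype_injective _)]
    · rintro _ ⟨p, -, rfl⟩
      exact hCmem.1 p.2
    · rintro g hg _ ⟨p, hp, rfl⟩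
      exact ⟨⟨g, hCmem.2 hg⟩ * p * ⟨g, hCmem.2 hg⟩⁻¹, hOn.conj_mem _ hp _, rfl⟩
  intro g hg
  set gc : C := ⟨g, hCmem.2 hg⟩
  obtain ⟨o, ho, hoe⟩ := hNO (hNcomm (QuotientGroup.mk' K gc))
  have ho1 : o = 1 := Subtype.ext (hO1 _ ⟨o, ho, rfl⟩)
  rw [ho1, map_one, ← map_inv, ← map_inv, ← map_mul, ← map_mul, ← map_mul] at hoe
  have hk := hKmem ((QuotientGroup.eq_one_iff _).1 hoe.symm)
  refine E.mem_of_conj_v hg ?_
  have hv2 : E.f pv * E.f pv = 1 := E.f_sq sV (by decide +kernel)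
  have hvi : (E.f pv)⁻¹ = E.f pv := inv_eq_of_mul_eq_one_right hv2
  rcases hk with h | h
  · left
    have h' : E.f pv * g * (E.f pv)⁻¹ * g⁻¹ = 1 := congrArg Subtype.val h
    calc g * E.f pv * g⁻¹ = (E.f pv)⁻¹ * (E.f pv * g * E.f pv * g⁻¹) := by group
      _ = E.f pv := by
        nth_rewrite 3 [← hvi]
        rw [h', mul_one, hvi]
  · right
    have h' : E.f pv * g * (E.f pv)⁻¹ * g⁻¹ = t := congrArg Subtype.val h
    calc g * E.f pv * g⁻¹ = (E.f pv)⁻¹ * (E.f pv * g * E.f pv * g⁻¹) := by group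
      _ = E.f (pt * pv) := by
        nth_rewrite 3 [← hvi]
        rw [h', hvi, htdef, ← E.f_mul sV sT, cv_sign.2.2.2.1]

end Ext

end Sys

end Cfsg.Agent.H17.AltEight
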