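import Mathlib
import Cfsg.Agent.H62.AutAlternating

/-!
Concrete permutations of eight points used in the three-local identification of the alternating
group of degree eight, together with finite computations on small parameter sets.
-/

set_option autoImplicit false

namespace Cfsg.Agent.H17.AltEight

open Equiv

abbrev P8 := Perm (Fin 8)

def pC : P8 := H62.cyc3 0 1 2
def pD : P8 := H62.cyc3 3 4 5
def pt : P8 := swap 3 4 * swap 5 6
def pv : P8 := swap 3 5 * swap 4 6
def a1 : P8 := swap 0 1 * swap 6 7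
def a2 : P8 := swap 3 4 * swap 6 7
def pr : P8 := swap 0 1 * swap 3 4
def sig : P8 := swap 0 3 * swap 1 4 * swap 2 5 * swap 6 7
def x7 : P8 := swap 0 1 * swap 2 7
def x6 : P8 := swap 0 1 * swap 2 6
def pn : P8 := pt * x7
def flip67 : P8 := swap 6 7

/-- Stabiliser of `{0,1,2}` in the alternating group. -/
def InK (p : P8) : Prop := (∀ i : Fin 8, (p i).val < 3 ↔ i.val < 3) ∧ Perm.sign p = 1

instance (p : P8) : Decidable (InK p) := by unfold InK; infer_instance

/-- Stabiliser of `{3,4,5}` in the alternating group. -/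
def InK' (p : P8) : Prop := InK (sig * p * sig)

instance (p : P8) : Decidable (InK' p) := by unfold InK'; infer_instance

theorem sig_sq : sig * sig = 1 := by decide +kernel

theorem InK.mul {p q : P8} (hp : InK p) (hq : InK q) : InK (p * q) :=
  ⟨fun i => (hp.1 (q i)).trans (hq.1 i), by rw [map_mul, hp.2, hq.2, one_mul]⟩

theorem InK.one : InK 1 := by decide +kernel

theorem InK.inv {p : P8} (hp : InK p) : InK p⁻¹ := by
  refine ⟨fun i => ?_, by rw [Perm.sign_inv, hp.2]⟩
  have h := hp.1 (p⁻¹ i)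
  rw [show p (p⁻¹ i) = i from p.apply_symm_apply i] at h
  exact h.symm

theorem InK'.mul {p q : P8} (hp : InK' p) (hq : InK' q) : InK' (p * q) := by
  have h := InK.mul hp hq
  have e : sig * p * sig * (sig * q * sig) = sig * (p * q) * sig := by
    rw [show sig * p * sig * (sig * q * sig) = sig * p * (sig * sig) * q * sig by group, sig_sq]
    group
  rwa [e] at h

theorem InK'.one : InK' 1 := by decide +kernel

theorem InK.pow {p : P8} (hp : InK p) (n : ℕ) : InK (p ^ n) := by
  induction n with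
  | zero => exact InK.one
  | succ k ih => rw [pow_succ]; exact ih.mul hp

theorem InK'.pow {p : P8} (hp : InK' p) (n : ℕ) : InK' (p ^ n) := by
  induction n with
  | zero => exact InK'.one
  | succ k ih => rw [pow_succ]; exact ih.mul hp

def glue35 (a : Perm (Fin 3)) (b : Perm (Fin 5)) : P8 :=
  finSumFinEquiv.permCongr (Perm.sumCongr a b)

theorem inl35_val : ∀ a : Fin 3, ((finSumFinEquiv (m := 3) (n := 5)) (Sum.inl a)).val = a.val := by
  decide +kernel

theorem inl44_val : ∀ a : Fin 4, ((finSumFinEquiv (m := 4) (n := 4)) (Sum.inl a)).val = a.val := by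
  decide +kernel

theorem inr44_val : ∀ a : Fin 4,
    ((finSumFinEquiv (m := 4) (n := 4)) (Sum.inr a)).val = 4 + a.val := by
  decide +kernel

theorem exists_glue35 {p : P8} (hp : ∀ i : Fin 8, (p i).val < 3 ↔ i.val < 3) :
    ∃ a b, p = glue35 a b := by
  have h : (finSumFinEquiv (m := 3) (n := 5)).symm.permCongr p ∈
      (Perm.sumCongrHom (Fin 3) (Fin 5)).range := by
    refine Perm.mem_sumCongrHom_range_of_perm_mapsTo_inl ?_
    rintro _ ⟨a, rfl⟩
    have h1 : (p (finSumFinEquiv (Sum.inl a : Fin 3 ⊕ Fin 5))).val < 3 := (hp _).2 (by exact (inl35_val a).trans_lt a.isLt)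
    refine ⟨⟨_, h1⟩, ?_⟩
    simp only [Equiv.permCongr_apply, Equiv.symm_symm]
    apply (finSumFinEquiv (m := 3) (n := 5)).injective
    rw [Equiv.apply_symm_apply]
    ext
    exact inl35_val _
  obtain ⟨⟨a, b⟩, hab⟩ := h
  refine ⟨a, b, ?_⟩
  change p = finSumFinEquiv.permCongr (Perm.sumCongrHom (Fin 3) (Fin 5) (a, b))
  rw [hab]
  ext i; simp [Equiv.permCongr_apply]

def rho : P8 := swap 3 7 * swap 7 6 * swap 6 5 * swap 5 4

def glue44 (a b : Perm (Fin 4)) : P8 :=
  (finSumFinEquiv.trans rho).permCongr (Perm.sumCongr a b)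

/-- Membership in `{0,1,2,7}`. -/
def Lo (i : Fin 8) : Prop := i.val < 3 ∨ i.val = 7

instance (i : Fin 8) : Decidable (Lo i) := by unfold Lo; infer_instance

theorem rho_lo : ∀ i : Fin 8, Lo (rho i) ↔ i.val < 4 := by decide +kernel

theorem lo_inl : ∀ a : Fin 4, Lo ((finSumFinEquiv.trans rho : Fin 4 ⊕ Fin 4 ≃ Fin 8) (Sum.inl a)) := by
  decide +kernel

theorem not_lo_inr : ∀ a : Fin 4,
    ¬ Lo ((finSumFinEquiv.trans rho : Fin 4 ⊕ Fin 4 ≃ Fin 8) (Sum.inr a)) := by
  decide +kernel

theorem exists_glue44 {p : P8} (hp : ∀ i : Fin 8, Lo (p i) ↔ Lo i) :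
    ∃ a b, p = glue44 a b := by
  set e : Fin 4 ⊕ Fin 4 ≃ Fin 8 := finSumFinEquiv.trans rho with he
  have h : e.symm.permCongr p ∈ (Perm.sumCongrHom (Fin 4) (Fin 4)).range := by
    refine Perm.mem_sumCongrHom_range_of_perm_mapsTo_inl ?_
    rintro _ ⟨a, rfl⟩
    have h1 : Lo (p (e (Sum.inl a))) := (hp _).2 (he ▸ lo_inl a)
    obtain ⟨y, hy⟩ : ∃ y, e y = p (e (Sum.inl a)) := e.surjective _
    rcases y with y | y
    · exact ⟨y, by simp [Equiv.permCongr_apply, ← hy]⟩
    · exact absurd (hy ▸ h1) (he ▸ not_lo_inr y)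
  obtain ⟨⟨a, b⟩, hab⟩ := h
  refine ⟨a, b, ?_⟩
  change p = (finSumFinEquiv.trans rho).permCongr (Perm.sumCongrHom (Fin 4) (Fin 4) (a, b))
  rw [hab, ← he]
  ext i; simp [Equiv.permCongr_apply]

theorem lo_of_comm_pt {p : P8} (h : p * pt = pt * p) : ∀ i : Fin 8, Lo (p i) ↔ Lo i := by
  have hmov : ∀ i : Fin 8, pt i = i ↔ Lo i := by decide +kernel
  intro i
  rw [← hmov, ← hmov]
  have h1 : pt (p i) = p (pt i) := congrArg (fun q : P8 => q i) h.symm
  rw [h1]
  exact p.injective.eq_iff

/-- The fixed-point count separates the two classes of involutions. -/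
def FourPts (p : P8) : Prop := (Finset.univ.filter fun i => p i = i).card = 4

instance (p : P8) : Decidable (FourPts p) := by unfold FourPts; infer_instance

/-! ### Computations in the stabiliser of `{0,1,2}` -/

theorem J_form : ∀ (a : Perm (Fin 3)) (b : Perm (Fin 5)), InK (glue35 a b) → InK' (glue35 a b) →
    ∃ (i j : Fin 3) (k l : Fin 2), glue35 a b = pC ^ i.val * pD ^ j.val * a1 ^ k.val * a2 ^ l.val := by
  decide +kernel

theorem K_comm_V : ∀ (a : Perm (Fin 3)) (b : Perm (Fin 5)), InK (glue35 a b) →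
    glue35 a b * pt = pt * glue35 a b → glue35 a b * pv = pv * glue35 a b →
    ∃ (i : Fin 3) (k l : Fin 2), glue35 a b = pC ^ i.val * pt ^ k.val * pv ^ l.val := by
  decide +kernel

/-- First product in the closure test. -/
def qq (p : P8) : P8 := p * (pC * p * pC⁻¹)

/-- Second product in the closure test. -/
def rq (p : P8) : P8 := qq p * (pC * qq p * pC⁻¹) * qq p

/-- The outcome of the closure test. -/
def Split (p : P8) : Prop :=
  (pC ^ 0 * p * (pC ^ 0)⁻¹ = x7 ∨ pC ^ 1 * p * (pC ^ 1)⁻¹ = x7 ∨ pC ^ 2 * p * (pC ^ 2)⁻¹ = x7 ∨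
    pC ^ 0 * p * (pC ^ 0)⁻¹ = x6 ∨ pC ^ 1 * p * (pC ^ 1)⁻¹ = x6 ∨ pC ^ 2 * p * (pC ^ 2)⁻¹ = x6) ∨
  (qq p ≠ 1 ∧ qq p ^ 3 = 1) ∨ (rq p ≠ 1 ∧ rq p ^ 3 = 1)

instance (p : P8) : Decidable (Split p) := by unfold Split; infer_instance

/-- An involution of the centraliser of `pD` generates with its conjugates under `pC` a group
with elements of order three, unless it lies in one of two four-groups. -/
theorem K'_involution_cases : ∀ (b : Perm (Fin 5)),
    Perm.sign b = 1 → b * b = 1 → b ≠ 1 → Split (sig * glue35 1 b * sig) := by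
  decide +kernel

end Cfsg.Agent.H17.AltEight
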