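import Cfsg.Agent.H17.AltEight.CV
import Cfsg.Agent.H28.Dihedral
import Cfsg.Agent.H24.PGroupBasic
import Cfsg.Agent.S0514

/-!
Two classes of involutions, and the four-group centraliser is not of order twelve.
-/

set_option autoImplicit false
set_option maxHeartbeats 1000000

namespace Cfsg.Agent.H17.AltEight

open Equiv
open scoped commutatorElement

theorem VR_facts : pv * pt = pt * pv ∧ pr * pt = pt * pr ∧ pr * pv * pr⁻¹ = pt * pv ∧
    pr * pr = 1 ∧ pv * pv = 1 ∧ pt * pt = 1 ∧ pr * pC * pr⁻¹ = pC⁻¹ ∧ pr * pv * (pr * pv) = pt := by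
  decide +kernel

theorem pr_conj_a1 : ∃ a : Perm (Fin 3), ∃ b : Perm (Fin 5),
    InK (glue35 a b) ∧ glue35 a b * a1 * (glue35 a b)⁻¹ = pr := by
  decide +kernel

theorem rt_conj_a1 : ∃ a : Perm (Fin 3), ∃ b : Perm (Fin 5),
    InK (glue35 a b) ∧ glue35 a b * a1 * (glue35 a b)⁻¹ = pr * pt := by
  decide +kernel

theorem v_conj_t : ∃ a : Perm (Fin 3), ∃ b : Perm (Fin 5),
    InK (glue35 a b) ∧ glue35 a b * pt * (glue35 a b)⁻¹ = pv := by
  decide +kernel

theorem vt_conj_t : ∃ a : Perm (Fin 3), ∃ b : Perm (Fin 5),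
    InK (glue35 a b) ∧ glue35 a b * pt * (glue35 a b)⁻¹ = pt * pv := by
  decide +kernel

theorem a2_conj_t : ∃ a : Perm (Fin 3), ∃ b : Perm (Fin 5),
    InK (glue35 a b) ∧ glue35 a b * pt * (glue35 a b)⁻¹ = a2 := by
  decide +kernel

/-- The dihedral group generated by `pv` and `pr`. -/
theorem D8_form : ∀ k l m k' l' m' : Fin 2, ∃ a b c : Fin 2,
    pt ^ k.val * pv ^ l.val * pr ^ m.val * (pt ^ k'.val * pv ^ l'.val * pr ^ m'.val) =
      pt ^ a.val * pv ^ b.val * pr ^ c.val := by
  decide +kernel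

theorem D8_invol : ∀ k l m : Fin 2,
    let p := pt ^ k.val * pv ^ l.val * pr ^ m.val
    p * p = 1 → p ≠ 1 →
    p = pt ∨ p = pv ∨ p = pt * pv ∨ p = pr ∨ p = pr * pt := by
  decide +kernel

theorem twoEl_V : ∀ (i : Fin 3) (k l : Fin 2),
    (pC ^ i.val * pt ^ k.val * pv ^ l.val) ^ 6 = 1 ∧
    ((pC ^ i.val * pt ^ k.val * pv ^ l.val) ^ 2 = 1 → i = 0) := by
  decide +kernel

theorem K_comm_C_pt_odd : ∀ (a : Perm (Fin 3)) (b : Perm (Fin 5)), InK (glue35 a b) →
    glue35 a b * pC = pC * glue35 a b → glue35 a b * pt = pt * glue35 a b →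
    glue35 a b ^ 6 = 1 ∧ (glue35 a b ^ 3 = 1 → ∃ i : Fin 3, glue35 a b = pC ^ i.val) := by
  decide +kernel

namespace Sys

variable {G : Type*} [Group G] (S : Sys G)

theorem isConj_ι {p q : P8} (h : ∃ a : Perm (Fin 3), ∃ b : Perm (Fin 5),
    InK (glue35 a b) ∧ glue35 a b * p * (glue35 a b)⁻¹ = q) (hp : InK p) :
    IsConj (S.ι p) (S.ι q) := by
  obtain ⟨a, b, hg, rfl⟩ := h
  exact isConj_iff.2 ⟨S.ι (glue35 a b), (S.ι_conj hg hp).symm⟩

theorem conj_pr : IsConj (S.ι pt) (S.ι pr) :=
  ((S.isConj_ι a2_conj_t InK_basic.2.2.1).trans S.conj_a).trans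
    (S.isConj_ι pr_conj_a1 InK_basic.2.2.2.2.1)

theorem conj_prt : IsConj (S.ι pt) (S.ι (pr * pt)) :=
  ((S.isConj_ι a2_conj_t InK_basic.2.2.1).trans S.conj_a).trans
    (S.isConj_ι rt_conj_a1 InK_basic.2.2.2.2.1)

theorem conj_D8_invol {k l m : Fin 2}
    (hsq : S.ι (pt ^ k.val * pv ^ l.val * pr ^ m.val) * S.ι (pt ^ k.val * pv ^ l.val * pr ^ m.val) = 1)
    (hne : S.ι (pt ^ k.val * pv ^ l.val * pr ^ m.val) ≠ 1) :
    IsConj (S.ι pt) (S.ι (pt ^ k.val * pv ^ l.val * pr ^ m.val)) := by
  have hp : InK (pt ^ k.val * pv ^ l.val * pr ^ m.val) :=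
    ((InK_basic.2.2.1.pow _).mul (InK_basic.2.2.2.1.pow _)).mul (InK_basic.2.2.2.2.2.2.pow _)
  rcases D8_invol k l m (S.ι_inj (hp.mul hp) InK.one (by rw [S.ι_mul hp hp, hsq, S.ι_one]))
    (fun h => hne (by rw [h, S.ι_one])) with h | h | h | h | h <;> rw [h]
  · exact S.isConj_ι v_conj_t InK_basic.2.2.1
  · exact S.isConj_ι vt_conj_t InK_basic.2.2.1
  · exact S.conj_pr
  · exact S.conj_prt

/-- The diagonal element commutes with an involution. -/
theorem exists_diag_invol [Finite G] :
    ∃ u : G, u * u = 1 ∧ u ≠ 1 ∧ Commute u (S.z * S.w) := by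
  haveI : Fact (Nat.Prime 2) := ⟨Nat.prime_two⟩
  obtain ⟨⟨u, hu⟩, ho⟩ := exists_prime_orderOf_dvd_card' (G := (Subgroup.centralizer {S.z * S.w} : Subgroup G)) 2
    (by rw [S.cardY]; norm_num)
  rw [Subgroup.orderOf_mk] at ho
  exact ⟨u, H28.mul_self_of_orderOf_two ho, H28.ne_one_of_orderOf_two ho,
    Subgroup.mem_centralizer_singleton_iff.1 hu⟩

/-- Involutions centralising a diagonal element are not conjugate to `pt`. -/
theorem not_conj_t [Finite G] {u : G} (hu : Commute u (S.z * S.w)) : ¬ IsConj (S.ι pt) u := by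
  intro hc
  obtain ⟨h, rfl⟩ := isConj_iff.1 hc
  haveI : Fact (Nat.Prime 3) := ⟨Nat.prime_three⟩
  set C := (Subgroup.centralizer {S.ι pt} : Subgroup G) with hC
  set y := h⁻¹ * (S.z * S.w) * h with hy
  have hyC : y ∈ C := by
    rw [hC, Subgroup.mem_centralizer_singleton_iff, hy]
    calc h⁻¹ * (S.z * S.w) * h * S.ι pt
        = h⁻¹ * ((S.z * S.w) * (h * S.ι pt * h⁻¹)) * h := by group
      _ = h⁻¹ * ((h * S.ι pt * h⁻¹) * (S.z * S.w)) * h := by rw [hu.eq]
      _ = _ := by group
  have hzC : S.z ∈ C := Subgroup.mem_centralizer_singleton_iff.2 (S.mem_CV.1 S.z_mem_CV).1.eq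
  have hzw3 : (S.z * S.w) ^ 3 = 1 := by rw [S.comm_zw.mul_pow, S.z_pow3, S.w_pow3, one_mul]
  have hzw1 : S.z * S.w ≠ 1 := by
    rw [← S.ι_mul InK_basic.1 InK_basic.2.1, ← S.ι_one]
    exact fun h => absurd (S.ι_inj (InK_basic.1.mul InK_basic.2.1) InK.one h) (by decide +kernel)
  have hy3 : orderOf y = 3 := by
    refine orderOf_eq_prime ?_ ?_
    · rw [hy, show h⁻¹ * (S.z * S.w) * h = h⁻¹ * (S.z * S.w) * h⁻¹⁻¹ by rw [inv_inv], conj_pow,
        hzw3]
      group
    · intro hy1
      apply hzw1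
      calc S.z * S.w = h * y * h⁻¹ := by rw [hy]; group
        _ = 1 := by rw [hy1]; group
  have hsyl : ∀ x : C, orderOf x = 3 → ∃ P : Sylow 3 C, (P : Subgroup C) = Subgroup.zpowers x := by
    intro x hx
    obtain ⟨P, hP⟩ := (IsPGroup.of_card (p := 3) (n := 1) (G := Subgroup.zpowers x)
      (by rw [Nat.card_zpowers, hx]; norm_num)).exists_le_sylow
    refine ⟨P, (Subgroup.eq_of_le_of_card_ge hP ?_).symm⟩
    obtain ⟨n, hn⟩ := IsPGroup.iff_card.1 P.isPGroup'
    rw [Nat.card_zpowers, hx, hn]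
    by_contra hlt
    have h2 : 2 ≤ n := by
      by_contra h2
      have : 3 ^ n ≤ 3 ^ 1 := Nat.pow_le_pow_right (by norm_num) (by omega)
      omega
    exact S.not_nine S.pt_ne S.pt_sq
      ((pow_dvd_pow 3 h2).trans (hn ▸ (P : Subgroup C).card_subgroup_dvd_card))
  obtain ⟨P, hP⟩ := hsyl ⟨S.z, hzC⟩ (by rw [Subgroup.orderOf_mk, S.orderOf_z])
  obtain ⟨Q, hQ⟩ := hsyl ⟨y, hyC⟩ (by rw [Subgroup.orderOf_mk, hy3])
  obtain ⟨c, hc⟩ := MulAction.exists_smul_eq C P Q
  have hmem : c * ⟨S.z, hzC⟩ * c⁻¹ ∈ (Q : Subgroup C) := by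
    rw [← hc]
    exact ⟨⟨S.z, hzC⟩, hP ▸ Subgroup.mem_zpowers _, rfl⟩
  rw [hQ] at hmem
  obtain ⟨k, hk⟩ := Subgroup.mem_zpowers_iff.1 hmem
  have hk' : y ^ k = (c : G) * S.z * (c : G)⁻¹ := congrArg Subtype.val hk
  -- the centraliser of `y` has order eighteen
  have hle : ((Subgroup.centralizer {y} : Subgroup G)) ≤
      Subgroup.centralizer {(c : G) * S.z * (c : G)⁻¹} := by
    intro g hg
    rw [Subgroup.mem_centralizer_singleton_iff] at hg ⊢
    rw [← hk']
    exact ((show Commute g y from hg).zpow_right k).eq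
  have hle' : Subgroup.centralizer {(c : G) * S.z * (c : G)⁻¹} ≤ (Subgroup.centralizer {y} : Subgroup G) := by
    intro g hg
    rw [Subgroup.mem_centralizer_singleton_iff] at hg ⊢
    have hne : ¬ (3 : ℤ) ∣ k := by
      rintro ⟨m, rfl⟩
      apply S.z_ne_one
      have : y ^ (3 * m : ℤ) = 1 := by
        rw [zpow_mul, show y ^ (3 : ℤ) = 1 by
          rw [show (3 : ℤ) = ((3 : ℕ) : ℤ) from rfl, zpow_natCast, ← hy3, pow_orderOf_eq_one], one_zpow]
      rw [this] at hk'
      calc S.z = (c : G)⁻¹ * ((c : G) * S.z * (c : G)⁻¹) * c := by group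
        _ = 1 := by rw [← hk']; group
    obtain ⟨l, hl⟩ : ∃ l : ℤ, (3 : ℤ) ∣ k * l - 1 := by
      rcases (by omega : k % 3 = 1 ∨ k % 3 = 2) with h | h
      · exact ⟨1, by omega⟩
      · exact ⟨2, by omega⟩
    obtain ⟨m, hm⟩ := hl
    have : y = (y ^ k) ^ l := by
      rw [← zpow_mul, show k * l = 3 * m + 1 by omega, zpow_add, zpow_mul, zpow_one,
        show y ^ (3 : ℤ) = 1 by
          rw [show (3 : ℤ) = ((3 : ℕ) : ℤ) from rfl, zpow_natCast, ← hy3, pow_orderOf_eq_one],
        one_zpow, one_mul]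
    rw [this, hk']
    exact ((show Commute g _ from hg).zpow_right l).eq
  have heq := le_antisymm hle hle'
  have h18 : Nat.card (Subgroup.centralizer {y} : Subgroup G) = 18 := by
    rw [← S.cardY]
    refine Nat.card_congr
      { toFun := fun x => ⟨h * x.1 * h⁻¹, ?_⟩
        invFun := fun x => ⟨h⁻¹ * x.1 * h, ?_⟩
        left_inv := fun x => Subtype.ext (by group)
        right_inv := fun x => Subtype.ext (by group) }
    · have hx : (x : G) * (h⁻¹ * (S.z * S.w) * h) = (h⁻¹ * (S.z * S.w) * h) * x :=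
        Subgroup.mem_centralizer_singleton_iff.1 x.2
      rw [Subgroup.mem_centralizer_singleton_iff]
      calc _ = h * ((x : G) * (h⁻¹ * (S.z * S.w) * h)) * h⁻¹ := by group
        _ = _ := by rw [hx]; group
    · have hx := Subgroup.mem_centralizer_singleton_iff.1 x.2
      rw [Subgroup.mem_centralizer_singleton_iff, hy]
      calc _ = h⁻¹ * ((x : G) * (S.z * S.w)) * h := by group
        _ = _ := by rw [hx]; group
  have h5 : 5 ∣ Nat.card (Subgroup.centralizer {(c : G) * S.z * (c : G)⁻¹} : Subgroup G) := by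
    have e : Nat.card (Subgroup.centralizer {(c : G) * S.z * (c : G)⁻¹} : Subgroup G) =
        Nat.card (Subgroup.centralizer {S.z} : Subgroup G) := by
      refine Nat.card_congr
        { toFun := fun x => ⟨(c : G)⁻¹ * x.1 * c, ?_⟩
          invFun := fun x => ⟨(c : G) * x.1 * (c : G)⁻¹, ?_⟩
          left_inv := fun x => Subtype.ext (by group)
          right_inv := fun x => Subtype.ext (by group) }
      · have hx := Subgroup.mem_centralizer_singleton_iff.1 x.2
        rw [Subgroup.mem_centralizer_singleton_iff]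
        calc _ = (c : G)⁻¹ * ((x : G) * ((c : G) * S.z * (c : G)⁻¹)) * c := by group
          _ = _ := by rw [hx]; group
      · have hx := Subgroup.mem_centralizer_singleton_iff.1 x.2
        rw [Subgroup.mem_centralizer_singleton_iff]
        calc _ = (c : G) * ((x : G) * S.z) * (c : G)⁻¹ := by group
          _ = _ := by rw [hx]; group
    rw [e]; exact S.card_cent_z
  rw [← heq, h18] at h5
  norm_num at h5

/-- The centraliser of the four-group has more than twelve elements. -/
theorem not_single [Finite G]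
    (hs : ∀ g ∈ S.CV, ∃ (i : Fin 3) (k l : Fin 2), g = S.ι (pC ^ i.val * pt ^ k.val * pv ^ l.val)) :
    False := by
  haveI : Fact (Nat.Prime 2) := ⟨Nat.prime_two⟩
  set t := S.ι pt with htdef
  set v := S.ι pv with hvdef
  set r := S.ι pr with hrdef
  have iV : InK pv := InK_basic.2.2.2.1
  have iT : InK pt := InK_basic.2.2.1
  have iR : InK pr := InK_basic.2.2.2.2.2.2
  have hvt : Commute v t := S.ι_comm iV iT VR_facts.1
  have hrt : Commute r t := S.ι_comm iR iT VR_facts.2.1
  have hrv : r * v * r⁻¹ = t * v := by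
    rw [hrdef, hvdef, htdef, ← S.ι_conj iR iV, VR_facts.2.2.1, S.ι_mul iT iV]
  have hv2 : v * v = 1 := by rw [hvdef, ← S.ι_mul iV iV, VR_facts.2.2.2.2.1, S.ι_one]
  have hr2 : r * r = 1 := by rw [hrdef, ← S.ι_mul iR iR, VR_facts.2.2.2.1, S.ι_one]
  have ht2 : t * t = 1 := S.pt_sq
  have hv1 : v ≠ 1 := fun h => absurd (S.ι_inj iV InK.one (h.trans S.ι_one.symm)) (by decide +kernel)
  have hr1 : r ≠ 1 := fun h => absurd (S.ι_inj iR InK.one (h.trans S.ι_one.symm)) (by decide +kernel)
  set C := (Subgroup.centralizer {t} : Subgroup G) with hC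
  -- the eight-element group
  have hin : ∀ {g : G}, g ∈ Subgroup.closure {t, v, r} →
      ∃ k l m : Fin 2, g = S.ι (pt ^ k.val * pv ^ l.val * pr ^ m.val) := by
    intro g hg
    induction hg using Subgroup.closure_induction with
    | mem x hx =>
      rcases hx with rfl | rfl | rfl
      · exact ⟨1, 0, 0, by simp [htdef]⟩
      · exact ⟨0, 1, 0, by simp [hvdef]⟩
      · exact ⟨0, 0, 1, by simp [hrdef]⟩
    | one => exact ⟨0, 0, 0, by simp [S.ι_one]⟩
    | mul x y _ _ hx hy =>
      obtain ⟨k, l, m, rfl⟩ := hx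
      obtain ⟨k', l', m', rfl⟩ := hy
      obtain ⟨a, b, c, h⟩ := D8_form k l m k' l' m'
      exact ⟨a, b, c, by
        rw [← S.ι_mul (((iT.pow _).mul (iV.pow _)).mul (iR.pow _))
          (((iT.pow _).mul (iV.pow _)).mul (iR.pow _)), h]⟩
    | inv x _ hx =>
      obtain ⟨k, l, m, rfl⟩ := hx
      have hd : ∀ k l m : Fin 2, ∃ a b c : Fin 2, (pt ^ k.val * pv ^ l.val * pr ^ m.val)⁻¹ =
          pt ^ a.val * pv ^ b.val * pr ^ c.val := by decide +kernel
      obtain ⟨a, b, c, h⟩ := hd k l m
      exact ⟨a, b, c, by rw [← S.ι_inv (((iT.pow _).mul (iV.pow _)).mul (iR.pow _)), h]⟩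
  set E := Subgroup.closure {t, v, r} with hEdef
  have hEC : E ≤ C := by
    rw [hEdef, Subgroup.closure_le]
    rintro x (rfl | rfl | rfl) <;> rw [SetLike.mem_coe, hC, Subgroup.mem_centralizer_singleton_iff]
    · exact hvt.eq
    · exact hrt.eq
  have hE2 : IsPGroup 2 E := fun ⟨g, hg⟩ => ⟨2, Subtype.ext (by
    obtain ⟨k, l, m, rfl⟩ := hin hg
    have hd : ∀ k l m : Fin 2, (pt ^ k.val * pv ^ l.val * pr ^ m.val) ^ 4 = 1 := by decide +kernel
    simp only [SubgroupClass.coe_pow, OneMemClass.coe_one]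
    rw [show (2 : ℕ) ^ 2 = 4 from rfl, ← S.ι_pow (((iT.pow _).mul (iV.pow _)).mul (iR.pow _)),
      hd, S.ι_one])⟩
  obtain ⟨P, hP⟩ := (hE2.comap_subtype (H := E) (K := C)).exists_le_sylow
  set T := (P : Subgroup C).map C.subtype with hT
  have hT2 : IsPGroup 2 T := P.isPGroup'.map _
  have hTC : T ≤ C := Subgroup.map_subtype_le _
  have hmemT : ∀ x ∈ E, x ∈ T := fun x hx => ⟨⟨x, hEC hx⟩, hP hx, rfl⟩
  have htT : t ∈ T := hmemT _ (Subgroup.subset_closure (by simp))
  have hvT : v ∈ T := hmemT _ (Subgroup.subset_closure (by simp))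
  have hrT : r ∈ T := hmemT _ (Subgroup.subset_closure (by simp))
  have hcomT : ∀ x ∈ T, Commute x t := fun x hx =>
    Subgroup.mem_centralizer_singleton_iff.1 (hC ▸ hTC hx)
  -- elements of `T` commuting with `v`
  have hCTv : ∀ x ∈ T, Commute x v → ∃ k l : Fin 2, x = S.ι (pt ^ k.val * pv ^ l.val) := by
    intro x hx hxv
    obtain ⟨i, k, l, he⟩ := hs x (S.mem_CV.2 ⟨hcomT x hx, hxv⟩)
    obtain ⟨n, hn⟩ := hT2 ⟨x, hx⟩
    have hn' : x ^ 2 ^ n = 1 := congrArg Subtype.val hn
    have hp : InK (pC ^ i.val * pt ^ k.val * pv ^ l.val) :=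
      ((InK_basic.1.pow _).mul (iT.pow _)).mul (iV.pow _)
    rw [he, ← S.ι_pow hp, ← S.ι_one] at hn'
    have h2n := S.ι_inj (hp.pow _) InK.one hn'
    obtain ⟨h6, hi⟩ := twoEl_V i k l
    have hsq : (pC ^ i.val * pt ^ k.val * pv ^ l.val) ^ 2 = 1 := by
      rw [← orderOf_dvd_iff_pow_eq_one]
      have h1 := orderOf_dvd_of_pow_eq_one h6
      obtain ⟨j, -, hj⟩ := (Nat.dvd_prime_pow Nat.prime_two).1 (orderOf_dvd_of_pow_eq_one h2n)
      rw [hj] at h1 ⊢
      have hj2 : j ≤ 1 := by
        by_contra hlt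
        have h4 : 4 ∣ 6 := (pow_dvd_pow 2 (show 2 ≤ j by omega)).trans h1
        norm_num at h4
      exact (pow_dvd_pow 2 hj2).trans (dvd_of_eq (pow_one 2))
    refine ⟨k, l, ?_⟩
    rw [he, hi hsq, Fin.val_zero, pow_zero, one_mul]
  -- `T` is a Sylow subgroup of `G`
  have hTmax : ∀ {Q : Subgroup G}, IsPGroup 2 Q → T ≤ Q → Q = T := by
    intro Q hQ hTQ
    by_contra hne
    have hlt : T.subgroupOf Q < ⊤ := lt_top_iff_ne_top.2 fun h =>
      hne (le_antisymm (Subgroup.subgroupOf_eq_top.1 h) hTQ)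
    haveI : Group.IsNilpotent Q := hQ.isNilpotent
    have hlt2 := Group.normalizerCondition_of_isNilpotent (G := Q) _ hlt
    obtain ⟨⟨g, hgQ⟩, hgN, hgT⟩ := SetLike.exists_of_lt hlt2
    have hconj : ∀ x ∈ T, g * x * g⁻¹ ∈ T := fun x hx =>
      Subgroup.mem_subgroupOf.1 ((Subgroup.mem_normalizer_iff.1 hgN ⟨x, hTQ hx⟩).1
        (Subgroup.mem_subgroupOf.2 hx))
    have hinv : ∀ x ∈ T, g⁻¹ * x * g ∈ T := fun x hx => by
      have := Subgroup.mem_subgroupOf.1 ((Subgroup.mem_normalizer_iff.1 hgN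
        (⟨g, hgQ⟩⁻¹ * ⟨x, hTQ hx⟩ * ⟨g, hgQ⟩)).2 (by
          rw [show (⟨g, hgQ⟩ : Q) * (⟨g, hgQ⟩⁻¹ * ⟨x, hTQ hx⟩ * ⟨g, hgQ⟩) * ⟨g, hgQ⟩⁻¹ = ⟨x, hTQ hx⟩
            by group]
          exact Subgroup.mem_subgroupOf.2 hx))
      exact this
    set u := g * t * g⁻¹ with hu
    have huT : u ∈ T := hconj t htT
    have huc : ∀ x ∈ T, Commute u x := by
      intro x hx
      have h := hcomT _ (hinv x hx)
      show _ * _ = _ * _
      calc u * x = g * (t * (g⁻¹ * x * g)) * g⁻¹ := by rw [hu]; group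
        _ = g * ((g⁻¹ * x * g) * t) * g⁻¹ := by rw [h.eq]
        _ = _ := by rw [hu]; group
    obtain ⟨k, l, hkl⟩ := hCTv u huT (huc v hvT)
    have hcr := huc r hrT
    rw [hkl] at hcr
    have hdec : ∀ k l : Fin 2, pt ^ k.val * pv ^ l.val * pr = pr * (pt ^ k.val * pv ^ l.val) →
        pt ^ k.val * pv ^ l.val = 1 ∨ pt ^ k.val * pv ^ l.val = pt := by decide +kernel
    have hkl' := hdec k l ((S.ι_comm_iff ((iT.pow _).mul (iV.pow _)) iR).1 hcr)
    have hut : u = t := by
      rcases hkl' with h | h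
      · exfalso
        rw [h, S.ι_one, hu, mul_inv_eq_one, mul_eq_left] at hkl
        exact S.pt_ne hkl
      · rw [hkl, h]
    have hgC : g ∈ C := by
      rw [hC, Subgroup.mem_centralizer_singleton_iff]
      calc g * t = g * t * g⁻¹ * g := by group
        _ = t * g := by rw [← hu, hut]
    apply hgT
    rw [Subgroup.mem_subgroupOf]
    set R := Q ⊓ C with hR
    have hRC : R ≤ C := inf_le_right
    have hR2 : IsPGroup 2 (R.subgroupOf C) :=
      (hQ.to_le inf_le_left).comap_subtype
    have hPR : (P : Subgroup C) ≤ R.subgroupOf C := fun x hx =>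
      Subgroup.mem_subgroupOf.2 ⟨hTQ ⟨x, hx, rfl⟩, x.2⟩
    have heq := P.is_maximal' hR2 hPR
    have : (⟨g, hgC⟩ : C) ∈ (P : Subgroup C) := by
      rw [← heq]; exact Subgroup.mem_subgroupOf.2 ⟨hgQ, hgC⟩
    exact ⟨⟨g, hgC⟩, this, rfl⟩
  let TS : Sylow 2 G := { toSubgroup := T, isPGroup' := hT2, is_maximal' := hTmax }
  -- the involution of the second class inside `T`
  obtain ⟨u₀, hu₀2, hu₀1, hu₀c⟩ := S.exists_diag_invol
  obtain ⟨u, huT, hu2, hu1, hunc⟩ : ∃ u ∈ T, u * u = 1 ∧ u ≠ 1 ∧ ¬ IsConj t u := by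
    have hzp : IsPGroup 2 (Subgroup.zpowers u₀) := IsPGroup.of_card (n := 1) (by
      rw [Nat.card_zpowers, H28.orderOf_two_of_mul_self hu₀2 hu₀1, pow_one])
    obtain ⟨Q, hQ⟩ := hzp.exists_le_sylow
    obtain ⟨g, hg⟩ := MulAction.exists_smul_eq G TS Q
    obtain ⟨x, hx, hxe⟩ : u₀ ∈ ((g • TS : Sylow 2 G) : Subgroup G) :=
      hg ▸ hQ (Subgroup.mem_zpowers _)
    change g * x * g⁻¹ = u₀ at hxe
    refine ⟨x, hx, ?_, ?_, fun hc => S.not_conj_t hu₀c (hc.trans (isConj_iff.2 ⟨g, hxe⟩))⟩
    · calc x * x = g⁻¹ * (u₀ * u₀) * g := by rw [← hxe]; group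
        _ = 1 := by rw [hu₀2]; group
    · intro h; apply hu₀1; rw [← hxe, h]; group
  -- inside `T`
  haveI : Group.IsNilpotent T := hT2.isNilpotent
  let tT : T := ⟨t, htT⟩
  let vT : T := ⟨v, hvT⟩
  let rT : T := ⟨r, hrT⟩
  let uT : T := ⟨u, huT⟩
  set D := commutator T with hD
  have hcent : ∀ x : T, Commute x vT → (x : G) ∈ Subgroup.closure {t, v} := by
    intro x hx
    obtain ⟨k, l, h⟩ := hCTv x x.2 (congrArg Subtype.val hx.eq)
    rw [h, S.ι_mul (iT.pow _) (iV.pow _), S.ι_pow iT, S.ι_pow iV]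
    exact mul_mem (pow_mem (Subgroup.subset_closure (by simp [htdef])) _)
      (pow_mem (Subgroup.subset_closure (by simp [hvdef])) _)
  have hcard4 : Nat.card (Subgroup.centralizer {vT} : Subgroup T) ≤ 4 := by
    have : ∀ x : (Subgroup.centralizer {vT} : Subgroup T),
        ∃ kl : Fin 2 × Fin 2, ((x : T) : G) = S.ι (pt ^ kl.1.val * pv ^ kl.2.val) := fun x => by
      obtain ⟨k, l, h⟩ := hCTv _ x.1.2
        (congrArg Subtype.val (Subgroup.mem_centralizer_singleton_iff.1 x.2))
      exact ⟨(k, l), h⟩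
    choose f hf using this
    refine (Nat.card_le_card_of_injective f fun a b hab => ?_).trans (by simp)
    exact Subtype.ext (Subtype.ext ((hf a).trans (hab ▸ (hf b).symm)))
  have hDidx : 4 ≤ D.index := by
    by_contra hlt
    have hidx : D.index = 1 ∨ D.index = 2 := by
      obtain ⟨n, hn⟩ := hT2.index D
      have : n ≤ 1 := by
        by_contra h
        have : 2 ^ 2 ≤ 2 ^ n := Nat.pow_le_pow_right (by norm_num) (by omega)
        omega
      interval_cases n <;> simp_all
    haveI : IsCyclic (T ⧸ D) := by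
      rcases hidx with h | h
      · haveI : Subsingleton (T ⧸ D) := (Nat.card_eq_one_iff_unique.1 (D.index_eq_card ▸ h)).1
        infer_instance
      · exact isCyclic_of_prime_card (p := 2) (D.index_eq_card ▸ h)
    obtain ⟨g, hg⟩ := IsCyclic.exists_generator (α := T ⧸ D)
    obtain ⟨g, rfl⟩ := QuotientGroup.mk'_surjective D g
    have htop : Subgroup.zpowers g = ⊤ := by
      apply frattini_nongenerating
      rw [eq_top_iff]
      intro x _
      obtain ⟨m, hm⟩ := Subgroup.mem_zpowers_iff.1 (hg (QuotientGroup.mk' D x))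
      have : (g ^ m)⁻¹ * x ∈ D := by
        rw [← QuotientGroup.eq]
        simpa using hm
      rw [← mul_inv_cancel_left (g ^ m) x]
      exact mul_mem (Subgroup.mem_sup_left (Subgroup.zpow_mem _ (Subgroup.mem_zpowers g) m))
        (Subgroup.mem_sup_right (H24.commutator_le_frattini hT2 this))
    obtain ⟨a, ha⟩ := Subgroup.mem_zpowers_iff.1 (htop ▸ Subgroup.mem_top rT)
    obtain ⟨b, hb⟩ := Subgroup.mem_zpowers_iff.1 (htop ▸ Subgroup.mem_top vT)
    have hc : r * v = v * r := congrArg Subtype.val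
      (show rT * vT = vT * rT by rw [← ha, ← hb]; exact ((Commute.refl g).zpow_zpow a b).eq)
    have h : t * v = v := by rw [← hrv, hc, mul_inv_cancel_right]
    exact S.pt_ne (mul_eq_right.1 h)
  -- conjugates of `v` fill the coset `v D`
  have hDcoset : ∀ d ∈ D, ∃ g : T, g * vT * g⁻¹ = vT * d := by
    let φ : T ⧸ (Subgroup.centralizer {vT} : Subgroup T) → D := fun x =>
      Quotient.liftOn' x (fun g => ⟨vT⁻¹ * (g * vT * g⁻¹),
        Subgroup.commutator_mem_commutator (Subgroup.mem_top vT⁻¹) (Subgroup.mem_top g) |> fun h => by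
          show _ ∈ commutator T
          rw [commutator_def]
          simpa [commutatorElement_def, mul_assoc] using h⟩) (fun a b hab => by
        rw [QuotientGroup.leftRel_apply, Subgroup.mem_centralizer_singleton_iff] at hab
        refine Subtype.ext ?_
        show vT⁻¹ * (a * vT * a⁻¹) = vT⁻¹ * (b * vT * b⁻¹)
        congr 1
        calc a * vT * a⁻¹ = a * (vT * (a⁻¹ * b)) * b⁻¹ := by group
          _ = a * ((a⁻¹ * b) * vT) * b⁻¹ := by rw [hab]
          _ = _ := by group)
    have hφ : Function.Injective φ := by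
      intro x y
      refine Quotient.inductionOn₂' x y fun a b h => ?_
      apply Quotient.sound'
      rw [QuotientGroup.leftRel_apply, Subgroup.mem_centralizer_singleton_iff]
      have h' : a * vT * a⁻¹ = b * vT * b⁻¹ := mul_left_cancel (congrArg Subtype.val h)
      calc a⁻¹ * b * vT = a⁻¹ * (b * vT * b⁻¹) * b := by group
        _ = a⁻¹ * (a * vT * a⁻¹) * b := by rw [h']
        _ = _ := by group
    have h1 := Nat.card_le_card_of_injective φ hφ
    have h2 : Nat.card T = Nat.card D * D.index := (D.card_mul_index).symm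
    have h3 : Nat.card T = Nat.card (Subgroup.centralizer {vT} : Subgroup T) *
        Nat.card (T ⧸ (Subgroup.centralizer {vT} : Subgroup T)) := by
      rw [mul_comm]; exact Subgroup.card_eq_card_quotient_mul_card_subgroup _
    have hb : Function.Bijective φ :=
      (Nat.bijective_iff_injective_and_card φ).2 ⟨hφ, le_antisymm h1 (by nlinarith)⟩
    intro d hd
    obtain ⟨x, hx⟩ := hb.2 ⟨d, hd⟩
    induction x using Quotient.inductionOn' with
    | h g =>
      refine ⟨g, ?_⟩
      have : vT⁻¹ * (g * vT * g⁻¹) = d := congrArg Subtype.val hx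
      rw [← this, mul_inv_cancel_left]
  have hDindex : D.index = 4 := by
    obtain ⟨n, hn⟩ := hT2.index D
    refine le_antisymm ?_ hDidx
    let φ : D → T ⧸ (Subgroup.centralizer {vT} : Subgroup T) := fun d =>
      QuotientGroup.mk (hDcoset d d.2).choose
    have hφ : Function.Injective φ := by
      intro a b hab
      have ha := (hDcoset a a.2).choose_spec
      have hb := (hDcoset b b.2).choose_spec
      have h := QuotientGroup.eq.1 hab
      rw [Subgroup.mem_centralizer_singleton_iff] at h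
      generalize (hDcoset a a.2).choose = x at ha h
      generalize (hDcoset b b.2).choose = y at hb h
      refine Subtype.ext (mul_left_cancel (a := vT) ?_)
      rw [← ha, ← hb]
      calc x * vT * x⁻¹ = x * (vT * (x⁻¹ * y)) * y⁻¹ := by group
        _ = x * ((x⁻¹ * y) * vT) * y⁻¹ := by rw [h]
        _ = _ := by group
    have h1 := Nat.card_le_card_of_injective φ hφ
    have h2 : Nat.card T = Nat.card D * D.index := (D.card_mul_index).symm
    have h3 : Nat.card T = Nat.card (Subgroup.centralizer {vT} : Subgroup T) *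
        Nat.card (T ⧸ (Subgroup.centralizer {vT} : Subgroup T)) := by
      rw [mul_comm]; exact Subgroup.card_eq_card_quotient_mul_card_subgroup _
    have hpos : 0 < Nat.card (T ⧸ (Subgroup.centralizer {vT} : Subgroup T)) := Nat.card_pos
    have hpos' : 0 < Nat.card D := Nat.card_pos
    have h4 : Nat.card (T ⧸ (Subgroup.centralizer {vT} : Subgroup T)) ≤ Nat.card D := by
      refine Nat.card_le_card_of_surjective (fun d => φ d) fun x => ?_
      induction x using Quotient.inductionOn' with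
      | h g =>
        refine ⟨⟨vT⁻¹ * (g * vT * g⁻¹), by
          show _ ∈ commutator T
          rw [commutator_def]
          simpa [commutatorElement_def, mul_assoc] using
            Subgroup.commutator_mem_commutator (Subgroup.mem_top vT⁻¹) (Subgroup.mem_top g)⟩, ?_⟩
        show QuotientGroup.mk _ = QuotientGroup.mk g
        rw [QuotientGroup.eq, Subgroup.mem_centralizer_singleton_iff]
        set dd : D := ⟨vT⁻¹ * (g * vT * g⁻¹), _⟩ with hdd
        have h := (hDcoset dd dd.2).choose_spec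
        generalize (hDcoset dd dd.2).choose = x at h ⊢
        replace h : x * vT * x⁻¹ = g * vT * g⁻¹ := h.trans (mul_inv_cancel_left _ _)
        calc x⁻¹ * g * vT = x⁻¹ * (g * vT * g⁻¹) * g := by group
          _ = x⁻¹ * (x * vT * x⁻¹) * g := by rw [h]
          _ = _ := by group
    nlinarith
  -- `v` inverts `D`
  have hvD : ∀ d ∈ D, vT * d * vT = d⁻¹ := by
    intro d hd
    obtain ⟨g, hg⟩ := hDcoset d hd
    have h2 : vT * vT = 1 := Subtype.ext hv2
    have h : vT * d * (vT * d) = 1 := by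
      rw [← hg, show g * vT * g⁻¹ * (g * vT * g⁻¹) = g * (vT * vT) * g⁻¹ by group, h2]; group
    rw [eq_inv_iff_mul_eq_one, ← h]
    group
  have hvnotD : vT ∉ D := by
    intro hvd
    have hinv := hvD
    have hDab : ∀ d ∈ D, Commute d vT := by
      intro d hd
      have e := hvD (vT * d) (mul_mem hvd hd)
      have e' := hvD d hd
      have hvv : vT * vT = 1 := Subtype.ext hv2
      have h1 : d * vT = (vT * d)⁻¹ := by
        rw [← e, ← mul_assoc vT vT d, hvv, one_mul]
      rw [mul_inv_rev, inv_eq_of_mul_eq_one_right hvv, ← e', mul_assoc, mul_assoc, hvv, mul_one] at h1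
      show _ = _
      exact h1
    obtain ⟨g, hg⟩ := hDcoset tT (by
      have hd : ⁅rT, vT⁆ ∈ D := Subgroup.commutator_mem_commutator (Subgroup.mem_top _) (Subgroup.mem_top _)
      have he : ⁅rT, vT⁆ = tT := Subtype.ext (by
        show r * v * r⁻¹ * v⁻¹ = t
        rw [hrv, mul_inv_cancel_right])
      exact he ▸ hd)
    -- `D` lies in the centraliser of `v`
    have hle : D ≤ (Subgroup.centralizer {vT} : Subgroup T) := fun d hd =>
      Subgroup.mem_centralizer_singleton_iff.2 (hDab d hd).eq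
    have hc1 := Subgroup.card_dvd_of_le hle
    have hlt : D ≠ (Subgroup.centralizer {vT} : Subgroup T) := by
      intro he
      have hclass : ∀ d ∈ D, ((vT * d : T) : G) = v ∨ ((vT * d : T) : G) = t * v := by
        intro d hd
        obtain ⟨g, hg⟩ := hDcoset d hd
        have hin' : ((vT * d : T) : G) ∈ Subgroup.closure {t, v} :=
          hcent _ ((Commute.refl vT).mul_left (hDab d hd))
        obtain ⟨k, l, hkl⟩ := hCTv _ (vT * d).2
          (congrArg Subtype.val ((Commute.refl vT).mul_left (hDab d hd)).eq)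
        have hmv : ((vT * d : T) : G) = (g : G) * v * (g : G)⁻¹ :=
          (congrArg Subtype.val hg).symm
        have hne1 : ((vT * d : T) : G) ≠ 1 := by
          rw [hmv]; intro h; apply hv1
          calc v = (g : G)⁻¹ * ((g : G) * v * (g : G)⁻¹) * g := by group
            _ = 1 := by rw [h]; group
        have hnt : ((vT * d : T) : G) ≠ t := by
          rw [hmv]; intro h
          have : v = t := by
            calc v = (g : G)⁻¹ * ((g : G) * v * (g : G)⁻¹) * g := by group
              _ = (g : G)⁻¹ * t * g := by rw [h]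
              _ = t := by rw [mul_assoc, (hcomT g g.2).eq.symm]; group
          exact absurd (S.ι_inj iV iT this) (by decide +kernel)
        rw [hkl] at hne1 hnt ⊢
        fin_cases k <;> fin_cases l
        · exact absurd (by simp [S.ι_one]) hne1
        · exact Or.inl (by simp [hvdef])
        · exact absurd (by simp [htdef]) hnt
        · exact Or.inr (by simp [htdef, hvdef, S.ι_mul iT iV])
      -- so at most two elements
      have hD2 : Nat.card D ≤ 2 := by
        classical
        let f : D → Fin 2 := fun d => if ((vT * (d : T) : T) : G) = v then 0 else 1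
        refine (Nat.card_le_card_of_injective f fun a b hab => ?_).trans (by simp)
        refine Subtype.ext (mul_left_cancel (a := vT) (Subtype.ext ?_))
        rcases hclass a a.2 with ha | ha <;> rcases hclass b b.2 with hb | hb
        · rw [ha, hb]
        · have hne : t * v ≠ v := fun h => S.pt_ne (mul_eq_right.1 h)
          simp only [f, Subgroup.coe_mul] at hab ha hb
          first
            | (rw [if_pos ha, if_neg (fun h => hne (hb.symm.trans h))] at hab; simp at hab)
            | (rw [if_neg (fun h => hne (ha.symm.trans h)), if_pos hb] at hab; simp at hab)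
        · have hne : t * v ≠ v := fun h => S.pt_ne (mul_eq_right.1 h)
          simp only [f, Subgroup.coe_mul] at hab ha hb
          first
            | (rw [if_pos ha, if_neg (fun h => hne (hb.symm.trans h))] at hab; simp at hab)
            | (rw [if_neg (fun h => hne (ha.symm.trans h)), if_pos hb] at hab; simp at hab)
        · rw [ha, hb]
      have hC3 : 3 ≤ Nat.card (Subgroup.centralizer {vT} : Subgroup T) := by
        let a : Fin 3 → (Subgroup.centralizer {vT} : Subgroup T) :=
          ![1, ⟨vT, Subgroup.mem_centralizer_singleton_iff.2 rfl⟩,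
            ⟨tT, Subgroup.mem_centralizer_singleton_iff.2 (Subtype.ext hvt.symm.eq)⟩]
        refine le_trans (by simp) (Nat.card_le_card_of_injective a fun x y hxy => ?_)
        have htv : t ≠ v := fun h => absurd (S.ι_inj iT iV h) (by decide +kernel)
        have hxy' := congrArg (fun z : (Subgroup.centralizer {vT} : Subgroup T) => ((z : T) : G)) hxy
        fin_cases x <;> fin_cases y <;>
          first | rfl | (exfalso; simp [a, tT, vT] at hxy'
                         first | exact hv1 hxy' | exact hv1 hxy'.symm | exact S.pt_ne hxy' |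
                           exact S.pt_ne hxy'.symm | exact htv hxy' | exact htv hxy'.symm)
      rw [← he] at hC3
      omega
    have hpg : ∃ n, Nat.card (Subgroup.centralizer {vT} : Subgroup T) = 2 ^ n :=
      IsPGroup.iff_card.1 (hT2.to_subgroup _)
    have : Nat.card D ≤ 2 := by
      have hle4 := Nat.le_of_dvd Nat.card_pos hc1
      have : Nat.card D ≠ Nat.card (Subgroup.centralizer {vT} : Subgroup T) := fun h =>
        hlt (Subgroup.eq_of_le_of_card_ge hle h.ge)
      obtain ⟨m, hm⟩ := hc1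
      have hm2 : 2 ≤ m := by
        rcases m with _ | _ | m
        · have h0 := Nat.card_pos (α := (Subgroup.centralizer {vT} : Subgroup T))
          rw [hm] at h0; simp at h0
        · simp [hm] at this
        · omega
      nlinarith
    have h8 : Nat.card T ≤ 8 := by
      rw [← D.card_mul_index, hDindex]; omega
    -- the three elements `1, t, v` in `D`
    have ht : tT ∈ D := by
      have hd : ⁅rT, vT⁆ ∈ D := Subgroup.commutator_mem_commutator (Subgroup.mem_top _) (Subgroup.mem_top _)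
      have he : ⁅rT, vT⁆ = tT := Subtype.ext (by
        show r * v * r⁻¹ * v⁻¹ = t
        rw [hrv, mul_inv_cancel_right])
      exact he ▸ hd
    let a : Fin 3 → D := ![1, ⟨vT, hvd⟩, ⟨tT, ht⟩]
    have := Nat.card_le_card_of_injective a fun x y hxy => by
      have htv : t ≠ v := fun h => absurd (S.ι_inj iT iV h) (by decide +kernel)
      have hxy' := congrArg (fun z : D => ((z : T) : G)) hxy
      fin_cases x <;> fin_cases y <;>
        first | rfl | (exfalso; simp [a, tT, vT] at hxy'
                       first | exact hv1 hxy' | exact hv1 hxy'.symm | exact S.pt_ne hxy' |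
                         exact S.pt_ne hxy'.symm | exact htv hxy' | exact htv hxy'.symm)
    simp at this
    omega
  have hDinvol : ∀ d ∈ D, d * d = 1 → (d : G) = 1 ∨ (d : G) = t := by
    intro d hd hd2
    have hc : Commute d vT := by
      have h := hvD d hd
      rw [inv_eq_of_mul_eq_one_right hd2] at h
      have hvv : vT * vT = 1 := Subtype.ext hv2
      show _ = _
      calc d * vT = vT * d * vT * vT := by rw [h]
        _ = _ := by rw [mul_assoc _ vT vT, hvv, mul_one]
    obtain ⟨k, l, hkl⟩ := hCTv _ d.2 (congrArg Subtype.val hc.eq)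
    fin_cases k <;> fin_cases l
    · exact Or.inl (by simpa [S.ι_one] using hkl)
    · exfalso; apply hvnotD
      have : d = vT := Subtype.ext (by show (d : G) = v; rw [hkl]; simp [hvdef])
      exact this ▸ hd
    · exact Or.inr (by simpa [htdef] using hkl)
    · exfalso; apply hvnotD
      have htD : tT ∈ D := by
        have hd' : ⁅rT, vT⁆ ∈ D := Subgroup.commutator_mem_commutator (Subgroup.mem_top _) (Subgroup.mem_top _)
        have he : ⁅rT, vT⁆ = tT := Subtype.ext (by
          show r * v * r⁻¹ * v⁻¹ = t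
          rw [hrv, mul_inv_cancel_right])
        exact he ▸ hd'
      have : d = tT * vT := Subtype.ext (by
        show (d : G) = t * v
        simpa [htdef, hvdef, S.ι_mul iT iV] using hkl)
      have h := mul_mem (inv_mem htD) (this ▸ hd)
      rwa [inv_mul_cancel_left] at h
  have hvclass : ∀ x : T, vT * x ∈ D → IsConj t (x : G) := by
    intro x hx
    obtain ⟨g, hg⟩ := hDcoset _ hx
    have hvv : vT * vT = 1 := Subtype.ext hv2
    rw [← mul_assoc, hvv, one_mul] at hg
    exact (S.isConj_ι v_conj_t iT).trans (isConj_iff.2 ⟨(g : G), congrArg Subtype.val hg⟩)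
  have huD : uT ∉ D := by
    intro h
    rcases hDinvol uT h (Subtype.ext hu2) with h1 | h1
    · exact hu1 h1
    · exact hunc (h1 ▸ IsConj.refl _)
  have huv : vT * uT ∉ D := fun h => hunc (hvclass uT h)
  -- two involutions whose images are independent modulo `D` generate `T`
  have gen : ∀ a : T, a ∉ D → vT * a ∉ D → Subgroup.closure ({vT, a} : Set T) = ⊤ := by
    intro a ha hva
    apply frattini_nongenerating
    rw [eq_top_iff]
    refine le_trans ?_ (sup_le_sup_left (H24.commutator_le_frattini hT2) _)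
    set L := Subgroup.closure ({vT, a} : Set T) ⊔ D with hL
    by_contra hne
    have hne' : L ≠ ⊤ := fun h => hne h.ge
    have hDL : D ≤ L := le_sup_right
    have hv' : vT ∈ L := Subgroup.mem_sup_left (Subgroup.subset_closure (by simp))
    have ha' : a ∈ L := Subgroup.mem_sup_left (Subgroup.subset_closure (by simp))
    have h2 : D.relIndex L * L.index = 4 := hDindex ▸ Subgroup.relIndex_mul_index hDL
    have hL2 : 2 ≤ L.index := by
      have := Subgroup.index_ne_zero_of_finite (H := L)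
      have : L.index ≠ 1 := fun h => hne' (Subgroup.index_eq_one.1 h)
      omega
    have hrel : D.relIndex L ≤ 2 := by
      by_contra hlt
      have : 3 * 2 ≤ D.relIndex L * L.index := Nat.mul_le_mul (by omega) hL2
      omega
    let f : Fin 3 → L ⧸ D.subgroupOf L :=
      ![QuotientGroup.mk 1, QuotientGroup.mk ⟨vT, hv'⟩, QuotientGroup.mk ⟨a, ha'⟩]
    have hf := Nat.card_le_card_of_injective f fun x y hxy => by
      fin_cases x <;> fin_cases y <;> first | rfl | (exfalso; simp [f, QuotientGroup.eq, Subgroup.mem_subgroupOf] at hxy)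
      all_goals
        try rw [eq_comm, QuotientGroup.eq_one_iff, Subgroup.mem_subgroupOf] at hxy
      all_goals
        first
        | exact hvnotD hxy
        | exact ha hxy
        | (rw [show vT⁻¹ = vT from inv_eq_of_mul_eq_one_right (Subtype.ext hv2)] at hxy
           exact hva hxy)
        | (have h := inv_mem hxy
           rw [mul_inv_rev, inv_inv, show vT⁻¹ = vT from inv_eq_of_mul_eq_one_right (Subtype.ext hv2)] at h
           exact hva h)
    rw [← Subgroup.index_eq_card, ← Subgroup.relIndex, Nat.card_fin] at hf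
    omega
  have hrD : rT ∉ D := by
    intro h
    rcases hDinvol rT h (Subtype.ext hr2) with h1 | h1
    · exact hr1 h1
    · exact absurd (S.ι_inj iR iT h1) (by decide +kernel)
  by_cases hvr : vT * rT ∈ D
  · -- `v` and `r` are conjugate in `T`
    obtain ⟨g, hg⟩ := hDcoset _ hvr
    have hvv : vT * vT = 1 := Subtype.ext hv2
    rw [← mul_assoc, hvv, one_mul] at hg
    have hgv : (g : G) * v * (g : G)⁻¹ = r := congrArg Subtype.val hg
    have huu : u * u = 1 := hu2
    have hvu : v ≠ u := fun h => hunc (h ▸ S.isConj_ι v_conj_t iT)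
    obtain ⟨e⟩ := H28.closure_pair_dihedral hv2 huu hv1 hu1
    have htop := gen uT huD huv
    have hTeq : T = Subgroup.closure ({v, u} : Set G) := by
      refine le_antisymm (fun x hx => ?_) ?_
      · have : (⟨x, hx⟩ : T) ∈ Subgroup.closure ({vT, uT} : Set T) := htop ▸ Subgroup.mem_top _
        have h := Subgroup.mem_map_of_mem T.subtype this
        rwa [MonoidHom.map_closure, Set.image_pair] at h
      · rw [Subgroup.closure_le]; rintro x (rfl | rfl); exacts [hvT, huT]
    have hn2 : 2 ≤ orderOf (v * u) := by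
      have h1 : orderOf (v * u) ≠ 1 := fun h => hvu (by
        rw [orderOf_eq_one_iff, mul_eq_one_iff_eq_inv, inv_eq_of_mul_eq_one_right huu] at h; exact h)
      have := orderOf_pos (v * u)
      omega
    have hto : orderOf t = 2 := H28.orderOf_two_of_mul_self ht2 S.pt_ne
    obtain ⟨N, hNn, hNodd, k, hk⟩ := S0514.result TS (orderOf (v * u)) hn2
      ⟨(MulEquiv.subgroupCongr hTeq).trans e⟩ t hto
    have hodd_mem : ∀ x : C, Odd (orderOf x) → x ∈ N := by
      intro x hx
      rw [← QuotientGroup.eq_one_iff, ← orderOf_eq_one_iff]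
      have h1 : orderOf (QuotientGroup.mk x : C ⧸ N) ∣ orderOf x :=
        orderOf_map_dvd (QuotientGroup.mk' N) x
      have h2 : orderOf (QuotientGroup.mk x : C ⧸ N) ∣ 2 ^ k :=
        hk ▸ N.index_eq_card ▸ orderOf_dvd_natCard _
      exact Nat.dvd_one.1 ((Nat.Coprime.pow_right k hx.coprime_two_right : Nat.Coprime (orderOf x) (2 ^ k))
        ▸ Nat.dvd_gcd h1 h2)
    have hzC : S.z ∈ C := Subgroup.mem_centralizer_singleton_iff.2 (S.mem_CV.1 S.z_mem_CV).1.eq
    set zc : C := ⟨S.z, hzC⟩ with hzc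
    have hzo : orderOf zc = 3 := by rw [hzc, Subgroup.orderOf_mk, S.orderOf_z]
    have hzN : zc ∈ N := hodd_mem zc (by rw [hzo]; decide)
    set gc : C := ⟨g, hTC g.2⟩ with hgc
    set xc : C := gc * zc * gc⁻¹ with hxc
    have hxN : xc ∈ N := hNn.conj_mem _ hzN _
    haveI : Fact (Nat.Prime 3) := ⟨Nat.prime_three⟩
    -- Sylow 3-subgroups of `N`
    have hsyl : ∀ y : N, orderOf y = 3 → ∃ R : Sylow 3 N, (R : Subgroup N) = Subgroup.zpowers y := by
      intro y hy
      obtain ⟨R, hR⟩ := (IsPGroup.of_card (p := 3) (n := 1) (G := Subgroup.zpowers y)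
        (by rw [Nat.card_zpowers, hy]; norm_num)).exists_le_sylow
      refine ⟨R, (Subgroup.eq_of_le_of_card_ge hR ?_).symm⟩
      obtain ⟨n, hn⟩ := IsPGroup.iff_card.1 R.isPGroup'
      rw [Nat.card_zpowers, hy, hn]
      by_contra hlt
      have h2 : 2 ≤ n := by
        by_contra h2
        have : 3 ^ n ≤ 3 ^ 1 := Nat.pow_le_pow_right (by norm_num) (by omega)
        omega
      exact S.not_nine S.pt_ne S.pt_sq (((pow_dvd_pow 3 h2).trans
        (hn ▸ (R : Subgroup N).card_subgroup_dvd_card)).trans N.card_subgroup_dvd_card)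
    have hxo : orderOf xc = 3 := by rw [hxc, H28.orderOf_conj_eq, hzo]
    obtain ⟨R1, hR1⟩ := hsyl ⟨zc, hzN⟩ (by rw [Subgroup.orderOf_mk, hzo])
    obtain ⟨R2, hR2⟩ := hsyl ⟨xc, hxN⟩ (by rw [Subgroup.orderOf_mk, hxo])
    obtain ⟨m, hm⟩ := MulAction.exists_smul_eq N R2 R1
    have hmem : m * ⟨xc, hxN⟩ * m⁻¹ ∈ (R1 : Subgroup N) := by
      rw [← hm]
      exact ⟨⟨xc, hxN⟩, hR2 ▸ Subgroup.mem_zpowers _, rfl⟩
    rw [hR1] at hmem
    obtain ⟨j, hj⟩ := Subgroup.mem_zpowers_iff.1 hmem
    have hj' : S.z ^ j = ((m : C) : G) * ((g : G) * S.z * (g : G)⁻¹) * ((m : C) : G)⁻¹ :=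
      congrArg (fun y : N => ((y : C) : G)) hj
    have hxr : Commute ((g : G) * S.z * (g : G)⁻¹) r := by
      have hzv : Commute S.z v := (S.mem_CV.1 S.z_mem_CV).2
      rw [← hgv]
      exact (Commute.conj_iff _).2 hzv
    set mG := ((m : C) : G) with hmG
    set r' := mG * r * mG⁻¹ with hr'
    have hr'z : Commute r' (S.z ^ j) := by
      rw [hj', hr']
      exact (Commute.conj_iff _).2 hxr.symm
    have hrC : r ∈ C := Subgroup.mem_centralizer_singleton_iff.2 hrt.eq
    set q : C := (m : C) * ⟨r, hrC⟩ * (m : C)⁻¹ * ⟨r, hrC⟩⁻¹ with hq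
    have hqN : q ∈ N := by
      rw [hq, mul_assoc, mul_assoc]
      refine mul_mem m.2 ?_
      rw [← mul_assoc]
      exact hNn.conj_mem _ (inv_mem m.2) _
    have hrz : r * S.z * r⁻¹ = S.z⁻¹ := by
      rw [hrdef, Sys.z, ← S.ι_conj iR InK_basic.1, VR_facts.2.2.2.2.2.2.1, S.ι_inv InK_basic.1]
    have hj3 : ¬ (3 : ℤ) ∣ j := by
      rintro ⟨c, rfl⟩
      apply S.z_ne_one
      have h1 : S.z ^ (3 * c : ℤ) = 1 := by
        rw [zpow_mul, show S.z ^ (3 : ℤ) = 1 by
          rw [show (3 : ℤ) = ((3 : ℕ) : ℤ) from rfl, zpow_natCast, S.z_pow3], one_zpow]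
      rw [h1] at hj'
      calc S.z = (g : G)⁻¹ * mG⁻¹ * (mG * ((g : G) * S.z * (g : G)⁻¹) * mG⁻¹) * mG * g := by group
        _ = 1 := by rw [← hj']; group
    have hqG : (q : G) = r' * r⁻¹ := by rw [hr']; rfl
    have hinvq : (q : G) * S.z ^ j * (q : G)⁻¹ = (S.z ^ j)⁻¹ := by
      rw [hqG]
      have h1 : r⁻¹ * S.z ^ j * r = (S.z ^ j)⁻¹ := by
        rw [show r⁻¹ = r from inv_eq_of_mul_eq_one_right hr2]
        nth_rewrite 2 [show r = r⁻¹ from (inv_eq_of_mul_eq_one_right hr2).symm]
        rw [← conj_zpow, hrz, inv_zpow]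
      calc r' * r⁻¹ * S.z ^ j * (r' * r⁻¹)⁻¹ = r' * (r⁻¹ * S.z ^ j * r) * r'⁻¹ := by group
        _ = _ := by rw [h1, (hr'z.inv_right).eq, mul_inv_cancel_right]
    have hsq : ∀ n : ℕ, Commute ((q : G) ^ (2 * n)) (S.z ^ j) := by
      intro n
      have h2 : Commute ((q : G) ^ 2) (S.z ^ j) := by
        show _ = _
        have h3 : (q : G) * ((q : G) * S.z ^ j * (q : G)⁻¹) * (q : G)⁻¹ = S.z ^ j := by
          rw [hinvq, ← conj_inv, hinvq, inv_inv]
        calc (q : G) ^ 2 * S.z ^ j = (q : G) * ((q : G) * S.z ^ j * (q : G)⁻¹) * (q : G)⁻¹ * (q : G) ^ 2 := by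
              rw [pow_two]; group
          _ = _ := by rw [h3]
      rw [pow_mul]
      exact h2.pow_left n
    obtain ⟨n, hn⟩ : Odd (orderOf q) :=
      hNodd.of_dvd_nat (by
        have := orderOf_dvd_natCard (⟨q, hqN⟩ : N)
        rwa [Subgroup.orderOf_mk] at this)
    have hqc : Commute (q : G) (S.z ^ j) := by
      have h := hsq (n + 1)
      rwa [show 2 * (n + 1) = orderOf q + 1 by omega, pow_succ, ← Subgroup.coe_pow,
        pow_orderOf_eq_one, OneMemClass.coe_one, one_mul] at h
    rw [hqc.eq, mul_inv_cancel_right, eq_inv_iff_mul_eq_one, ← zpow_add] at hinvq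
    have h3 := orderOf_dvd_iff_zpow_eq_one.2 hinvq
    rw [S.orderOf_z] at h3
    omega
  · -- `T` is the dihedral group of order eight
    have htop := gen rT hrD hvr
    have hTE : T ≤ E := by
      intro x hx
      have : (⟨x, hx⟩ : T) ∈ Subgroup.closure ({vT, rT} : Set T) := htop ▸ Subgroup.mem_top _
      have h := Subgroup.mem_map_of_mem T.subtype this
      rw [MonoidHom.map_closure, Set.image_pair] at h
      refine Subgroup.closure_mono ?_ h
      rintro y (rfl | rfl) <;> simp [vT, rT]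
    obtain ⟨k, l, m, hklm⟩ := hin (hTE huT)
    exact hunc (hklm ▸ S.conj_D8_invol (hklm ▸ hu2) (hklm ▸ hu1))

theorem X_cases [Finite G] : S.j x7 ∈ S.CV ∨ S.j x6 ∈ S.CV :=
  S.CV_cases.resolve_left S.not_single

end Sys

end Cfsg.Agent.H17.AltEight
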