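import Cfsg.Agent.H17.AltEight.Perms
import Cfsg.Agent.H20.Generation

/-!
Glued pair of local embeddings and the structure of the centraliser of a four-group.
-/

set_option autoImplicit false

namespace Cfsg.Agent.H17.AltEight

open Equiv

theorem InK_basic : InK pC ∧ InK pD ∧ InK pt ∧ InK pv ∧ InK a1 ∧ InK a2 ∧ InK pr := by decide +kernel

theorem InK'_basic : InK' pC ∧ InK' pD ∧ InK' a1 ∧ InK' a2 ∧ InK' x7 ∧ InK' x6 := by decide +kernel

/-- Two local embeddings into `G` which agree on the common part. -/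
structure Sys (G : Type*) [Group G] where
  ι : P8 → G
  j : P8 → G
  ι_mul : ∀ {p q : P8}, InK p → InK q → ι (p * q) = ι p * ι q
  ι_inj : ∀ {p q : P8}, InK p → InK q → ι p = ι q → p = q
  ι_surj : ∀ g : G, g * ι pC * g⁻¹ ∈ Subgroup.zpowers (ι pC) → ∃ p, InK p ∧ ι p = g
  j_mul : ∀ {p q : P8}, InK' p → InK' q → j (p * q) = j p * j q
  j_inj : ∀ {p q : P8}, InK' p → InK' q → j p = j q → p = q
  j_surj : ∀ g : G, g * j pD * g⁻¹ ∈ Subgroup.zpowers (j pD) → ∃ p, InK' p ∧ j p = g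
  agree : ∀ {p : P8}, InK p → InK' p → j p = ι p
  not27 : ¬ 27 ∣ Nat.card G
  conj_a : IsConj (ι a2) (ι a1)
  cardY : Nat.card (Subgroup.centralizer {ι pC * ι pD} : Subgroup G) = 18

namespace Sys

variable {G : Type*} [Group G] (S : Sys G)

theorem ι_one : S.ι 1 = 1 := by
  have h := S.ι_mul InK.one InK.one
  rw [one_mul] at h
  exact (mul_eq_left.1 h.symm)

theorem j_one : S.j 1 = 1 := by
  have h := S.j_mul InK'.one InK'.one
  rw [one_mul] at h
  exact (mul_eq_left.1 h.symm)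

theorem ι_pow {p : P8} (hp : InK p) (k : ℕ) : S.ι (p ^ k) = S.ι p ^ k := by
  induction k with
  | zero => rw [pow_zero, pow_zero, S.ι_one]
  | succ k ih => rw [pow_succ, pow_succ, S.ι_mul (hp.pow k) hp, ih]

theorem j_pow {p : P8} (hp : InK' p) (k : ℕ) : S.j (p ^ k) = S.j p ^ k := by
  induction k with
  | zero => rw [pow_zero, pow_zero, S.j_one]
  | succ k ih => rw [pow_succ, pow_succ, S.j_mul (hp.pow k) hp, ih]

theorem ι_inv {p : P8} (hp : InK p) : S.ι p⁻¹ = (S.ι p)⁻¹ := by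
  apply eq_inv_of_mul_eq_one_left
  rw [← S.ι_mul hp.inv hp, inv_mul_cancel, S.ι_one]

theorem InK'_inv {p : P8} (hp : InK' p) : InK' p⁻¹ := by
  have h : sig * p⁻¹ * sig = (sig * p * sig)⁻¹ := by
    have e : sig⁻¹ = sig := inv_eq_of_mul_eq_one_right sig_sq
    rw [mul_inv_rev, mul_inv_rev, e, mul_assoc]
  rw [InK', h]
  exact InK.inv hp

theorem j_inv {p : P8} (hp : InK' p) : S.j p⁻¹ = (S.j p)⁻¹ := by
  apply eq_inv_of_mul_eq_one_left
  rw [← S.j_mul (InK'_inv hp) hp, inv_mul_cancel, S.j_one]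

theorem ι_conj {p q : P8} (hp : InK p) (hq : InK q) :
    S.ι (p * q * p⁻¹) = S.ι p * S.ι q * (S.ι p)⁻¹ := by
  rw [S.ι_mul (hp.mul hq) hp.inv, S.ι_mul hp hq, S.ι_inv hp]

theorem j_conj {p q : P8} (hp : InK' p) (hq : InK' q) :
    S.j (p * q * p⁻¹) = S.j p * S.j q * (S.j p)⁻¹ := by
  rw [S.j_mul (hp.mul hq) (InK'_inv hp), S.j_mul hp hq, S.j_inv hp]

theorem ι_comm {p q : P8} (hp : InK p) (hq : InK q) (h : p * q = q * p) :
    Commute (S.ι p) (S.ι q) := by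
  show _ * _ = _ * _
  rw [← S.ι_mul hp hq, ← S.ι_mul hq hp, h]

theorem ι_comm_iff {p q : P8} (hp : InK p) (hq : InK q) :
    Commute (S.ι p) (S.ι q) ↔ p * q = q * p := by
  refine ⟨fun h => S.ι_inj (hp.mul hq) (hq.mul hp) ?_, S.ι_comm hp hq⟩
  rw [S.ι_mul hp hq, S.ι_mul hq hp]
  exact h

theorem j_comm_iff {p q : P8} (hp : InK' p) (hq : InK' q) :
    Commute (S.j p) (S.j q) ↔ p * q = q * p := by
  refine ⟨fun h => S.j_inj (hp.mul hq) (hq.mul hp) ?_, fun h => ?_⟩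
  · rw [S.j_mul hp hq, S.j_mul hq hp]
    exact h
  · show _ * _ = _ * _
    rw [← S.j_mul hp hq, ← S.j_mul hq hp, h]

theorem eq_of_conj {g a : G} (h : Commute g a) : g * a * g⁻¹ ∈ Subgroup.zpowers a := by
  rw [h.eq, mul_inv_cancel_right]
  exact Subgroup.mem_zpowers a

theorem exists_ι_of_comm {g : G} (h : Commute g (S.ι pC)) :
    ∃ p, InK p ∧ p * pC = pC * p ∧ S.ι p = g := by
  obtain ⟨p, hp, rfl⟩ := S.ι_surj g (eq_of_conj h)
  exact ⟨p, hp, (S.ι_comm_iff hp InK_basic.1).1 h, rfl⟩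

theorem exists_j_of_comm {g : G} (h : Commute g (S.ι pD)) :
    ∃ p, InK' p ∧ p * pD = pD * p ∧ S.j p = g := by
  rw [← S.agree InK_basic.2.1 InK'_basic.2.1] at h
  obtain ⟨p, hp, rfl⟩ := S.j_surj g (eq_of_conj h)
  exact ⟨p, hp, (S.j_comm_iff hp InK'_basic.2.1).1 h, rfl⟩

/-- The element `pC` in `G`. -/
abbrev z : G := S.ι pC

/-- The element `pD` in `G`. -/
abbrev w : G := S.ι pD

theorem z_pow3 : S.z ^ 3 = 1 := by
  rw [← S.ι_pow InK_basic.1, show pC ^ 3 = (1 : P8) by decide +kernel, S.ι_one]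

theorem w_pow3 : S.w ^ 3 = 1 := by
  rw [← S.ι_pow InK_basic.2.1, show pD ^ 3 = (1 : P8) by decide +kernel, S.ι_one]

theorem z_ne_one : S.z ≠ 1 := by
  intro h
  exact absurd (S.ι_inj InK_basic.1 InK.one (by rw [S.ι_one]; exact h)) (by decide +kernel)

theorem comm_zw : Commute S.z S.w :=
  S.ι_comm InK_basic.1 InK_basic.2.1 (by decide +kernel)

theorem orderOf_z : orderOf S.z = 3 :=
  orderOf_eq_prime S.z_pow3 S.z_ne_one

/-- The abelian group generated by `z` and `w`. -/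
def D : Subgroup G := Subgroup.closure {S.z, S.w}

theorem z_mem_D : S.z ∈ S.D := Subgroup.subset_closure (by simp)

theorem w_mem_D : S.w ∈ S.D := Subgroup.subset_closure (by simp)

theorem D_form {d : G} (hd : d ∈ S.D) :
    ∃ a b : ℕ, a < 3 ∧ b < 3 ∧ d = S.z ^ a * S.w ^ b := by
  suffices ∃ a b : ℕ, d = S.z ^ a * S.w ^ b by
    obtain ⟨a, b, rfl⟩ := this
    exact ⟨a % 3, b % 3, Nat.mod_lt _ (by norm_num), Nat.mod_lt _ (by norm_num), by
      rw [← pow_eq_pow_mod a S.z_pow3, ← pow_eq_pow_mod b S.w_pow3]⟩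
  induction hd using Subgroup.closure_induction with
  | mem x hx =>
    rcases hx with rfl | hx
    · exact ⟨1, 0, by simp⟩
    · rw [Set.mem_singleton_iff] at hx
      subst hx
      exact ⟨0, 1, by simp⟩
  | one => exact ⟨0, 0, by simp⟩
  | mul x y _ _ hx hy =>
    obtain ⟨a, b, rfl⟩ := hx
    obtain ⟨c, e, rfl⟩ := hy
    refine ⟨a + c, b + e, ?_⟩
    rw [pow_add, pow_add]
    exact ((S.comm_zw.pow_pow c b).symm.mul_mul_mul_comm _ _)
  | inv x _ hx =>
    obtain ⟨a, b, rfl⟩ := hx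
    refine ⟨2 * a, 2 * b, ?_⟩
    apply inv_eq_of_mul_eq_one_right
    rw [(S.comm_zw.pow_pow (2 * a) b).symm.mul_mul_mul_comm, ← pow_add, ← pow_add,
      show a + 2 * a = 3 * a by ring, show b + 2 * b = 3 * b by ring, pow_mul, pow_mul, S.z_pow3,
      S.w_pow3, one_pow, one_pow, one_mul]

instance D_comm : IsMulCommutative S.D := by
  refine ⟨⟨fun ⟨x, hx⟩ ⟨y, hy⟩ => Subtype.ext ?_⟩⟩
  obtain ⟨a, b, -, -, rfl⟩ := S.D_form hx
  obtain ⟨c, e, -, -, rfl⟩ := S.D_form hy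
  have h := S.comm_zw
  exact ((((Commute.refl S.z).pow_pow a c).mul_right (h.pow_pow a e)).mul_left
    ((h.pow_pow c b).symm.mul_right ((Commute.refl S.w).pow_pow b e))).eq

theorem D_not_cyclic : ¬ IsCyclic S.D := by
  intro hc
  obtain ⟨⟨g, hg⟩, hgen⟩ := hc.exists_zpow_surjective
  obtain ⟨k, hk⟩ := hgen ⟨S.z, S.z_mem_D⟩
  obtain ⟨l, hl⟩ := hgen ⟨S.w, S.w_mem_D⟩
  have hk' : g ^ k = S.z := congrArg Subtype.val hk
  have hl' : g ^ l = S.w := congrArg Subtype.val hl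
  have hg3 : g ^ 3 = 1 := by
    obtain ⟨a, b, -, -, rfl⟩ := S.D_form hg
    rw [(S.comm_zw.pow_pow a b).mul_pow, ← pow_mul, ← pow_mul, mul_comm a, mul_comm b, pow_mul,
      pow_mul, S.z_pow3, S.w_pow3, one_pow, one_pow, one_mul]
  have hord : orderOf g ∣ 3 := orderOf_dvd_of_pow_eq_one hg3
  have hzg : S.w ∈ Subgroup.zpowers S.z := by
    have h1 : Subgroup.zpowers S.z ≤ Subgroup.zpowers g := by
      rw [Subgroup.zpowers_le, ← hk']; exact ⟨k, rfl⟩
    have h2 : Subgroup.zpowers S.z = Subgroup.zpowers g := by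
      have : Finite (Subgroup.zpowers g) := (Set.Finite.to_subtype
        (orderOf_pos_iff.1 (Nat.pos_of_dvd_of_pos hord (by norm_num))).finite_zpowers)
      refine Subgroup.eq_of_le_of_card_ge h1 ?_
      rw [Nat.card_zpowers, Nat.card_zpowers, S.orderOf_z]
      exact Nat.le_of_dvd (by norm_num) hord
    rw [h2, ← hl']; exact ⟨l, rfl⟩
  obtain ⟨m, hm⟩ := Subgroup.mem_zpowers_iff.1 hzg
  have hm' : S.z ^ (m % 3).toNat = S.w := by
    rw [← hm, ← zpow_natCast, Int.toNat_of_nonneg (Int.emod_nonneg _ (by norm_num)),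
      ← zpow_mod_orderOf S.z m, S.orderOf_z]
    rfl
  rw [← S.ι_pow InK_basic.1] at hm'
  have := S.ι_inj (InK_basic.1.pow _) InK_basic.2.1 hm'
  have hlt : (m % 3).toNat < 3 := by omega
  interval_cases (m % 3).toNat <;> exact absurd this (by decide +kernel)

theorem D_form_ι {d : G} (hd : d ∈ S.D) :
    ∃ a b : Fin 3, d = S.ι (pC ^ a.val * pD ^ b.val) := by
  obtain ⟨a, b, ha, hb, rfl⟩ := S.D_form hd
  refine ⟨⟨a, ha⟩, ⟨b, hb⟩, ?_⟩
  rw [S.ι_mul (InK_basic.1.pow _) (InK_basic.2.1.pow _), S.ι_pow InK_basic.1,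
    S.ι_pow InK_basic.2.1]

theorem card_D_dvd : Nat.card S.D ∣ 9 := by
  have h : IsPGroup 3 S.D := fun ⟨d, hd⟩ => ⟨1, Subtype.ext (by
    obtain ⟨a, b, -, -, rfl⟩ := S.D_form hd
    simp only [SubgroupClass.coe_pow, OneMemClass.coe_one, pow_one]
    rw [(S.comm_zw.pow_pow a b).mul_pow, ← pow_mul, ← pow_mul, mul_comm a, mul_comm b, pow_mul,
      pow_mul, S.z_pow3, S.w_pow3, one_pow, one_pow, one_mul])⟩
  have : Finite S.D := by
    have hfin : (S.D : Set G) ⊆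
        Set.range (fun ab : Fin 3 × Fin 3 => S.ι (pC ^ ab.1.val * pD ^ ab.2.val)) := fun d hd => by
      obtain ⟨a, b, h⟩ := S.D_form_ι hd
      exact ⟨(a, b), h.symm⟩
    exact ((Set.finite_range _).subset hfin).to_subtype
  obtain ⟨n, hn⟩ := IsPGroup.iff_card.1 h
  have hle : Nat.card S.D ≤ 9 := by
    refine le_trans (Nat.card_le_card_of_surjective
      (fun ab : Fin 3 × Fin 3 => (⟨S.ι (pC ^ ab.1.val * pD ^ ab.2.val), by
        rw [S.ι_mul (InK_basic.1.pow _) (InK_basic.2.1.pow _), S.ι_pow InK_basic.1,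
          S.ι_pow InK_basic.2.1]
        exact mul_mem (pow_mem S.z_mem_D _) (pow_mem S.w_mem_D _)⟩ : S.D))
      fun ⟨d, hd⟩ => ?_) (by simp)
    obtain ⟨a, b, rfl⟩ := S.D_form_ι hd
    exact ⟨(a, b), rfl⟩
  rw [hn] at hle ⊢
  have : n ≤ 2 := by
    by_contra hc
    have : 3 ^ 3 ≤ 3 ^ n := Nat.pow_le_pow_right (by norm_num) (by omega)
    omega
  interval_cases n <;> norm_num

/-- A diagonal element of `D` has centraliser of order eighteen. -/
theorem card_cent_diag (a b : Fin 3) (ha : a ≠ 0) (hb : b ≠ 0) :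
    Nat.card (Subgroup.centralizer {S.ι (pC ^ a.val * pD ^ b.val)} : Subgroup G) = 18 := by
  have key : ∃ g, InK g ∧ g * (pC * pD) * g⁻¹ = pC ^ a.val * pD ^ b.val := by
    have h : ∀ a b : Fin 3, a ≠ 0 → b ≠ 0 → ∃ k l : Fin 2,
        (a1 ^ k.val * a2 ^ l.val) * (pC * pD) * (a1 ^ k.val * a2 ^ l.val)⁻¹ = pC ^ a.val * pD ^ b.val := by
      decide +kernel
    obtain ⟨k, l, h⟩ := h a b ha hb
    exact ⟨_, (InK_basic.2.2.2.2.1.pow _).mul (InK_basic.2.2.2.2.2.1.pow _), h⟩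
  obtain ⟨g, hg, he⟩ := key
  rw [← he, S.ι_conj hg (InK_basic.1.mul InK_basic.2.1), S.ι_mul InK_basic.1 InK_basic.2.1]
  rw [← S.cardY]
  refine Nat.card_congr
    { toFun := fun x => ⟨(S.ι g)⁻¹ * x.1 * S.ι g, ?_⟩
      invFun := fun x => ⟨S.ι g * x.1 * (S.ι g)⁻¹, ?_⟩
      left_inv := fun x => Subtype.ext (by group)
      right_inv := fun x => Subtype.ext (by group) }
  · have h := Subgroup.mem_centralizer_singleton_iff.1 x.2
    rw [Subgroup.mem_centralizer_singleton_iff]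
    calc _ = (S.ι g)⁻¹ * ((x : G) * (S.ι g * (S.z * S.w) * (S.ι g)⁻¹)) * S.ι g := by group
      _ = _ := by rw [h]; group
  · have h := Subgroup.mem_centralizer_singleton_iff.1 x.2
    rw [Subgroup.mem_centralizer_singleton_iff]
    calc _ = S.ι g * ((x : G) * (S.z * S.w)) * (S.ι g)⁻¹ := by group
      _ = _ := by rw [h]; group

/-- Elements of `C(z)` of order five show that its order is not eighteen. -/
theorem card_cent_z [Finite G] :
    5 ∣ Nat.card (Subgroup.centralizer {S.z} : Subgroup G) := by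
  let f : P8 := H62.cyc3 3 4 5 * H62.cyc3 5 6 7
  have hf : InK f ∧ f ^ 5 = 1 ∧ f ≠ 1 ∧ f * pC = pC * f := by decide +kernel
  have h5 : orderOf (S.ι f) = 5 := by
    haveI : Fact (Nat.Prime 5) := ⟨by norm_num⟩
    refine orderOf_eq_prime (by rw [← S.ι_pow hf.1, hf.2.1, S.ι_one]) fun h => hf.2.2.1 ?_
    exact S.ι_inj hf.1 InK.one (by rw [h, S.ι_one])
  have hm : S.ι f ∈ (Subgroup.centralizer {S.z} : Subgroup G) :=
    Subgroup.mem_centralizer_singleton_iff.2 (S.ι_comm hf.1 InK_basic.1 hf.2.2.2).eq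
  have h := orderOf_dvd_natCard (⟨S.ι f, hm⟩ : (Subgroup.centralizer {S.z} : Subgroup G))
  rwa [Subgroup.orderOf_mk, h5] at h

end Sys

end Cfsg.Agent.H17.AltEight
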