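import Cfsg.Agent.H17.AltEight.Types

/-!
Finite computations around the centraliser of the fixed-point-free involution `pn`.
-/

set_option autoImplicit false
set_option maxHeartbeats 1000000
set_option maxRecDepth 8000
set_option synthInstance.maxSize 4096

namespace Cfsg.Agent.H17.AltEight

open Equiv

/-- The Sylow subgroup of the alternating group containing `pt` and `pn`. -/
def InS64 (p : P8) : Prop :=
  Perm.sign p = 1 ∧ p * pn = pn * p ∧ (p * pt * p⁻¹ = pt ∨ p * pt * p⁻¹ = x7)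

instance (p : P8) : Decidable (InS64 p) := by unfold InS64; infer_instance

theorem pn_facts : Perm.sign pn = 1 ∧ pn * pn = 1 ∧ pn ≠ 1 ∧ ¬ FourPts pn ∧ pt * x7 = pn ∧
    x7 * pt = pn ∧ sig * pn = pn * sig ∧ sig * pt * sig = x7 ∧ sig * x7 * sig = pt ∧
    pt * pn = x7 ∧ pt * pn = pn * pt ∧ pv * pn = pn * pv ∧ InS64 pt ∧ InS64 sig ∧
    sig * pt ≠ pt * sig ∧ pt ≠ x7 := by
  decide +kernel

theorem InS64.mul {p q : P8} (hp : InS64 p) (hq : InS64 q) : InS64 (p * q) := by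
  obtain ⟨hp1, hp2, hp3⟩ := hp
  obtain ⟨hq1, hq2, hq3⟩ := hq
  refine ⟨by rw [map_mul, hp1, hq1, one_mul], (Commute.mul_left hp2 hq2 : Commute (p * q) pn), ?_⟩
  have hx : x7 = pt * pn := pn_facts.2.2.2.2.2.2.2.2.2.1.symm
  have hn : p * pn * p⁻¹ = pn := by rw [hp2, mul_inv_cancel_right]
  have hpx : p * x7 * p⁻¹ = p * pt * p⁻¹ * pn := by
    rw [hx]; nth_rewrite 2 [← hn]; group
  have e : p * q * pt * (p * q)⁻¹ = p * (q * pt * q⁻¹) * p⁻¹ := by group
  rw [e]
  rcases hq3 with h | h <;> rw [h]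
  · exact hp3
  · rw [hpx]
    rcases hp3 with h' | h' <;> rw [h']
    · exact Or.inr hx.symm
    · left; rw [← pn_facts.2.2.2.2.2.1]
      rw [← mul_assoc, show x7 * x7 = 1 by decide +kernel, one_mul]

theorem InS64.one : InS64 1 := by decide +kernel

theorem InS32.to64 {p : P8} (hp : InS32 p) : InS64 p := by
  refine ⟨hp.1, ?_, Or.inl (by rw [hp.2.1, mul_inv_cancel_right])⟩
  rw [← pn_facts.2.2.2.2.1]
  exact ((show Commute p pt from hp.2.1).mul_right hp.2.2).eq

theorem InS64.decomp {p : P8} (hp : InS64 p) :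
    ∃ (s : P8) (k : Fin 2), InS32 s ∧ p = s * sig ^ k.val := by
  have key : ∀ q : P8, InS64 q → q * pt * q⁻¹ = pt → InS32 q := by
    intro q hq h
    have ht : Commute q pt := mul_inv_eq_iff_eq_mul.1 h
    refine ⟨hq.1, ht.eq, ?_⟩
    rw [← pn_facts.2.2.2.2.2.2.2.2.2.1]
    exact (ht.mul_right hq.2.1).eq
  rcases hp.2.2 with h | h
  · exact ⟨p, 0, key p hp h, by simp⟩
  · have hs : InS64 sig := pn_facts.2.2.2.2.2.2.2.2.2.2.2.2.2.1
    refine ⟨p * sig, 1, key _ (hp.mul hs) ?_, ?_⟩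
    · rw [show p * sig * pt * (p * sig)⁻¹ = p * (sig * pt * sig⁻¹) * p⁻¹ by group, sig_inv,
        pn_facts.2.2.2.2.2.2.2.1]
      rw [← pn_facts.2.2.2.2.2.2.2.2.2.1]
      calc p * (pt * pn) * p⁻¹ = p * pt * p⁻¹ * (p * pn * p⁻¹) := by group
        _ = pt := by rw [h, hp.2.1, mul_inv_cancel_right, ← pn_facts.2.2.2.2.2.1, ← mul_assoc,
          show x7 * x7 = 1 by decide +kernel, one_mul]
    · simp [mul_assoc, sig_sq]

/-- The pairs describing the elements centralising `pt` and `x7`. -/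
def P32 : Type := {ab : Perm (Fin 4) × Perm (Fin 4) //
  Perm.sign ab.1 * Perm.sign ab.2 = 1 ∧ ab.1 * qt = qt * ab.1 ∧ ab.2 * qt = qt * ab.2}

instance : Fintype P32 := by unfold P32; infer_instance

theorem card_P32 : Fintype.card P32 = 32 := by decide +kernel

/-- Four elements used to separate conjugates. -/
def movers64 : Fin 4 → P8 := ![pv, swap 0 2 * swap 1 7, pr, sig]

theorem movers64_mem : ∀ i, InS64 (movers64 i) := by decide +kernel

/-- The involutions of `S32` with four fixed points other than the two central ones. -/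
def SepHyp (a b : Perm (Fin 4)) : Prop :=
  a * qt = qt * a ∧ b * qt = qt * b ∧ Perm.sign a * Perm.sign b = 1 ∧ a * a = 1 ∧ b * b = 1 ∧
    fx a + fx b = 4 ∧ ¬ (a = 1 ∧ b = qt) ∧ ¬ (a = qt ∧ b = 1)

instance (a b : Perm (Fin 4)) : Decidable (SepHyp a b) := by unfold SepHyp; infer_instance

/-- Three distinct conjugates. -/
def Sep (p : P8) : Prop := ∃ i j : Fin 4,
  movers64 i * p * (movers64 i)⁻¹ ≠ p ∧ movers64 j * p * (movers64 j)⁻¹ ≠ p ∧
    movers64 i * p * (movers64 i)⁻¹ ≠ movers64 j * p * (movers64 j)⁻¹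

instance (p : P8) : Decidable (Sep p) := by unfold Sep; infer_instance

theorem sep_dec : ∀ a b : Perm (Fin 4), SepHyp a b → Sep (glue44 a b) := by decide +kernel

theorem no_fixed_of_swap {p : P8} (h : p * pt * p⁻¹ = x7) : ¬ FourPts p := by
  have hmov : ∀ i : Fin 8, pt i = i ↔ ¬ x7 i = i := by decide +kernel
  have hpx : ∀ i, x7 (p i) = p (pt i) := fun i => by
    rw [← h]; simp
  have hno : ∀ i : Fin 8, p i ≠ i := by
    intro i hi
    have h1 := hpx i
    rw [hi] at h1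
    by_cases ht : pt i = i
    · rw [ht, hi] at h1; exact (hmov i).1 ht h1
    · have hx : x7 i = i := by
        by_contra hc; exact ht ((hmov i).2 hc)
      rw [hx] at h1
      exact ht (p.injective (h1.symm.trans hi.symm))
  intro h4
  have : (Finset.univ.filter fun i => p i = i).card = 4 := h4
  rw [Finset.filter_eq_empty_iff.2 (fun i _ => hno i)] at this
  simp at this

theorem S64_separate {p : P8} (hp : InS64 p) (h2 : p * p = 1) (h4 : FourPts p) (hnt : p ≠ pt)
    (hnx : p ≠ x7) : Sep p := by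
  rcases hp.2.2 with h | h
  · have ht : Commute p pt := mul_inv_eq_iff_eq_mul.1 h
    have hS : InS32 p := by
      refine ⟨hp.1, ht.eq, ?_⟩
      rw [← pn_facts.2.2.2.2.2.2.2.2.2.1]
      exact (ht.mul_right hp.2.1).eq
    obtain ⟨a, b, rfl⟩ := C_pt_form ht.eq
    rw [InS32_glue] at hS
    rw [glue44_mul, ← glue44_one, glue44_inj] at h2
    rw [FourPts_glue] at h4
    rw [glue_vals.1, Ne, glue44_inj] at hnt
    rw [glue_vals.2.2.1, Ne, glue44_inj] at hnx
    exact sep_dec a b ⟨hS.2.1, hS.2.2, hS.1, h2.1, h2.2, h4, hnt, hnx⟩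
  · exact absurd h4 (no_fixed_of_swap h)

/-- A conjugate of `pC * pD` commuting with `pn`. -/
def py : P8 := H62.cyc3 0 3 5 * H62.cyc3 1 4 6

/-- A permutation carrying `pC * pD` to `py`. -/
def ph : P8 := swap 1 3 * (swap 2 7 * swap 2 6 * swap 2 5)

theorem py_facts : Perm.sign ph = 1 ∧ ph * (pC * pD) * ph⁻¹ = py ∧ py * pn = pn * py ∧
    Perm.sign py = 1 ∧ py ^ 3 = 1 ∧ py ≠ 1 ∧ (pn * py) ^ 3 ≠ 1 ∧
    ∀ a b : Fin 3, ∀ c : Fin 2,
      ph * (pC ^ a.val * pD ^ b.val * sig ^ c.val) * ph⁻¹ * pn =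
        pn * (ph * (pC ^ a.val * pD ^ b.val * sig ^ c.val) * ph⁻¹) →
      ∃ i : Fin 3, ∃ k : Fin 2,
        ph * (pC ^ a.val * pD ^ b.val * sig ^ c.val) * ph⁻¹ = py ^ i.val * pn ^ k.val := by
  decide +kernel

end Cfsg.Agent.H17.AltEight
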